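import Cfsg.Agent.Lib.DihedralBlock.Columns
import Cfsg.Agent.Lib.BrauerPairs.BridgePairs

/-!
# Class elements attached to subsections and their images in the blocks of centralisers

For a section element and a block idempotent of its centraliser, the sum of the conjugates is a
class element; its truncation times a block idempotent is a Fourier sum.
-/

set_option autoImplicit false
set_option linter.style.haveILetI false
set_option linter.unusedSectionVars false

noncomputable section

namespace CfsgLib.DihedralBlock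

open Cfsg CfsgLib.Blocks MonoidAlgebra CfsgLib.BrauerPairs CfsgLib.BlockStar
open CfsgLib.BrauerCharacters (cenElem commute_cenElem)
open scoped ComplexConjugate

variable {G : Type*} [Group G] [Fintype G] {M : Ideal AlgInt} [M.IsPrime]

/-- The lift of the idempotent of a block of a subgroup. -/
def liftIdem (C : Subgroup G) {b : Set (IrrCharacter C)} (hb : IsPBlock M b) :
    MonoidAlgebra (locRing M) G :=
  incl C (idemLoc M b (memLocalRing_blockCoeff hb) : MonoidAlgebra (locRing M) C)

variable {C : Subgroup G} [Fintype C] {b : Set (IrrCharacter C)}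

theorem liftIdem_mul_self (hb : IsPBlock M b) : liftIdem C hb * liftIdem C hb = liftIdem C hb := by
  rw [liftIdem, ← map_mul]
  exact congrArg (incl C) (congrArg Subtype.val (idemLoc_mul_self _))

theorem map_liftIdem (hb : IsPBlock M b) :
    mapRingHom G (red M) (liftIdem C hb) = subIdem M C b := by
  rw [liftIdem, coe_classMap_incl]
  refine MonoidAlgebra.ext (Finsupp.ext fun g => ?_)
  rw [coeff_redElem, subgroupBlockCoeff]
  by_cases hg : g ∈ C
  · rw [dif_pos hg, redC_of_mem (memLocalRing_blockCoeff hb _)]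
    exact (coeff_incl_of_mem C _ ⟨g, hg⟩).trans (coeff_idemRes _ _)
  · rw [dif_neg hg, coeff_incl_of_notMem C _ hg, redC_zero]

theorem commute_liftIdem (hb : IsPBlock M b) (a : C) :
    Commute (single (a : G) (1 : locRing M)) (liftIdem C hb) := by
  rw [liftIdem, ← incl_single]
  exact ((idemLoc M b (memLocalRing_blockCoeff hb)).2.commute (single a 1)).map (incl C)

/-- The part in a block as a combination of a column. -/
theorem sum_blockCoeff_mul_apply_eq (hb : IsPBlock M b) (χ : IrrCharacter G) (a : C) :
    ∑ c : C, blockCoeff b c * (χ : G → ℂ) ((c : G) * a) = subFun C b χ a := by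
  rw [← val_subIdem χ C hb a, val_eq χ (liftIdem_mul_self hb) (map_liftIdem hb)
    (commute_liftIdem hb a), (commute_liftIdem hb a).eq, chiSum_eq_evalAt, liftIdem, evalAt_incl]
  rfl

/-- The image of a class element in the block, by Fourier inversion. -/
theorem sum_coeff_mul_blockCoeff [Fintype (IrrCharacter G)] (hb : IsPBlock M b)
    {z : MonoidAlgebra ℂ G} (hz : IsClassElem z) (w : C) :
    ∑ c : C, z.coeff ((w : G) * (c : G)⁻¹) * blockCoeff b c =
      (Nat.card G : ℂ)⁻¹ * ∑ χ : IrrCharacter G,
        (χ : G → ℂ) 1 * omega (χ : G → ℂ) z * subFun C b χ w⁻¹ := by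
  simp only [coeff_eq_sum_omega hz, ← sum_blockCoeff_mul_apply_eq hb, Finset.mul_sum,
    Finset.sum_mul]
  rw [Finset.sum_comm]
  refine Finset.sum_congr rfl fun χ _ => Finset.sum_congr rfl fun c _ => ?_
  rw [show ((w⁻¹ : C) : G) = (w : G)⁻¹ from rfl,
    show (c : G) * (w : G)⁻¹ = ((w : G) * (c : G)⁻¹)⁻¹ by group, CharTheory.IsIrrCharacter.inv χ.2]
  ring

/-- The same image over the residue field. -/
theorem coeff_trunc_mul_subIdem (hb : IsPBlock M b) (x : MonoidAlgebra (locRing M) G) (w : C)
    (h : MemLocalRing M (∑ c : C, ((x.coeff ((w : G) * (c : G)⁻¹) : locRing M) : ℂ) * blockCoeff b c)) :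
    (trunc C (mapRingHom G (red M) x) * subIdem M C b).coeff (w : G) = red M ⟨_, h⟩ := by
  classical
  rw [← map_liftIdem hb, coeff_mul_eq_sum,
    ← Equiv.sum_comp ((Equiv.inv G).trans (Equiv.mulLeft (w : G)))]
  simp only [Equiv.trans_apply, Equiv.inv_apply, Equiv.coe_mulLeft]
  rw [← Finset.sum_subset (Finset.subset_univ ((Finset.univ : Finset C).map
    (Function.Embedding.subtype (· ∈ C))))]
  · rw [Finset.sum_map]
    have hsum : (⟨_, h⟩ : locRing M) = ∑ c : C, x.coeff ((w : G) * (c : G)⁻¹) *
        (⟨blockCoeff b c, memLocalRing_blockCoeff hb c⟩ : locRing M) := by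
      refine Subtype.ext ?_
      rw [AddSubmonoidClass.coe_finsetSum]
      rfl
    rw [hsum, map_sum]
    refine Finset.sum_congr rfl fun c _ => ?_
    show (trunc C _).coeff ((w : G) * (c : G)⁻¹) * (mapRingHom G (red M) _).coeff
      (((w : G) * (c : G)⁻¹)⁻¹ * (w : G)) = _
    rw [coeff_trunc_of_mem (C.mul_mem w.2 (C.inv_mem c.2)), coeff_mapRingHom,
      show (((w : G) * (c : G)⁻¹)⁻¹ * (w : G)) = (c : G) by group, coeff_mapRingHom, liftIdem,
      coeff_incl_of_mem, ← map_mul]
    rfl
  · intro g _ hg
    rw [coeff_mapRingHom, show ((w : G) * g⁻¹)⁻¹ * (w : G) = g by group, liftIdem,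
      coeff_incl_of_notMem _ _ fun hgC => hg (Finset.mem_map.2 ⟨⟨g, hgC⟩, Finset.mem_univ _, rfl⟩),
      map_zero, mul_zero]

/-- The sum of the conjugates of a section element times the idempotent of a block. -/
def subsecSum (v : G) [Fintype (Subgroup.centralizer ({v} : Set G))]
    {b : Set (IrrCharacter (Subgroup.centralizer ({v} : Set G)))} (hb : IsPBlock M b) :
    MonoidAlgebra (locRing M) G :=
  haveI := Fintype.ofFinite (G ⧸ Subgroup.centralizer ({v} : Set G))
  ofFun fun x => ∑ q : G ⧸ Subgroup.centralizer ({v} : Set G),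
    (single v 1 * liftIdem (Subgroup.centralizer ({v} : Set G)) hb).coeff
      ((Quotient.out q)⁻¹ * x * Quotient.out q)

variable {v : G} [Fintype (Subgroup.centralizer ({v} : Set G))]
  {bv : Set (IrrCharacter (Subgroup.centralizer ({v} : Set G)))}

/-- It is constant on classes. -/
theorem isClassElem_subsecSum (hb : IsPBlock M bv) : IsClassElem (subsecSum v hb) := by
  classical
  haveI := Fintype.ofFinite (G ⧸ Subgroup.centralizer ({v} : Set G))
  refine isClassElem_ofFun fun h x => ?_
  refine Finset.sum_equiv (MulAction.toPerm h⁻¹) (by simp) fun q _ => ?_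
  set y := single v 1 * liftIdem (Subgroup.centralizer ({v} : Set G)) hb
  have hy : ∀ c ∈ Subgroup.centralizer ({v} : Set G), ∀ t : G,
      y.coeff (c * t * c⁻¹) = y.coeff t := by
    intro c hc
    refine coeff_conj_of_commute (Commute.mul_right ?_ (commute_liftIdem hb ⟨c, hc⟩))
    rw [Commute, SemiconjBy, single_mul_single, single_mul_single]
    exact congrArg (fun t : G => single t _) (Subgroup.mem_centralizer_singleton_iff.1 hc)
  have hq : (MulAction.toPerm h⁻¹ q).out⁻¹ * h⁻¹ * q.out ∈ Subgroup.centralizer ({v} : Set G) := by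
    rw [mul_assoc, ← QuotientGroup.eq]
    show QuotientGroup.mk (h⁻¹ • q).out = (QuotientGroup.mk (h⁻¹ • q.out) : G ⧸ _)
    rw [QuotientGroup.out_eq', ← MulAction.Quotient.smul_mk, QuotientGroup.out_eq']
  rw [← hy _ hq]
  congr 1
  group

/-- Its central characters. -/
theorem omega_subsecSum (hb : IsPBlock M bv) (χ : IrrCharacter G) :
    omega (χ : G → ℂ) (mapRingHom G (locRing M).subtype (subsecSum v hb)) =
      ((Subgroup.centralizer ({v} : Set G)).index : ℂ) * val χ v (subIdem M _ bv) /
        (χ : G → ℂ) 1 := by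
  classical
  haveI := Fintype.ofFinite (G ⧸ Subgroup.centralizer ({v} : Set G))
  rw [omega_eq_sum]
  congr 1
  have hvC : v ∈ Subgroup.centralizer ({v} : Set G) := Subgroup.mem_centralizer_singleton_iff.2 rfl
  rw [val_eq χ (liftIdem_mul_self hb) (map_liftIdem hb) (commute_liftIdem hb ⟨v, hvC⟩), chiSum,
    Subgroup.index, Nat.card_eq_fintype_card]
  simp only [coeff_mapRingHom, subsecSum, coeff_ofFun, map_sum, Finset.sum_mul]
  rw [Finset.sum_comm, ← Finset.card_univ, ← nsmul_eq_mul, ← Finset.sum_const]
  refine Finset.sum_congr (by ext; simp) fun q _ => ?_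
  refine Fintype.sum_equiv (MulAut.conj (Quotient.out q)⁻¹).toEquiv _ _ fun x => ?_
  simp only [MulEquiv.toEquiv_eq_coe, EquivLike.coe_coe, MulAut.conj_apply, inv_inv]
  conv_rhs => rw [← CharTheory.IsIrrCharacter.isClassFunction χ.2 _ (Quotient.out q)]
  congr 1
  group

end CfsgLib.DihedralBlock
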