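import Cfsg.Agent.Lib.DihedralBlock.Star

/-!
# The possible coefficient systems of a block with dihedral defect group

`a χ j` for `j ≤ m + 1` are the multiplicities on the rotations; their differences have prescribed
scalar products.
-/

set_option autoImplicit false

namespace CfsgLib.DihedralBlock

open Finset

variable {ι : Type*} [Fintype ι] [DecidableEq ι]

/-- The value of the form on two positions. -/
def ev (m x y : ℕ) : ℤ := if x = y then (if x = 0 ∨ x = m + 1 then 2 else 1) else 0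

theorem ev_ne {m x y : ℕ} (h : x ≠ y) : ev m x y = 0 := by rw [ev, if_neg h]

theorem ev_mid {m x : ℕ} (h1 : 1 ≤ x) (h2 : x ≤ m) : ev m x x = 1 := by
  rw [ev, if_pos rfl, if_neg (by omega)]

theorem ev_end {m x : ℕ} (h : x = 0 ∨ x = m + 1) : ev m x x = 2 := by
  rw [ev, if_pos rfl, if_pos h]

/-- The scalar products of the differences. -/
def Rel (m : ℕ) (a : ι → ℕ → ℤ) : Prop :=
  ∀ j k l q, j ≤ m + 1 → k ≤ m + 1 → l ≤ m + 1 → q ≤ m + 1 →
    ∑ x, (a x j - a x k) * (a x l - a x q) = ev m j l - ev m j q - ev m k l + ev m k q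

/-- The value at the central involution. -/
def valZ (m : ℕ) (a : ι → ℕ → ℤ) (x : ι) : ℤ :=
  a x 0 + a x (m + 1) + 2 * ∑ j ∈ Icc 1 m, (-1) ^ j * a x j

/-- The values of an exceptional system of rank one for the order sixteen. -/
def Exceptional (a : ι → ℕ → ℤ) : Prop :=
  ∃ c1 c2 c3 xa xb : ι, ∃ σ e1 e2 e3 ta tb : ℤ,
    (σ = 1 ∨ σ = -1) ∧ (e1 = 1 ∨ e1 = -1) ∧ (e2 = 1 ∨ e2 = -1) ∧ (e3 = 1 ∨ e3 = -1) ∧
    (ta = 1 ∨ ta = -1) ∧ (tb = 1 ∨ tb = -1) ∧
    (∀ f : ι → ℂ, ∑ x, f x = f c1 + f c2 + f c3 + f xa + f xb) ∧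
    (a c1 1 - a c1 3 = e1 ∧ a c1 0 - a c1 4 = σ * e1 ∧ valZ 3 a c1 = -e1 ∧
      a c1 0 + a c1 4 - 2 * a c1 2 = e1) ∧
    (a c2 1 - a c2 3 = 0 ∧ a c2 0 - a c2 4 = σ * e2 ∧ valZ 3 a c2 = 3 * e2 ∧
      a c2 0 + a c2 4 - 2 * a c2 2 = -e2) ∧
    (a c3 1 - a c3 3 = -e3 ∧ a c3 0 - a c3 4 = σ * e3 ∧ valZ 3 a c3 = -e3 ∧
      a c3 0 + a c3 4 - 2 * a c3 2 = e3) ∧
    (a xa 1 - a xa 3 = 0 ∧ a xa 0 - a xa 4 = 0 ∧ valZ 3 a xa = 2 * ta ∧
      a xa 0 + a xa 4 - 2 * a xa 2 = 2 * ta) ∧
    (a xb 1 - a xb 3 = 0 ∧ a xb 0 - a xb 4 = -σ * tb ∧ valZ 3 a xb = tb ∧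
      a xb 0 + a xb 4 - 2 * a xb 2 = tb)

omit [DecidableEq ι] in
/-- Small vectors whose sum vanishes nowhere. -/
theorem small_cases (A H : ι → ℤ) (s : Finset ι) {p q : ℤ} (hp : p ≤ 3) (hq : q ≤ 3)
    (hA : ∑ x ∈ s, A x * A x = p) (hH : ∑ x ∈ s, H x * H x = q)
    (hne : ∀ x ∈ s, A x + H x ≠ 0) {x : ι} (hx : x ∈ s) :
    A x * A x + H x * H x = 1 + A x * H x ∧
      (((A x + H x).natAbs = 1 ∧ A x * H x = 0) ∨ ((A x + H x).natAbs = 2 ∧ A x * H x = 1)) := by
  have h1 : A x * A x ≤ 3 :=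
    ((single_le_sum (fun i _ => mul_self_nonneg (A i)) hx).trans_eq hA).trans hp
  have h2 : H x * H x ≤ 3 :=
    ((single_le_sum (fun i _ => mul_self_nonneg (H i)) hx).trans_eq hH).trans hq
  have hA1 : A x = -1 ∨ A x = 0 ∨ A x = 1 := by
    have : -2 < A x ∧ A x < 2 := by constructor <;> nlinarith
    omega
  have hH1 : H x = -1 ∨ H x = 0 ∨ H x = 1 := by
    have : -2 < H x ∧ H x < 2 := by constructor <;> nlinarith
    omega
  have h3 := hne x hx
  rcases hA1 with e | e | e <;> rcases hH1 with e' | e' | e' <;> simp [e, e'] at h3 ⊢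

omit [DecidableEq ι] in
/-- Their number. -/
theorem small_count (A H : ι → ℤ) (s : Finset ι) {p q r : ℤ} (hp : p ≤ 3) (hq : q ≤ 3)
    (hA : ∑ x ∈ s, A x * A x = p) (hH : ∑ x ∈ s, H x * H x = q) (hAH : ∑ x ∈ s, A x * H x = r)
    (hne : ∀ x ∈ s, A x + H x ≠ 0) :
    (s.card : ℤ) = p + q - r ∧ 0 ≤ r ∧
      ((s.filter fun x => (A x + H x).natAbs = 1).card : ℤ) = p + q - 2 * r := by
  have key := fun x hx => small_cases A H s hp hq hA hH hne (x := x) hx
  refine ⟨?_, hAH ▸ sum_nonneg fun x hx => ?_, ?_⟩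
  · rw [← hA, ← hH, ← hAH, ← sum_add_distrib, ← sum_sub_distrib, card_eq_sum_ones]
    push_cast
    exact sum_congr rfl fun x hx => by linarith [(key x hx).1]
  · rcases (key x hx).2 with h | h <;> linarith [h.2]
  · rw [← hA, ← hH, ← hAH, mul_sum, ← sum_add_distrib, ← sum_sub_distrib, card_eq_sum_ones,
      sum_filter]
    push_cast
    refine sum_congr rfl fun x hx => ?_
    have h1 := (key x hx).1
    rcases (key x hx).2 with h | h
    · rw [if_pos h.1]; linarith [h.2]
    · rw [if_neg (by omega)]; linarith [h.2]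

variable {m : ℕ} {a : ι → ℕ → ℤ}

theorem neg_one_pow_sum (hm : Odd m) : ∑ j ∈ Icc 1 m, (-1 : ℤ) ^ j = -1 := by
  obtain ⟨k, rfl⟩ := hm
  induction k with
  | zero => simp
  | succ k ih =>
    rw [show 2 * (k + 1) + 1 = 2 * k + 1 + 1 + 1 by ring, sum_Icc_succ_top (by omega),
      sum_Icc_succ_top (by omega), ih]
    ring_nf

/-- The coefficients in the interior form an orthonormal system up to constants. -/
theorem exists_basis (hm : 3 ≤ m) (hodd : Odd m) (R : Rel m a) :
    ∃ (c : ℕ → ι) (ε : ℕ → ℤ) (b : ι → ℤ), (∀ j, ε j = 1 ∨ ε j = -1) ∧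
      Set.InjOn c ↑(Icc 1 m) ∧
      ∀ x, ∀ j ∈ Icc 1 m, a x j = b x + if x = c j then ε j else 0 := by
  classical
  let v : Icc 2 m → ι → ℤ := fun k x => a x 1 - a x k
  have hprod : ∀ i j : Icc 2 m, ∑ x, v i x * v j x = if i = j then 2 else 1 := by
    intro i j
    have hi := mem_Icc.1 i.2
    have hj := mem_Icc.1 j.2
    simp only [v]
    rw [R 1 i 1 j (by omega) (by omega) (by omega) (by omega)]
    rw [ev_mid le_rfl (by omega), ev_ne (x := 1) (by omega), ev_ne (y := 1) (by omega)]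
    by_cases h : i = j
    · subst h
      rw [if_pos rfl, ev_mid (by omega) (by omega)]
      norm_num
    · rw [if_neg h, ev_ne fun e => h (Subtype.ext e)]
      norm_num
  have hcard : Fintype.card (Icc 2 m) = m - 1 := by
    rw [Fintype.card_coe, Nat.card_Icc]; omega
  have h3 : Fintype.card (Icc 2 m) ≠ 3 := by
    obtain ⟨k, hk⟩ := hodd
    omega
  obtain ⟨c0, s, c, u, hs, hu, hinj, hne, hv⟩ := exists_star v (fun i => by simpa using hprod i i)
    (fun i j hij => by rw [hprod, if_neg hij]) (by omega) h3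
  let c' : ℕ → ι := fun j => if h : j ∈ Icc 2 m then c ⟨j, h⟩ else c0
  let ε : ℕ → ℤ := fun j => if h : j ∈ Icc 2 m then -u ⟨j, h⟩ else s
  refine ⟨c', ε, fun x => a x 1 - if x = c0 then s else 0, fun j => ?_, ?_, ?_⟩
  · simp only [ε]
    split_ifs with h
    · have := hu ⟨j, h⟩; omega
    · exact hs
  · intro i hi j hj hij
    simp only [coe_Icc, Set.mem_Icc] at hi hj
    simp only [c', mem_Icc] at hij
    split_ifs at hij with h1 h2 h2
    · exact congrArg Subtype.val (hinj hij)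
    · exact absurd hij (hne _)
    · exact absurd hij.symm (hne _)
    · omega
  · intro x j hj
    rw [mem_Icc] at hj
    simp only [c', ε]
    by_cases h : j ∈ Icc 2 m
    · simp only [dif_pos h]
      have h1 := congrFun (hv ⟨j, h⟩) x
      simp only [v, Pi.add_apply, Pi.single_apply] at h1
      split_ifs at h1 ⊢ <;> omega
    · simp only [dif_neg h]
      obtain rfl : j = 1 := by rw [mem_Icc] at h; omega
      ring

/-- The coefficient systems. -/
theorem classify (hodd : Odd m) (R : Rel m a) (hz : ∀ x, valZ m a x ≠ 0) :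
    (Fintype.card ι = m + 4 ∧ (univ.filter fun x => (valZ m a x).natAbs = 1).card = 4 ∧
      ∀ x, (valZ m a x).natAbs = 1 ∨ (valZ m a x).natAbs = 2) ∨ (m = 3 ∧ Exceptional a) := by
  classical
  by_cases hm1 : m = 1
  · subst hm1
    left
    set A : ι → ℤ := fun x => a x 0 - a x 1 with hA
    set H : ι → ℤ := fun x => a x 2 - a x 1 with hH
    have hval : ∀ x, valZ 1 a x = A x + H x := fun x => by
      simp [valZ, hA, hH]; ring
    have e1 : ∑ x, A x * A x = 3 := by
      simp only [hA]; rw [R 0 1 0 1 (by omega) (by omega) (by omega) (by omega)]; decide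
    have e2 : ∑ x, H x * H x = 3 := by
      simp only [hH]; rw [R 2 1 2 1 (by omega) (by omega) (by omega) (by omega)]; decide
    have e3 : ∑ x, A x * H x = 1 := by
      simp only [hA, hH]; rw [R 0 1 2 1 (by omega) (by omega) (by omega) (by omega)]; decide
    have hne : ∀ x ∈ (univ : Finset ι), A x + H x ≠ 0 := fun x _ => hval x ▸ hz x
    obtain ⟨hc, -, h1⟩ := small_count A H univ le_rfl le_rfl e1 e2 e3 hne
    rw [card_univ] at hc
    refine ⟨by omega, ?_, fun x => ?_⟩
    · simp only [hval]; omega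
    · rw [hval]
      rcases (small_cases A H univ le_rfl le_rfl e1 e2 hne (mem_univ x)).2 with h | h
      · exact Or.inl h.1
      · exact Or.inr h.1
  have hm : 3 ≤ m := by obtain ⟨k, rfl⟩ := hodd; omega
  obtain ⟨c, ε, b, hε, hinj, hb⟩ := exists_basis hm hodd R
  set A : ι → ℤ := fun x => a x 0 - b x with hA
  set H : ι → ℤ := fun x => a x (m + 1) - b x with hH
  have hεε : ∀ j, ε j * ε j = 1 := fun j => by rcases hε j with e | e <;> simp [e]
  have hi1 : 1 ∈ Icc 1 m := mem_Icc.2 ⟨le_rfl, by omega⟩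
  -- the products with a constituent
  have hsel : ∀ (f : ι → ℤ) (j : ℕ), ∑ x, f x * (if x = c j then ε j else 0) = f (c j) * ε j :=
    fun f j => by simp
  have hdiff : ∀ x, ∀ j ∈ Icc 1 m, a x 0 - a x j = A x - (if x = c j then ε j else 0) ∧
      a x (m + 1) - a x j = H x - (if x = c j then ε j else 0) := fun x j hj => by
    simp only [hA, hH, hb x j hj]; omega
  have hee : ∀ j ∈ Icc 1 m, ∀ l ∈ Icc 1 m, ε j * (if c j = c l then ε l else 0) =
      if j = l then 1 else 0 := by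
    intro j hj l hl
    by_cases h : j = l
    · subst h; simp [hεε]
    · rw [if_neg h, if_neg fun e => h (hinj hj hl e), mul_zero]
  -- the constant products
  have hconst : ∀ (q : ℕ) (K : ι → ℤ), q = 0 ∨ q = m + 1 →
      (∀ x, ∀ j ∈ Icc 1 m, a x q - a x j = K x - (if x = c j then ε j else 0)) →
      ∀ j ∈ Icc 1 m, ε j * K (c j) = ε 1 * K (c 1) := by
    intro q K hq hK j hj
    have hj' := mem_Icc.1 hj
    by_cases hj1 : j = 1
    · rw [hj1]
    have h := R q 1 1 j (by omega) (by omega) (by omega) (by omega)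
    rw [sum_congr rfl (g := fun x => K x * (if x = c 1 then ε 1 else 0) -
        K x * (if x = c j then ε j else 0) - (if x = c 1 then ε 1 else 0) *
          (if x = c 1 then ε 1 else 0) + (if x = c 1 then ε 1 else 0) *
          (if x = c j then ε j else 0)) (fun x _ => by
      rw [hK x 1 hi1, hb x 1 hi1, hb x j hj]; ring), sum_add_distrib, sum_sub_distrib,
      sum_sub_distrib, hsel, hsel, hsel, hsel] at h
    simp only [if_pos] at h
    have h1 : (if c j = c 1 then ε 1 else 0) * ε j = 0 := by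
      rw [if_neg fun e => hj1 (hinj hj hi1 e), zero_mul]
    have h2 := hεε 1
    rw [h1] at h
    rw [ev_ne (x := q) (by omega), ev_ne (x := q) (by omega), ev_mid le_rfl (by omega),
      ev_ne (x := 1) (Ne.symm hj1)] at h
    linarith
  set α := ε 1 * A (c 1) with hα
  set η := ε 1 * H (c 1) with hη
  have hαj := hconst 0 A (Or.inl rfl) fun x j hj => (hdiff x j hj).1
  have hηj := hconst (m + 1) H (Or.inr rfl) fun x j hj => (hdiff x j hj).2
  rw [← hα] at hαj
  rw [← hη] at hηj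
  have hAc : ∀ j ∈ Icc 1 m, A (c j) = ε j * α ∧ H (c j) = ε j * η := fun j hj => by
    rw [← hαj j hj, ← hηj j hj, ← mul_assoc, ← mul_assoc, hεε, one_mul, one_mul]
    exact ⟨rfl, rfl⟩
  -- the square sums
  have hsq : ∀ (f g : ι → ℤ) (p q : ℕ), (p = 0 ∨ p = m + 1) → (q = 0 ∨ q = m + 1) →
      (∀ x, a x p - a x 1 = f x - (if x = c 1 then ε 1 else 0)) →
      (∀ x, a x q - a x 1 = g x - (if x = c 1 then ε 1 else 0)) →
      ∑ x, f x * g x = (if p = q then 2 else 0) + ε 1 * f (c 1) + ε 1 * g (c 1) := by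
    intro f g p q hp hq hf hg
    have h := R p 1 q 1 (by omega) (by omega) (by omega) (by omega)
    rw [sum_congr rfl (g := fun x => f x * g x - f x * (if x = c 1 then ε 1 else 0) -
        g x * (if x = c 1 then ε 1 else 0) + (if x = c 1 then ε 1 else 0) *
          (if x = c 1 then ε 1 else 0)) (fun x _ => by rw [hf x, hg x]; ring),
      sum_add_distrib, sum_sub_distrib, sum_sub_distrib, hsel, hsel, hsel] at h
    simp only [if_pos, hεε] at h
    rw [mul_comm (ε 1) (f _), mul_comm (ε 1) (g _)]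
    rw [ev_ne (x := p) (y := 1) (by omega), ev_ne (x := 1) (y := q) (by omega),
      ev_mid le_rfl (by omega)] at h
    by_cases hpq : p = q
    · subst hpq
      rw [ev_end hp] at h
      rw [if_pos rfl]
      linarith
    · rw [ev_ne hpq] at h
      rw [if_neg hpq]
      linarith
  have hAA := hsq A A 0 0 (Or.inl rfl) (Or.inl rfl) (fun x => (hdiff x 1 hi1).1)
    (fun x => (hdiff x 1 hi1).1)
  have hHH := hsq H H (m + 1) (m + 1) (Or.inr rfl) (Or.inr rfl) (fun x => (hdiff x 1 hi1).2)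
    (fun x => (hdiff x 1 hi1).2)
  have hAH := hsq A H 0 (m + 1) (Or.inl rfl) (Or.inr rfl) (fun x => (hdiff x 1 hi1).1)
    (fun x => (hdiff x 1 hi1).2)
  rw [if_pos rfl, ← hα] at hAA
  rw [if_pos rfl, ← hη] at hHH
  rw [if_neg (by omega), ← hα, ← hη] at hAH
  -- outside the family
  set out : Finset ι := univ \ (Icc 1 m).image c with hout
  have hsplit : ∀ {β : Type} [AddCommMonoid β] (f : ι → β),
      ∑ x, f x = ∑ x ∈ out, f x + ∑ j ∈ Icc 1 m, f (c j) := fun f => by
    rw [← sum_image hinj, hout, sum_sdiff (subset_univ _)]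
  have hcardJ : (Icc 1 m).card = m := by simp
  have hfam : ∀ (f g : ι → ℤ) (u w : ℤ), (∀ j ∈ Icc 1 m, f (c j) = ε j * u ∧ g (c j) = ε j * w) →
      ∑ j ∈ Icc 1 m, f (c j) * g (c j) = m * (u * w) := by
    intro f g u w hfg
    rw [sum_congr rfl (g := fun _ => u * w) (fun j hj => by
      rw [(hfg j hj).1, (hfg j hj).2]
      linear_combination (u * w) * hεε j), sum_const, hcardJ, nsmul_eq_mul]
  have oA : ∑ x ∈ out, A x * A x = 2 + 2 * α - m * (α * α) := by
    have := hsplit fun x => A x * A x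
    rw [hfam A A α α fun j hj => ⟨(hAc j hj).1, (hAc j hj).1⟩, hAA] at this
    linarith
  have oH : ∑ x ∈ out, H x * H x = 2 + 2 * η - m * (η * η) := by
    have := hsplit fun x => H x * H x
    rw [hfam H H η η fun j hj => ⟨(hAc j hj).2, (hAc j hj).2⟩, hHH] at this
    linarith
  have oAH : ∑ x ∈ out, A x * H x = α + η - m * (α * η) := by
    have := hsplit fun x => A x * H x
    rw [hfam A H α η hAc, hAH] at this
    linarith
  have hm' : (3 : ℤ) ≤ m := by exact_mod_cast hm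
  have hsmall : ∀ u : ℤ, 0 ≤ 2 + 2 * u - m * (u * u) → u = 0 ∨ (u = 1 ∧ m = 3) := by
    intro u hu
    have h1 : -1 < u := by nlinarith [mul_self_nonneg u]
    have h2 : u < 2 := by nlinarith [mul_self_nonneg u]
    rcases (show u = 0 ∨ u = 1 by omega) with rfl | rfl
    · exact Or.inl rfl
    · obtain ⟨k, hk⟩ := hodd
      exact Or.inr ⟨rfl, by omega⟩
  have hαs := hsmall α (oA ▸ sum_nonneg fun x _ => mul_self_nonneg _)
  have hηs := hsmall η (oH ▸ sum_nonneg fun x _ => mul_self_nonneg _)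
  -- the values at the involution
  have hbsum : ∀ x, ∑ j ∈ Icc 1 m, (-1) ^ j * a x j =
      -b x + ∑ j ∈ Icc 1 m, (if x = c j then (-1) ^ j * ε j else 0) := fun x => by
    rw [sum_congr rfl (g := fun j => (-1) ^ j * b x + if x = c j then (-1) ^ j * ε j else 0)
      (fun j hj => by rw [hb x j hj, mul_add, mul_ite, mul_zero]), sum_add_distrib, ← sum_mul,
      neg_one_pow_sum hodd, neg_one_mul]
  have hvout : ∀ x ∈ out, valZ m a x = A x + H x := fun x hx => by
    have hx' : ∀ j ∈ Icc 1 m, x ≠ c j := fun j hj e =>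
      (mem_sdiff.1 hx).2 (mem_image.2 ⟨j, hj, e.symm⟩)
    rw [valZ, hbsum, sum_eq_zero fun j hj => if_neg (hx' j hj)]
    simp only [hA, hH]; ring
  have hvfam : ∀ j ∈ Icc 1 m, valZ m a (c j) = ε j * (α + η + 2 * (-1) ^ j) := fun j hj => by
    rw [valZ, hbsum, sum_eq_single_of_mem j hj fun i hi hne => if_neg fun e =>
      hne (hinj hj hi e).symm, if_pos rfl]
    have h1 := (hAc j hj).1
    have h2 := (hAc j hj).2
    simp only [hA, hH] at h1 h2
    linear_combination h1 + h2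
  have hne : ∀ x ∈ out, A x + H x ≠ 0 := fun x hx => hvout x hx ▸ hz x
  -- the exceptional systems
  have hexc : (α = 1 ∧ η = 0) ∨ (α = 0 ∧ η = 1) → m = 3 → Exceptional a := by
    intro hcase hm3
    subst hm3
    obtain ⟨σ, xa, xb, ta, tb, hσ, hta, htb, hoeq, hab, ⟨hAa, hHa⟩, hb04, hbz⟩ :
        ∃ (σ : ℤ) (xa xb : ι) (ta tb : ℤ), (σ = α - η) ∧ (ta = 1 ∨ ta = -1) ∧ (tb = 1 ∨ tb = -1) ∧
          out = {xa, xb} ∧ xa ≠ xb ∧ (A xa = ta ∧ H xa = ta) ∧
          A xb - H xb = -σ * tb ∧ A xb + H xb = tb := by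
      have hp : 2 + 2 * α - ((3 : ℕ) : ℤ) * (α * α) ≤ 3 := by
        rcases hcase with ⟨e, e'⟩ | ⟨e, e'⟩ <;> simp [e]
      have hq : 2 + 2 * η - ((3 : ℕ) : ℤ) * (η * η) ≤ 3 := by
        rcases hcase with ⟨e, e'⟩ | ⟨e, e'⟩ <;> simp [e']
      obtain ⟨hc, -, hc1⟩ := small_count A H out hp hq oA oH oAH hne
      have hk := fun x hx => small_cases A H out hp hq oA oH hne (x := x) hx
      have hc2 : out.card = 2 ∧ (out.filter fun x => (A x + H x).natAbs = 1).card = 1 := by
        rcases hcase with ⟨e, e'⟩ | ⟨e, e'⟩ <;> rw [e, e'] at hc hc1 <;> norm_num at hc hc1 <;>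
          exact ⟨by exact_mod_cast hc, by exact_mod_cast hc1⟩
      obtain ⟨xb, hxb⟩ := card_eq_one.1 hc2.2
      have hxb' : xb ∈ out ∧ (A xb + H xb).natAbs = 1 := mem_filter.1 (hxb ▸ mem_singleton_self xb)
      obtain ⟨xa, hxa⟩ := card_eq_one.1
        (show (out.erase xb).card = 1 by rw [card_erase_of_mem hxb'.1, hc2.1])
      have hxa' : xa ≠ xb ∧ xa ∈ out := mem_erase.1 (hxa ▸ mem_singleton_self xa)
      have hoeq : out = {xa, xb} := by
        rw [← insert_erase hxb'.1, hxa, pair_comm]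
      have hxa1 : ¬ (A xa + H xa).natAbs = 1 := fun e => hxa'.1 <| mem_singleton.1
        (hxb ▸ mem_filter.2 ⟨hxa'.2, e⟩)
      have hAa := ((hk xa hxa'.2).2.resolve_left fun h => hxa1 h.1)
      have hb0 := ((hk xb hxb'.1).2.resolve_right fun h => by omega)
      have sA := oA
      rw [hoeq, sum_pair hxa'.1] at sA
      have ha1 : (A xa = 1 ∧ H xa = 1) ∨ (A xa = -1 ∧ H xa = -1) := by
        rcases Int.eq_one_or_neg_one_of_mul_eq_one' hAa.2 with h | h
        · exact Or.inl h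
        · exact Or.inr h
      refine ⟨α - η, xa, xb, A xa, A xb + H xb, rfl, ?_, ?_, hoeq, hxa'.1,
        ⟨rfl, ?_⟩, ?_, rfl⟩
      · omega
      · omega
      · omega
      · have haa : A xa * A xa = 1 := by rcases ha1 with h | h <;> simp [h.1]
        rcases hcase with ⟨e, e'⟩ | ⟨e, e'⟩ <;> rw [e] at sA <;> norm_num at sA <;> rw [e, e']
        · have : A xb = 0 := by nlinarith
          omega
        · have hAb : A xb * A xb = 1 := by linarith
          have hHb : H xb = 0 := by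
            rcases mul_eq_zero.1 hb0.2 with h | h
            · rw [h] at hAb; simp at hAb
            · exact h
          omega
    have m1 : (1 : ℕ) ∈ Icc 1 3 := by simp
    have m2 : (2 : ℕ) ∈ Icc 1 3 := by simp
    have m3 : (3 : ℕ) ∈ Icc 1 3 := by simp
    have hαη : α + η = 1 := by omega
    have hsum3 : ∀ {β : Type} [AddCommMonoid β] (f : ℕ → β),
        ∑ j ∈ Icc 1 3, f j = f 1 + f 2 + f 3 := fun f => by
      rw [show Icc 1 3 = ({1, 2, 3} : Finset ℕ) by decide]
      simp [add_assoc]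
    have hfamily : ∀ j ∈ Icc 1 3, a (c j) 0 - a (c j) 4 = (α - η) * ε j ∧
        a (c j) 0 + a (c j) 4 - 2 * b (c j) = ε j := fun j hj => by
      obtain ⟨h1, h2⟩ := hAc j hj
      simp only [hA, hH] at h1 h2
      exact ⟨by linear_combination h1 - h2, by linear_combination h1 + h2 + ε j * hαη⟩
    have hbv : ∀ j ∈ Icc 1 3, ∀ i ∈ Icc 1 3,
        a (c j) i = b (c j) + if j = i then ε i else 0 := fun j hj i hi => by
      rw [hb (c j) i hi]
      congr 1
      exact if_congr ⟨fun e => hinj hj hi e, fun e => e ▸ rfl⟩ rfl rfl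
    have houtb : ∀ x ∈ out, ∀ i ∈ Icc 1 3, a x i = b x := fun x hx i hi => by
      rw [hb x i hi, if_neg fun e => (mem_sdiff.1 hx).2 (mem_image.2 ⟨i, hi, e.symm⟩), add_zero]
    have hxao : xa ∈ out := by rw [hoeq]; simp
    have hxbo : xb ∈ out := by rw [hoeq]; simp
    refine ⟨c 1, c 2, c 3, xa, xb, σ, ε 1, ε 2, ε 3, ta, tb, by omega, hε 1, hε 2, hε 3, hta, htb,
      fun f => ?_, ?_, ?_, ?_, ?_, ?_⟩
    · rw [hsplit f, hoeq, sum_pair hab, hsum3]
      abel
    · have h := hfamily 1 m1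
      refine ⟨?_, hσ ▸ h.1, ?_, ?_⟩
      · rw [hbv 1 m1 1 m1, hbv 1 m1 3 m3]; simp
      · rw [hvfam 1 m1, hαη]; ring
      · rw [hbv 1 m1 2 m2]; simpa using h.2
    · have h := hfamily 2 m2
      refine ⟨?_, hσ ▸ h.1, ?_, ?_⟩
      · rw [hbv 2 m2 1 m1, hbv 2 m2 3 m3]; simp
      · rw [hvfam 2 m2, hαη]; ring
      · rw [hbv 2 m2 2 m2]; simp only [if_pos]; linarith [h.2]
    · have h := hfamily 3 m3
      refine ⟨?_, hσ ▸ h.1, ?_, ?_⟩
      · rw [hbv 3 m3 1 m1, hbv 3 m3 3 m3]; simp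
      · rw [hvfam 3 m3, hαη]; ring
      · rw [hbv 3 m3 2 m2]; simpa using h.2
    · simp only [hA, hH] at hAa hHa
      rw [houtb xa hxao 1 m1, houtb xa hxao 2 m2, houtb xa hxao 3 m3, hvout xa hxao]
      simp only [hA, hH]
      norm_num at hAa hHa ⊢
      refine ⟨?_, ?_, ?_⟩ <;> omega
    · simp only [hA, hH] at hb04 hbz
      rw [houtb xb hxbo 1 m1, houtb xb hxbo 2 m2, houtb xb hxbo 3 m3, hvout xb hxbo]
      simp only [hA, hH]
      refine ⟨sub_self _, ?_, ?_, ?_⟩ <;> linarith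
  rcases hαs with hα0 | ⟨hα1, hm3⟩ <;> rcases hηs with hη0 | ⟨hη1, hm3'⟩
  · left
    rw [hα0] at oA oAH
    rw [hη0] at oH oAH
    simp only [mul_zero, add_zero, sub_zero, zero_mul] at oA oH oAH
    obtain ⟨hc, -, hc1⟩ := small_count A H out (by norm_num) (by norm_num) oA oH oAH hne
    have h2 : ∀ j ∈ Icc 1 m, (valZ m a (c j)).natAbs = 2 := fun j hj => by
      rw [hvfam j hj, hα0, hη0, Int.natAbs_mul]
      rcases hε j with e | e <;> simp [e, Int.natAbs_mul, Int.natAbs_pow]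
    refine ⟨?_, ?_, fun x => ?_⟩
    · have := hsplit fun _ => (1 : ℕ)
      simp only [sum_const, smul_eq_mul, mul_one, card_univ, hcardJ] at this
      omega
    · rw [show (univ.filter fun x => (valZ m a x).natAbs = 1) =
        out.filter fun x => (A x + H x).natAbs = 1 from ?_]
      · omega
      ext x
      simp only [mem_filter, mem_univ, true_and]
      constructor
      · intro h
        have hx : x ∈ out := by
          rw [hout, mem_sdiff]
          refine ⟨mem_univ _, fun hx => ?_⟩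
          obtain ⟨j, hj, rfl⟩ := mem_image.1 hx
          rw [h2 j hj] at h
          omega
        exact ⟨hx, hvout x hx ▸ h⟩
      · rintro ⟨hx, h⟩
        rwa [hvout x hx]
    · by_cases hx : x ∈ out
      · rw [hvout x hx]
        rcases (small_cases A H out (by norm_num) (by norm_num) oA oH hne hx).2 with h | h
        · exact Or.inl h.1
        · exact Or.inr h.1
      · obtain ⟨j, hj, rfl⟩ : ∃ j ∈ Icc 1 m, c j = x := by simpa [hout, and_assoc] using hx
        exact Or.inr (h2 j hj)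
  · exact Or.inr ⟨hm3', hexc (Or.inr ⟨hα0, hη1⟩) hm3'⟩
  · exact Or.inr ⟨hm3, hexc (Or.inl ⟨hα1, hη0⟩) hm3⟩
  · exfalso
    rw [hα1, hm3] at oA oAH
    rw [hη1, hm3] at oH
    rw [hη1] at oAH
    norm_num at oA oH oAH
    obtain ⟨-, h, -⟩ := small_count A H out (by norm_num) (by norm_num) oA oH oAH hne
    omega

end CfsgLib.DihedralBlock
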