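import Cfsg.Agent.Lib.DihedralBlock.LocalUnits
import Cfsg.Agent.Lib.DihedralBlock.ClassProduct
import Cfsg.Agent.Lib.DihedralBlock.Lattice

/-!
# The exceptional system of order sixteen does not occur

The truncation of the product of the class elements at a generating rotation and at the involution
is the product of their truncations; the latter has no part at the section of the generator, the
former would have a unit there.
-/

set_option autoImplicit false
set_option linter.style.haveILetI false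
set_option linter.unusedSectionVars false

noncomputable section

namespace CfsgLib.DihedralBlock

open Cfsg CfsgLib.Blocks MonoidAlgebra CfsgLib.BrauerPairs CfsgLib.BlockStar
open CfsgLib.BrauerCharacters (cenElem commute_cenElem blockFinset mem_blockFinset secPart)
open CfsgLib.BlockSections (belowBlock)
open scoped ComplexConjugate

variable {G : Type*} [Group G] [Fintype G] {M : Ideal AlgInt} [M.IsPrime]

theorem coeff_mem_local (x : MonoidAlgebra (locRing M) G) (g : G) :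
    MemLocalRing M ((x.coeff g : locRing M) : ℂ) := (x.coeff g).2

variable [Fact (2 : ℕ).Prime] [CharP (Res M) 2] [IsAlgClosed (Res M)]
  {B : Set (IrrCharacter G)} {D : Subgroup G} {e0 : MonoidAlgebra (Res M) G}
  {r : G} {N : ℕ} [NeZero N] {a : IrrCharacter G → ZMod N → ℤ} {π : G → ℂ}
  [∀ y : G, Fintype (Subgroup.centralizer ({y} : Set G))] [Fintype (IrrCharacter G)]
  (hM : IsPModular 2 M) (hB : IsPBlock M B)
  (hmax : IsMaxPair 2 (⊤ : Subgroup G) (redElem M (blockCoeff B)) D e0) (h : IsDih D r N)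
  (R : IsRotData (M := M) D e0 r a π)
include hM hB hmax h R

/-- The class element at a rotation. -/
abbrev rotSum (i : ZMod N) : MonoidAlgebra (locRing M) G :=
  subsecSum (rot r i) (BlockSections.belowBlock_spec hM hB hmax (rot_mem_group h i)).1

theorem isClassElem_rotSum (i : ZMod N) :
    IsClassElem (mapRingHom G (locRing M).subtype (rotSum hM hB hmax h i)) :=
  (isClassElem_subsecSum _).map _

/-- Its central characters. -/
theorem omega_rotSum {i : ZMod N} (hi : i ≠ 0) (χ : IrrCharacter G) :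
    omega (χ : G → ℂ) (mapRingHom G (locRing M).subtype (rotSum hM hB hmax h i)) =
      ((Subgroup.centralizer ({rot r i} : Set G)).index : ℂ) * (rotVal (a χ) i * π (rot r i)) /
        (χ : G → ℂ) 1 := by
  rw [omega_subsecSum, ← R.val_eq i hi χ (rot r i) (mem_secSet.2
    ⟨1, mul_one _, Commute.one_right _, exists_orderOf_rot h i, by simp⟩)]

/-- The image of a class element at a rotation. -/
theorem sum_rotSum_mul_blockCoeff {i : ZMod N} (hi : i ≠ 0) {C : Subgroup G} [Fintype C]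
    {b : Set (IrrCharacter C)} (hb : IsPBlock M b) (w : C) :
    ∑ c : C, (((rotSum hM hB hmax h i).coeff ((w : G) * (c : G)⁻¹) : locRing M) : ℂ) *
        blockCoeff b c =
      (Nat.card G : ℂ)⁻¹ * ((Subgroup.centralizer ({rot r i} : Set G)).index : ℂ) * π (rot r i) *
        ∑ χ : IrrCharacter G, rotVal (a χ) i * subFun C b χ w⁻¹ := by
  have h1 := sum_coeff_mul_blockCoeff hb (isClassElem_rotSum hM hB hmax h R i) w
  simp only [coeff_mapRingHom] at h1
  refine h1.trans ?_
  simp only [mul_assoc, Finset.mul_sum]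
  refine Finset.sum_congr rfl fun χ _ => ?_
  rw [omega_rotSum hM hB hmax h R hi χ]
  field_simp [CharTheory.apply_one_ne_zero_of_isIrr χ.2]

/-- The image of the product of two of them. -/
theorem sum_rotSum_mul_rotSum_mul_blockCoeff {i k : ZMod N} (hi : i ≠ 0) (hk : k ≠ 0)
    {C : Subgroup G} [Fintype C] {b : Set (IrrCharacter C)} (hb : IsPBlock M b) (w : C) :
    ∑ c : C, (((rotSum hM hB hmax h i * rotSum hM hB hmax h k).coeff
        ((w : G) * (c : G)⁻¹) : locRing M) : ℂ) * blockCoeff b c =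
      (Nat.card G : ℂ)⁻¹ * ((Subgroup.centralizer ({rot r i} : Set G)).index : ℂ) *
          ((Subgroup.centralizer ({rot r k} : Set G)).index : ℂ) * π (rot r i) * π (rot r k) *
        ∑ χ : IrrCharacter G, rotVal (a χ) i * rotVal (a χ) k * subFun C b χ w⁻¹ /
          (χ : G → ℂ) 1 := by
  have hz := (isClassElem_rotSum hM hB hmax h R i).mul (isClassElem_rotSum hM hB hmax h R k)
  rw [← map_mul] at hz
  have h1 := sum_coeff_mul_blockCoeff hb hz w
  simp only [coeff_mapRingHom] at h1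
  refine h1.trans ?_
  simp only [mul_assoc, Finset.mul_sum]
  refine Finset.sum_congr rfl fun χ _ => ?_
  rw [map_mul, omega_mul χ.2 (isClassElem_rotSum hM hB hmax h R i),
    omega_rotSum hM hB hmax h R hi χ, omega_rotSum hM hB hmax h R hk χ]
  field_simp [CharTheory.apply_one_ne_zero_of_isIrr χ.2]

/-- The exceptional system is impossible. -/
theorem not_exceptional (hN : N = 8) :
    ¬ Exceptional (fun (x : blockFinset B) (j : ℕ) => a x.1 (j : ZMod N)) := by
  classical
  rintro ⟨c1, c2, c3, xa, xb, σ, e1, e2, e3, ta, tb, hσ, he1, he2, he3, hta, htb, hsum,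
    ⟨p1, p2, p3, p4⟩, ⟨q1, q2, q3, q4⟩, ⟨u1, u2, u3, u4⟩, ⟨v1, v2, v3, v4⟩, ⟨w1, w2, w3, w4⟩⟩
  simp only [Nat.cast_zero] at p1 p2 p4 q1 q2 q4 u1 u2 u4 v1 v2 v4 w1 w2 w4
  have hne : ∀ j : ℕ, 0 < j → j < 8 → ((j : ℕ) : ZMod N) ≠ 0 := fun j h1 h2 e => by
    rw [ZMod.natCast_eq_zero_iff, hN] at e
    have := Nat.le_of_dvd h1 e
    omega
  set w8 : ℂ := ZMod.stdAddChar (1 : ZMod N) + ZMod.stdAddChar (1 : ZMod N) ^ 7
  obtain ⟨hw8, hw80⟩ : w8 ^ 2 = 2 ∧ w8 ≠ 0 := sq_root_eight hN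
  -- the values
  have hval : ∀ x : blockFinset B,
      rotVal (a x.1) ((1 : ℕ) : ZMod N) = ((a x.1 0 - a x.1 (4 : ℕ) : ℤ) : ℂ) +
          w8 * ((a x.1 (1 : ℕ) - a x.1 (3 : ℕ) : ℤ) : ℂ) ∧
        rotVal (a x.1) ((2 : ℕ) : ZMod N) = ((a x.1 0 + a x.1 (4 : ℕ) - 2 * a x.1 (2 : ℕ) : ℤ) : ℂ) ∧
        rotVal (a x.1) ((3 : ℕ) : ZMod N) = ((a x.1 0 - a x.1 (4 : ℕ) : ℤ) : ℂ) -
          w8 * ((a x.1 (1 : ℕ) - a x.1 (3 : ℕ) : ℤ) : ℂ) ∧
        rotVal (a x.1) ((4 : ℕ) : ZMod N) = ((valZ 3 (fun (y : blockFinset B) j => a y.1 (j : ZMod N)) x : ℤ) : ℂ) :=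
    fun x => by
    obtain ⟨h1, h2, h3⟩ := rotVal_eight (R.even x.1) hN
    refine ⟨h1, h2, h3, ?_⟩
    rw [show (4 : ℕ) = 3 + 1 from rfl, rotVal_half (R.even x.1) (show Odd 3 from ⟨1, rfl⟩) (by omega)]
    rfl
  obtain ⟨A1, A2, A3, A4⟩ := hval c1
  obtain ⟨B1, B2, B3, B4⟩ := hval c2
  obtain ⟨C1, C2, C3, C4⟩ := hval c3
  obtain ⟨D1, D2, D3, D4⟩ := hval xa
  obtain ⟨E1, E2, E3, E4⟩ := hval xb
  simp only [p1, p2, p3, p4] at A1 A2 A3 A4
  simp only [q1, q2, q3, q4] at B1 B2 B3 B4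
  simp only [u1, u2, u3, u4] at C1 C2 C3 C4
  simp only [v1, v2, v3, v4] at D1 D2 D3 D4
  simp only [w1, w2, w3, w4] at E1 E2 E3 E4
  simp only [Int.cast_neg, Int.cast_mul, Int.cast_ofNat, Int.cast_zero] at A1 A2 A3 A4 B1 B2 B3 B4 C1 C2 C3 C4 D1 D2 D3 D4 E1 E2 E3 E4
  set i1 : ZMod N := ((1 : ℕ) : ZMod N) with hi1
  set i2 : ZMod N := ((2 : ℕ) : ZMod N)
  set i3 : ZMod N := ((3 : ℕ) : ZMod N)
  set i4 : ZMod N := ((4 : ℕ) : ZMod N) with hi4
  set i5 : ZMod N := ((5 : ℕ) : ZMod N) with hi5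
  have n1 : i1 ≠ 0 := hne 1 (by omega) (by omega)
  have n2 : i2 ≠ 0 := hne 2 (by omega) (by omega)
  have n3 : i3 ≠ 0 := hne 3 (by omega) (by omega)
  have n4 : i4 ≠ 0 := hne 4 (by omega) (by omega)
  have n5 : i5 ≠ 0 := hne 5 (by omega) (by omega)
  -- the relations of the degrees
  have hcol : ∀ i : ZMod N, i ≠ 0 →
      (c1.1 : G → ℂ) 1 * rotVal (a c1.1) i + (c2.1 : G → ℂ) 1 * rotVal (a c2.1) i +
        (c3.1 : G → ℂ) 1 * rotVal (a c3.1) i + (xa.1 : G → ℂ) 1 * rotVal (a xa.1) i +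
        (xb.1 : G → ℂ) 1 * rotVal (a xb.1) i = 0 := fun i hi => by
    rw [← hsum fun x => (x.1 : G → ℂ) 1 * rotVal (a x.1) i,
      Finset.sum_coe_sort (blockFinset B) (fun χ => (χ : G → ℂ) 1 * rotVal (a χ) i)]
    exact sum_apply_mul_rotVal_eq_zero hM hB hmax h R hi (by simp)
  have k1 := hcol i1 n1
  have k2 := hcol i2 n2
  have k3 := hcol i3 n3
  have k4 := hcol i4 n4
  rw [A1, B1, C1, D1, E1] at k1
  rw [A2, B2, C2, D2, E2] at k2
  rw [A3, B3, C3, D3, E3] at k3
  rw [A4, B4, C4, D4, E4] at k4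
  set d1 := (c1.1 : G → ℂ) 1
  set d2 := (c2.1 : G → ℂ) 1
  set d3 := (c3.1 : G → ℂ) 1
  set da := (xa.1 : G → ℂ) 1
  set db := (xb.1 : G → ℂ) 1
  set t : ℂ := (e1 : ℂ) * d1 with ht
  have hd13 : (e3 : ℂ) * d3 = t := by
    refine mul_left_cancel₀ (mul_ne_zero two_ne_zero hw80) ?_
    linear_combination k3 - k1
  have hsig : (σ : ℂ) * σ = 1 := by rcases hσ with rfl | rfl <;> norm_num
  have hde : t + (e2 : ℂ) * d2 + t - (tb : ℂ) * db = 0 := by
    refine mul_left_cancel₀ (mul_ne_zero two_ne_zero (show (σ : ℂ) ≠ 0 from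
      fun e => by rw [e, zero_mul] at hsig; exact zero_ne_one hsig)) ?_
    linear_combination k1 + k3 - 2 * (σ : ℂ) * hd13
  have hd2 : (e2 : ℂ) * d2 = t := by
    refine mul_left_cancel₀ (show (4 : ℂ) ≠ 0 by norm_num) ?_
    linear_combination k4 - k2 + 2 * hd13
  have hdb : (tb : ℂ) * db = 3 * t := by linear_combination hd2 - hde
  -- the sum at the product
  have he : ∀ e : ℤ, e = 1 ∨ e = -1 → (e : ℂ) * e = 1 := fun e h => by
    rcases h with rfl | rfl <;> norm_num
  have hd0 : ∀ x : blockFinset B, (x.1 : G → ℂ) 1 ≠ 0 := fun x =>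
    CharTheory.apply_one_ne_zero_of_isIrr x.1.2
  have hS : 3 * t * ∑ χ : IrrCharacter G,
      rotVal (a χ) i1 * rotVal (a χ) i4 * rotVal (a χ) i1 / (χ : G → ℂ) 1 = -8 := by
    rw [← Finset.sum_subset (Finset.subset_univ (blockFinset B)) fun χ _ hχ => by
      rw [rotVal_eq_zero_of_notMem hM hB hmax h R n1 fun hm => hχ (mem_blockFinset.2 hm)]
      simp, ← Finset.sum_coe_sort (blockFinset B), hsum]
    rw [A1, B1, C1, D1, E1, A4, B4, C4, D4, E4]
    have f1 : t / d1 = e1 := by rw [ht, mul_div_assoc, div_self (hd0 c1), mul_one]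
    have f2 : t / d2 = e2 := by rw [← hd2, mul_div_assoc, div_self (hd0 c2), mul_one]
    have f3 : t / d3 = e3 := by rw [← hd13, mul_div_assoc, div_self (hd0 c3), mul_one]
    have fb : 3 * t / db = tb := by rw [← hdb, mul_div_assoc, div_self (hd0 xb), mul_one]
    calc _ = 3 * (t / d1) * ((σ * e1 + w8 * e1) * -e1 * (σ * e1 + w8 * e1)) +
          3 * (t / d2) * (σ * e2 * (3 * e2) * (σ * e2)) +
          3 * (t / d3) * ((σ * e3 + w8 * -e3) * -e3 * (σ * e3 + w8 * -e3)) +
          (3 * t / db) * (-σ * tb * tb * (-σ * tb)) := by ring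
      _ = -3 * ((e1 : ℂ) * e1) ^ 2 * (σ + w8) ^ 2 + 9 * (σ * σ) * ((e2 : ℂ) * e2) ^ 2 -
          3 * ((e3 : ℂ) * e3) ^ 2 * (σ - w8) ^ 2 + σ * σ * ((tb : ℂ) * tb) ^ 2 := by
        rw [f1, f2, f3, fb]; ring
      _ = _ := by
        rw [he e1 he1, he e2 he2, he e3 he3, he tb htb]
        linear_combination (4 : ℂ) * hsig - 6 * hw8
  -- the height of the first character
  have hc1B : c1.1 ∈ B := mem_blockFinset.1 c1.2
  obtain ⟨χ1, hχ1, h01⟩ := BrauerCharacters.exists_height_eq_zero (p := 2) (B := B)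
    (Blocks.isPBlock_nonempty hB)
  have h0 : blockHeight 2 B (c1.1 : G → ℂ) = 0 := by
    obtain ⟨q, hq, hqe⟩ := exists_odd_valZ hM hB hmax h R (m := 3) ⟨1, rfl⟩ (by omega) hc1B hχ1 h01
    obtain ⟨q', hq', hqe'⟩ := exists_odd_valZ hM hB hmax h R (m := 3) ⟨1, rfl⟩ (by omega) hχ1 hχ1 h01
    rw [h01, pow_zero, one_mul] at hqe'
    rw [show valZ 3 (fun (_ : Unit) j => a c1.1 (j : ZMod N)) () = -e1 from p3] at hqe
    have hx := (Int.odd_mul.1 (hqe' ▸ hq')).1
    by_contra hne0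
    have h2 : Odd ((2 : ℤ) ^ blockHeight 2 B (c1.1 : G → ℂ) * q) := hqe ▸ Int.odd_mul.2
      ⟨by rcases he1 with rfl | rfl <;> decide, hx⟩
    exact Int.not_even_iff_odd.2 (Int.odd_mul.1 h2).1 (Int.even_pow.2 ⟨by decide, hne0⟩)
  -- the block at the generator
  have hr1 : rot r i1 = r := by rw [hi1, rot_natCast h, pow_one]
  have hgen : r ∈ Subgroup.zpowers (rot r i1) := by rw [hr1]; exact Subgroup.mem_zpowers r
  have hz5 : rot r i5 = rot r i1 * rot r i4 := by
    rw [← rot_add h, hi1, hi4, hi5, ← Nat.cast_add]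
  have hsq : rot r i1 * rot r i1 ≠ 1 := by
    rw [hr1, ← pow_two]
    intro e
    have := Nat.le_of_dvd (by omega) (h.orderOf_r ▸ orderOf_dvd_of_pow_eq_one e)
    omega
  have hz : rot r i4 = r ^ (N / 2) := by rw [hi4, rot_natCast h, hN]
  have hbelow : belowIdem (M := M) D e0 (rot r i5) = belowIdem (M := M) D e0 (rot r i1) := by
    refine subIdem_below_congr hM hB hmax h (rot_mem_group h i5) (rot_mem_group h i1)
      (le_antisymm ?_ ?_)
    · rw [Subgroup.zpowers_le, hr1]; exact rot_mem_zpowers r i5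
    · rw [Subgroup.zpowers_le, hr1, Subgroup.mem_zpowers_iff]
      refine ⟨5, ?_⟩
      rw [hi5, rot_natCast h, show (5 : ℤ) = ((5 : ℕ) : ℤ) from rfl, zpow_natCast, ← pow_mul,
        show r ^ (5 * 5) = r ^ (8 * 3 + 1) from rfl, pow_add, pow_mul,
        show r ^ 8 = 1 by rw [← hN, ← h.orderOf_r, pow_orderOf_eq_one], one_pow, one_mul, pow_one]
  obtain ⟨hbl, -, -⟩ := BlockSections.belowBlock_spec hM hB hmax (rot_mem_group h i1)
  obtain ⟨hblz, -, -⟩ := BlockSections.belowBlock_spec hM hB hmax (rot_mem_group h i4)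
  have hrk := (sum_sq_rotVal hM hB hmax h R n1 hc1B h0).2
  set C := Subgroup.centralizer ({rot r i1} : Set G) with hC
  set b := belowBlock (M := M) 2 D e0 (rot r i1) with hbdef
  obtain ⟨ρ, ur, Wr, hρ, hρ0, hur, hWr, hWr', hfr⟩ :=
    exists_unit_factor hM hB hmax h R hc1B h0 n1
  obtain ⟨ρz, uz, Wz, hρz, hρz0, huz, hWz, hWz', hfz⟩ :=
    exists_unit_factor hM hB hmax h R hc1B h0 n4
  have hzcomm : ∀ c : C, Commute (c : G) (rot r i4) := fun c => by
    have h1 : Commute (c : G) r := hr1 ▸ Subgroup.mem_centralizer_singleton_iff.1 c.2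
    rw [hz]
    exact h1.pow_right _
  have hzC : rot r i4 ∈ C := Subgroup.mem_centralizer_singleton_iff.2 (by
    rw [← rot_add h, ← rot_add h, add_comm])
  set zC : C := ⟨rot r i4, hzC⟩ with hzCdef
  have hzC2 : zC * zC = 1 := Subtype.ext (by
    show rot r i4 * rot r i4 = 1
    rw [hz]; exact h.z_sq)
  have hzcen : ∀ c : C, Commute zC c := fun c => Subtype.ext (hzcomm c).symm.eq
  have hzord : ∃ k, orderOf zC = 2 ^ k := by
    obtain ⟨k, hk⟩ := exists_orderOf_rot h i4
    exact ⟨k, by rw [← hk]; exact (Subgroup.orderOf_coe zC).symm⟩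
  choose L hL using fun χ : IrrCharacter G => exists_subFun_eq_mul C hrk hρ χ (y := zC) hzcen
  -- coefficients of the idempotent
  choose! d hd using fun ξ (hξ : ξ ∈ b) => exists_coeff_of_rank_one hrk hρ ξ hξ
  haveI : Fintype (IrrCharacter C) := Fintype.ofFinite _
  set γ : ℂ := (Nat.card C : ℂ)⁻¹ * ∑ ξ : IrrCharacter C,
    if ξ ∈ b then (ξ : C → ℂ) 1 * conj (d ξ) else 0 with hγ
  have hcoef : ∀ c : C, blockCoeff b c =
      if 2 ∣ orderOf c then 0 else γ * conj ((ρ : C → ℂ) c) := fun c => by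
    split_ifs with hc
    · exact blockCoeff_eq_zero_of_dvd_orderOf hM hbl hc
    · rw [blockCoeff_eq_sum, hγ, mul_assoc, Finset.sum_mul]
      refine congrArg (_ * ·) (Finset.sum_congr rfl fun ξ _ => ?_)
      split_ifs with hξ
      · rw [hd ξ hξ c hc, map_mul, mul_assoc]
      · rw [zero_mul]
  set Tz : C → ℂ := fun w => ∑ c : C,
    (((rotSum hM hB hmax h i4).coeff ((w : G) * (c : G)⁻¹) : locRing M) : ℂ) * blockCoeff b c
    with hTz
  set Az : ℂ := (Nat.card G : ℂ)⁻¹ * ((Subgroup.centralizer ({rot r i4} : Set G)).index : ℂ) *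
    π (rot r i4) * ∑ χ : IrrCharacter G, rotVal (a χ) i4 * L χ with hAz
  have hTzf : ∀ w : C, Tz w = if 2 ∣ orderOf (zC * w) then 0 else
      Az * conj ((ρ : C → ℂ) (zC * w)) := by
    intro w
    simp only [hTz]
    rw [sum_rotSum_mul_blockCoeff hM hB hmax h R n4 hbl w]
    split_ifs with hs
    · refine mul_eq_zero_of_right _ ?_
      obtain ⟨x, hx⟩ := exists_isPPart 2 w⁻¹
      by_cases hxr : (x : G) ∈ Subgroup.zpowers r
      · obtain ⟨s, k, hs', hk, hsec⟩ := exists_secPart_eq hM hB hmax h R n4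
        have hconj : ¬ IsConj (x : G) (rot r i4)⁻¹ := by
          intro hc
          obtain ⟨g, hg⟩ := isConj_iff.1 hc
          have hinv : (rot r i4)⁻¹ = rot r i4 := inv_eq_of_mul_eq_one_right (by
            rw [hz]; exact h.z_sq)
          rw [hinv] at hg
          have hx2 : (x : G) * x = 1 := by
            calc (x : G) * x = g⁻¹ * (g * x * g⁻¹ * (g * x * g⁻¹)) * g := by group
              _ = 1 := by rw [hg, hz, h.z_sq]; group
          have hxz : x = zC := by
            rcases h.eq_z hxr hx2 with e | e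
            · rw [e, mul_one, mul_inv_cancel, hz] at hg
              exact absurd hg.symm h.z_ne_one
            · exact Subtype.ext (e.trans hz.symm)
          obtain ⟨y, hy, -, -, hyreg⟩ := hx
          rw [hxz] at hy
          refine absurd hs ?_
          rw [show zC * w = y⁻¹ by
            rw [← inv_inv w, ← hy, mul_inv_rev, ← mul_assoc, (hzcen y⁻¹).eq, mul_assoc,
              mul_inv_cancel, mul_one], orderOf_inv]
          exact hyreg
        have h1 := sum_subFun_mul_secPart_eq_zero hM C hbl hx (exists_orderOf_rot h i4) hblz hs'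
          hconj
        simp only [hsec, ← mul_assoc, ← Finset.sum_mul] at h1
        rw [Finset.sum_congr rfl fun χ _ => mul_comm (rotVal (a χ) i4) _]
        exact (mul_eq_zero.1 h1).resolve_right hk
      · exact Finset.sum_eq_zero fun χ _ => mul_eq_zero_of_right _
          (subFun_eq_zero_of_notMem hM hB hmax h (rot_mem_zpowers r i1) hsq hgen χ hx hxr)
    · have hreg : ¬ 2 ∣ orderOf (zC * w)⁻¹ := by rwa [orderOf_inv]
      have hinv : w⁻¹ = zC * (zC * w)⁻¹ := by
        rw [mul_inv_rev, ← mul_assoc, (hzcen w⁻¹).eq, mul_assoc, mul_inv_cancel, mul_one]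
      rw [hinv]
      rw [Finset.sum_congr rfl fun χ _ => congrArg (rotVal (a χ) i4 * ·) (hL χ _ hreg),
        CharTheory.IsIrrCharacter.inv ρ.2]
      rw [hAz, Finset.mul_sum, Finset.mul_sum, Finset.sum_mul]
      exact Finset.sum_congr rfl fun χ _ => by ring
  have hTzrel : ∀ w y : C, Tz w * blockCoeff b y = Tz (zC * y) * blockCoeff b (zC * w) := by
    intro w y
    rw [hTzf, hTzf, hcoef, hcoef, ← mul_assoc, hzC2, one_mul]
    split_ifs <;> ring
  -- over the residue field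
  have hmemT : ∀ (x : MonoidAlgebra (locRing M) G) (w : C), MemLocalRing M (∑ c : C,
      ((x.coeff ((w : G) * (c : G)⁻¹) : locRing M) : ℂ) * blockCoeff b c) := fun x w =>
    memLocalRing_sum fun c _ => memLocalRing_mul (coeff_mem_local x _) (memLocalRing_blockCoeff hbl c)
  obtain ⟨y0, hy0⟩ := exists_isDefectClass hM hbl
  have hy0reg : ¬ 2 ∣ orderOf y0 := fun hd2 => hy0.2.1 (by
    rw [blockCoeff_eq_zero_of_dvd_orderOf hM hbl hd2]; exact memLocalIdeal_zero)
  set β := subIdem M C b with hβ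
  set eres : C → Res M := fun c => red M ⟨blockCoeff b c, memLocalRing_blockCoeff hbl c⟩ with heres
  have hβc : ∀ c : C, β.coeff (c : G) = eres c := fun c => by
    rw [hβ, ← map_liftIdem hbl, coeff_mapRingHom, liftIdem, coeff_incl_of_mem]
    rfl
  have hey0 : eres y0 ≠ 0 := fun e => hy0.2.1 ((red_eq_zero_iff _).1 e)
  have hβsupp : β ∈ supp (Res M) C := (mem_ctr.1 (isBlockIdem_subIdem (M := M) hbl).mem).1
  set X := mapRingHom G (red M) (rotSum hM hB hmax h i1) with hX
  set Y := mapRingHom G (red M) (rotSum hM hB hmax h i4) with hY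
  set kk : Res M := red M ⟨_, hmemT (rotSum hM hB hmax h i4) (zC * y0)⟩ * (eres y0)⁻¹
  have hYb : trunc C Y * β = kk • (single (rot r i4) (1 : Res M) * β) := by
    refine MonoidAlgebra.ext (Finsupp.ext fun g => ?_)
    rw [coeff_smul_apply, smul_eq_mul, coeff_single_mul_apply, one_mul]
    have hzinv : (rot r i4)⁻¹ = rot r i4 := inv_eq_of_mul_eq_one_right (by rw [hz]; exact h.z_sq)
    by_cases hg : g ∈ C
    · rw [show g = ((⟨g, hg⟩ : C) : G) from rfl, hY, coeff_trunc_mul_subIdem hbl _ _ (hmemT _ _),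
        hzinv, show rot r i4 * ((⟨g, hg⟩ : C) : G) = ((zC * ⟨g, hg⟩ : C) : G) from rfl, hβc]
      refine mul_right_cancel₀ hey0 ?_
      rw [show kk * eres (zC * ⟨g, hg⟩) * eres y0 =
        red M ⟨_, hmemT (rotSum hM hB hmax h i4) (zC * y0)⟩ * eres (zC * ⟨g, hg⟩) *
          ((eres y0)⁻¹ * eres y0) by ring, inv_mul_cancel₀ hey0, mul_one]
      simp only [heres, ← map_mul]
      exact congrArg _ (Subtype.ext (hTzrel ⟨g, hg⟩ y0))
    · rw [(supp (Res M) C).mul_mem (trunc_mem_supp C Y) hβsupp g hg, hβsupp _ fun hc => hg (by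
        have := C.mul_mem hzC hc
        rwa [mul_inv_cancel_left] at this), mul_zero]
  -- the test element
  set g0 : G := rot r i1 * (y0 : G) with hg0
  set w0 : C := (cenElem (rot r i1) * y0)⁻¹ with hw0
  have hg0sec : g0 ∈ secSet 2 (rot r i1) := mem_secSet.2 (isPPart_mul
    (congrArg Subtype.val (commute_cenElem (rot r i1) y0).eq) (exists_orderOf_rot h i1)
    (by rwa [Subgroup.orderOf_coe]))
  have hg5 : rot r i5 * (y0 : G) ∈ secSet 2 (rot r i5) := by
    refine mem_secSet.2 (isPPart_mul ?_ (exists_orderOf_rot h i5) (by rwa [Subgroup.orderOf_coe]))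
    rw [hz5]
    exact Commute.mul_left (congrArg Subtype.val (commute_cenElem (rot r i1) y0).eq)
      (hzcomm y0).symm
  have hX0 : ∑ c : C, (((rotSum hM hB hmax h i1).coeff
      ((((zC * w0 : C)) : G) * (c : G)⁻¹) : locRing M) : ℂ) * blockCoeff b c = 0 := by
    rw [sum_rotSum_mul_blockCoeff hM hB hmax h R n1 hbl]
    refine mul_eq_zero_of_right _ ?_
    have hv : ∀ χ : IrrCharacter G, subFun C b χ (zC * w0)⁻¹ =
        rotVal (a χ) i5 * π (rot r i5 * (y0 : G)) := fun χ => by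
      rw [← val_subIdem χ C hbl, ← R.val_eq i5 n5 χ _ hg5, hbelow]
      congr 1
      rw [hw0, mul_inv_rev, inv_inv, hz5]
      show rot r i1 * (y0 : G) * ((zC⁻¹ : C) : G) = _
      rw [inv_eq_of_mul_eq_one_right hzC2, mul_assoc, mul_assoc]
      exact congrArg _ (hzcomm y0).eq
    rw [Finset.sum_congr rfl fun χ _ => by rw [hv χ, ← mul_assoc], ← Finset.sum_mul]
    refine mul_eq_zero_of_left ?_ _
    rw [← sum_block_eq hM hB hmax h R n5 fun χ => rotVal (a χ) i1]
    refine sum_mul_rotVal_eq_zero hM hB hmax h R n1 n5 (fun e => ?_) fun e => ?_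
    · rw [hi1, hi5, ZMod.natCast_eq_natCast_iff, hN] at e
      exact absurd e (by decide)
    · rw [eq_neg_iff_add_eq_zero, hi1, hi5, ← Nat.cast_add] at e
      exact hne 6 (by omega) (by omega) e
  set P : ℂ := ∑ c : C, (((rotSum hM hB hmax h i1 * rotSum hM hB hmax h i4).coeff
    ((w0 : G) * (c : G)⁻¹) : locRing M) : ℂ) * blockCoeff b c with hP
  have hPI : MemLocalIdeal M P := by
    refine (red_eq_zero_iff (⟨P, hmemT _ w0⟩ : locRing M)).1 ?_
    rw [← coeff_trunc_mul_subIdem hbl _ w0 (hmemT _ w0), map_mul, ← hX, ← hY]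
    have hfix : ∀ i, mapRingHom G (red M) (rotSum hM hB hmax h i) ∈
        fixedBy (Res M) (Subgroup.zpowers (rot r i1)) := fun i =>
      mem_fixedBy_coeff.2 fun c _ g => ((isClassElem_subsecSum _).map (red M)) c g
    have hCz : Subgroup.centralizer (Subgroup.zpowers (rot r i1) : Set G) = C :=
      BrauerCharacters.centralizer_zpowers_eq _
    have h1 := trunc_centralizer_mul
      (h.isPGroup.to_le (Subgroup.zpowers_le.2 (rot_mem_group h i1))) (hfix i1) (hfix i4)
    rw [hCz] at h1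
    have hcom : Commute (single (rot r i4) (1 : Res M)) (trunc C X) :=
      commute_of_fixedBy_of_supp (single_mem_fixedBy (fun c hc =>
        Subgroup.mem_centralizer_singleton_iff.2 (hzcomm ⟨c, hc⟩).eq) 1) (trunc_mem_supp C X)
    rw [hX, hY, h1, ← hX, ← hY, mul_assoc, hYb, mul_smul_comm, coeff_smul_apply, ← mul_assoc,
      ← hcom.eq, mul_assoc, coeff_single_mul_apply,
      show (rot r i4)⁻¹ * (w0 : G) = ((zC * w0 : C) : G) by
        rw [Subgroup.coe_mul, inv_eq_of_mul_eq_one_right (show rot r i4 * rot r i4 = 1 by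
          rw [hz]; exact h.z_sq)],
      hX, coeff_trunc_mul_subIdem hbl _ (zC * w0) (hmemT _ _)]
    rw [show (⟨_, hmemT (rotSum hM hB hmax h i1) (zC * w0)⟩ : locRing M) = 0 from Subtype.ext hX0,
      map_zero, mul_zero, smul_zero]
  -- its value
  have hPv : P = (Nat.card G : ℂ)⁻¹ * ((C.index : ℕ) : ℂ) *
      ((Subgroup.centralizer ({rot r i4} : Set G)).index : ℂ) * π (rot r i1) * π (rot r i4) *
      π g0 * ∑ χ : IrrCharacter G,
        rotVal (a χ) i1 * rotVal (a χ) i4 * rotVal (a χ) i1 / (χ : G → ℂ) 1 := by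
    rw [hP, sum_rotSum_mul_rotSum_mul_blockCoeff hM hB hmax h R n1 n4 hbl, Finset.mul_sum,
      Finset.mul_sum]
    refine Finset.sum_congr rfl fun χ _ => ?_
    have hv : subFun C b χ w0⁻¹ = rotVal (a χ) i1 * π g0 := by
      rw [← val_subIdem χ C hbl, ← R.val_eq i1 n1 χ _ hg0sec]
      congr 1
      rw [hw0, inv_inv]
      rfl
    rw [hv]
    ring
  set Fr := rotVal (a c1.1) i1 with hFr
  have hFz : rotVal (a c1.1) i4 = -(e1 : ℂ) := A4
  have h1a : (ur : ℂ) * Fr * π (rot r i1) = Wr * (ρ : C → ℂ) 1 := by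
    simpa using hfr 1 (by simp)
  have h1b : (ur : ℂ) * Fr * π g0 = Wr * (ρ : C → ℂ) y0 := hfr y0 hy0reg
  have h1c : (uz : ℂ) * (-(e1 : ℂ)) * π (rot r i4) =
      Wz * (ρz : Subgroup.centralizer ({rot r i4} : Set G) → ℂ) 1 := by
    simpa [hFz] using hfz 1 (by simp)
  set iz := (Subgroup.centralizer ({rot r i4} : Set G)).index with hiz
  obtain ⟨hdr, hdrpos, -⟩ := BrauerCharacters.charDegree_spec ρ
  obtain ⟨hdz, hdzpos, -⟩ := BrauerCharacters.charDegree_spec ρz
  obtain ⟨hdc, hdcpos, -⟩ := BrauerCharacters.charDegree_spec c1.1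
  set fr := charDegree (ρ : C → ℂ) with hfrdef
  set fz := charDegree (ρz : Subgroup.centralizer ({rot r i4} : Set G) → ℂ) with hfzdef
  set fc := charDegree (c1.1 : G → ℂ) with hfcdef
  have hcard : (Nat.card C : ℂ) * (C.index : ℂ) = (Nat.card G : ℂ) := by
    exact_mod_cast C.card_mul_index
  have hG0 : (Nat.card G : ℂ) ≠ 0 := Nat.cast_ne_zero.2 Nat.card_pos.ne'
  have hmain : ((3 * fc * Nat.card C : ℕ) : ℂ) *
        (((ur : ℂ) * ur) * (Fr * Fr) * ((uz : ℂ) * P)) =
      ((8 * iz * fr * fz : ℕ) : ℂ) * ((Wr * Wr) * (ρ : C → ℂ) y0 * Wz) := by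
    push_cast
    rw [← hdc, ← hdr, ← hdz, hPv]
    set S := ∑ χ : IrrCharacter G,
      rotVal (a χ) i1 * rotVal (a χ) i4 * rotVal (a χ) i1 / (χ : G → ℂ) 1
    calc _ = ((Nat.card C : ℂ) * (C.index : ℂ) * (Nat.card G : ℂ)⁻¹) * (iz : ℂ) *
          (((ur : ℂ) * Fr * π (rot r i1)) * ((ur : ℂ) * Fr * π g0) *
            ((uz : ℂ) * π (rot r i4))) * (3 * d1 * S) := by ring
      _ = (iz : ℂ) * (((ur : ℂ) * Fr * π (rot r i1)) * ((ur : ℂ) * Fr * π g0) *
            ((uz : ℂ) * (-(e1 : ℂ)) * π (rot r i4))) * (-(3 * t * S)) := by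
        rw [hcard, mul_inv_cancel₀ hG0, ht]
        linear_combination (-((iz : ℂ) * (((ur : ℂ) * Fr * π (rot r i1)) *
          ((ur : ℂ) * Fr * π g0) * ((uz : ℂ) * π (rot r i4))) * (3 * d1 * S))) * he e1 he1
      _ = _ := by rw [h1a, h1b, h1c, hS]; ring
  -- the powers of two
  have hdefr : blockDefect 2 b = 3 := by
    apply Nat.pow_right_injective le_rfl
    show 2 ^ _ = 2 ^ _
    rw [hbdef, pow_blockDefect_below hM hB hmax h (rot_mem_zpowers r i1) (rot_ne_one h n1),
      card_inf_rot h n1, if_neg fun e => rot_ne_one h (i := i1 + i1) (fun e' => ?_) ?_, hN]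
    · rw [hi1, ← Nat.cast_add] at e'
      exact hne 2 (by omega) (by omega) e'
    · exfalso
      rw [eq_neg_iff_add_eq_zero, hi1, ← Nat.cast_add] at e
      exact hne 2 (by omega) (by omega) e
  have hneg4 : i4 = -i4 := by
    rw [eq_neg_iff_add_eq_zero, hi4, ← Nat.cast_add, show 4 + 4 = 8 from rfl, ← hN,
      ZMod.natCast_self]
  have hdefz : blockDefect 2 (belowBlock (M := M) 2 D e0 (rot r i4)) = 4 := by
    apply Nat.pow_right_injective le_rfl
    show 2 ^ _ = 2 ^ _
    rw [pow_blockDefect_below hM hB hmax h (rot_mem_zpowers r i4) (rot_ne_one h n4),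
      card_inf_rot h n4, if_pos hneg4, hN]
  have hdefB : blockDefect 2 B = 4 := by
    apply Nat.pow_right_injective le_rfl
    show 2 ^ _ = 2 ^ _
    rw [← Blocks.card_isDefectGroup hM hB ((isDefectGroup_iff hM hB).2
      (hmax.isDefectIn (isBlockIdem_redElem_blockCoeff hB))), h.card_eq, hN]
  have e_r := BrauerCharacters.defect_add_degree (p := 2) hρ
  have e_z := BrauerCharacters.defect_add_degree (p := 2) hρz
  have e_c := BrauerCharacters.defect_add_degree (p := 2) hc1B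
  rw [hρ0, ← hbdef, hdefr, ← hfrdef] at e_r
  rw [← hC] at e_r
  rw [hρz0, hdefz, ← hfzdef] at e_z
  rw [h0, hdefB, ← hfcdef] at e_c
  have hiz0 : iz ≠ 0 := Subgroup.index_ne_zero_of_finite
  have e_i : iz.factorization 2 +
      (Nat.card (Subgroup.centralizer ({rot r i4} : Set G))).factorization 2 =
      (Nat.card G).factorization 2 := by
    rw [← Finsupp.add_apply, ← Nat.factorization_mul hiz0 Nat.card_pos.ne', hiz,
      Subgroup.index_mul_card]
  set L0 := 3 * fc * Nat.card C with hL0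
  set R0 := 8 * iz * fr * fz with hR0
  have hC0 : Nat.card C ≠ 0 := Nat.card_pos.ne'
  have hL00 : L0 ≠ 0 := by positivity
  have hR00 : R0 ≠ 0 := by positivity
  have h3f : (3 : ℕ).factorization 2 = 0 := Nat.factorization_eq_zero_of_not_dvd (by norm_num)
  have h8f : (8 : ℕ).factorization 2 = 3 := by
    rw [show (8 : ℕ) = 2 ^ 3 from rfl, Nat.Prime.factorization_pow Nat.prime_two,
      Finsupp.single_eq_same]
  have hkk : L0.factorization 2 = R0.factorization 2 := by
    rw [hL0, hR0, Nat.factorization_mul (by positivity) hC0,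
      Nat.factorization_mul (by norm_num) hdcpos.ne', Nat.factorization_mul (by positivity) hdzpos.ne',
      Nat.factorization_mul (by positivity) hdrpos.ne', Nat.factorization_mul (by norm_num) hiz0]
    simp only [Finsupp.add_apply, h3f, h8f]
    omega
  have hsplit : ∀ n : ℕ, n ≠ 0 → ((n : ℕ) : ℂ) =
      (2 : ℂ) ^ n.factorization 2 * ((ordCompl[2] n : ℕ) : ℂ) := fun n hn => by
    conv_lhs => rw [← Nat.ordProj_mul_ordCompl_eq_self n 2]
    push_cast
    rfl
  rw [hsplit L0 hL00, hsplit R0 hR00] at hmain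
  have hmain' : ((ordCompl[2] L0 : ℕ) : ℂ) * (((ur : ℂ) * ur) * (Fr * Fr) * ((uz : ℂ) * P)) =
      ((ordCompl[2] R0 : ℕ) : ℂ) * ((Wr * Wr) * (ρ : C → ℂ) y0 * Wz) :=
    mul_left_cancel₀ (pow_ne_zero (L0.factorization 2) (two_ne_zero (α := ℂ)))
      (by rw [← mul_assoc, hmain, hkk, mul_assoc])
  have hFrm : MemLocalRing M Fr := memLocalRing_of_isIntegral (isIntegral_rotVal _ _)
  have hleft : MemLocalIdeal M (((ordCompl[2] R0 : ℕ) : ℂ) * ((Wr * Wr) * (ρ : C → ℂ) y0 * Wz)) := by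
    rw [← hmain']
    exact memLocalIdeal_mul_left (memLocalRing_natCast _) (memLocalIdeal_mul_left
      (memLocalRing_mul (memLocalRing_mul (memLocalRing_intCast _) (memLocalRing_intCast _))
        (memLocalRing_mul hFrm hFrm))
      (memLocalIdeal_mul_left (memLocalRing_intCast _) hPI))
  have hρy := memLocalRing_irr (M := M) ρ y0
  rcases (memLocalIdeal_mul_iff (memLocalRing_natCast _) (memLocalRing_mul (memLocalRing_mul
    (memLocalRing_mul hWr hWr) hρy) hWz)).1 hleft with h' | h'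
  · exact Nat.not_dvd_ordCompl Nat.prime_two hR00 ((memLocalIdeal_natCast_iff hM _).1 h')
  rcases (memLocalIdeal_mul_iff (memLocalRing_mul (memLocalRing_mul hWr hWr) hρy) hWz).1 h'
    with h' | h'
  swap
  · exact hWz' h'
  rcases (memLocalIdeal_mul_iff (memLocalRing_mul hWr hWr) hρy).1 h' with h' | h'
  · rcases (memLocalIdeal_mul_iff hWr hWr).1 h' with h' | h' <;> exact hWr' h'
  · exact not_memLocalIdeal_irr_of_blockHeight_eq_zero hM hbl hy0 hρ hρ0 h'

end CfsgLib.DihedralBlock
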