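import Cfsg.Agent.Lib.DihedralBlock.Lattice
import Mathlib.Analysis.SpecialFunctions.Complex.CircleAddChar
import Mathlib.NumberTheory.LegendreSymbol.AddCharacter

/-!
# Even integer coefficients and their values at the rotations

The scalar products of the values at the rotations determine those of the differences of the
coefficients.
-/

set_option autoImplicit false

noncomputable section

namespace CfsgLib.DihedralBlock

open Finset
open scoped ComplexConjugate

variable {N : ℕ} [NeZero N]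

/-- The standard character of the rotations. -/
local notation "𝕖" => (ZMod.stdAddChar : AddChar (ZMod N) ℂ)

/-- The value at a rotation of the even coefficient system. -/
def rotVal (a : ZMod N → ℤ) (i : ZMod N) : ℂ :=
  ∑ j : ZMod N, (a j : ℂ) * ZMod.stdAddChar (i * j)

theorem conj_stdAddChar (x : ZMod N) : conj (𝕖 x) = 𝕖 (-x) := by
  rw [ZMod.stdAddChar_apply, ZMod.stdAddChar_apply, ← Circle.coe_inv_eq_conj]
  rw [AddChar.map_neg_eq_inv]

variable {a : ZMod N → ℤ} (hev : ∀ j, a (-j) = a j)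
include hev

theorem rotVal_neg (i : ZMod N) : rotVal a (-i) = rotVal a i := by
  unfold rotVal
  refine Fintype.sum_equiv (Equiv.neg _) _ _ fun j => ?_
  rw [Equiv.neg_apply, hev, neg_mul, mul_neg]

theorem conj_rotVal (i : ZMod N) : conj (rotVal a i) = rotVal a i := by
  conv_rhs => rw [← rotVal_neg hev]
  simp only [rotVal, map_sum, map_mul, map_intCast, conj_stdAddChar, neg_mul]

omit hev

omit hev in
theorem sum_mul_char (b : ZMod N) :
    ∑ x : ZMod N, 𝕖 (x * b) = if b = 0 then (N : ℂ) else 0 := by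
  rw [AddChar.sum_mulShift b (ZMod.isPrimitive_stdAddChar N), ZMod.card]
  split_ifs <;> simp

/-- Fourier inversion. -/
theorem sum_rotVal_mul (a : ZMod N → ℤ) (j : ZMod N) :
    ∑ i : ZMod N, 𝕖 (-(i * j)) * rotVal a i = (N : ℂ) * (a j : ℂ) := by
  simp only [rotVal, mul_sum]
  rw [sum_comm, sum_eq_single j]
  · rw [sum_congr rfl (g := fun _ => (a j : ℂ)) fun i _ => by
      rw [mul_left_comm, ← AddChar.map_add_eq_mul, neg_add_cancel, AddChar.map_zero_eq_one, mul_one],
      sum_const, card_univ, ZMod.card, nsmul_eq_mul]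
  · intro x _ hx
    rw [sum_congr rfl (g := fun i => (a x : ℂ) * 𝕖 (i * (x - j))) fun i _ => by
      rw [mul_left_comm, ← AddChar.map_add_eq_mul]
      congr 2
      ring, ← mul_sum, sum_mul_char, if_neg (sub_ne_zero.2 hx), mul_zero]
  · exact fun h => absurd (mem_univ j) h

/-- The weights of two positions. -/
theorem ev_eq_cast {m x y : ℕ} (hN : N = 2 * (m + 1)) (hx : x ≤ m + 1) (hy : y ≤ m + 1) :
    ev m x y = (if (x : ZMod N) = y then 1 else 0) + if (x : ZMod N) = -(y : ZMod N) then 1 else 0 := by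
  have h1 : ((x : ZMod N) = y) ↔ x = y := by
    refine ⟨fun h => ?_, fun h => h ▸ rfl⟩
    have := congrArg ZMod.val h
    rwa [ZMod.val_natCast_of_lt (by omega), ZMod.val_natCast_of_lt (by omega)] at this
  have h2 : ((x : ZMod N) = -(y : ZMod N)) ↔ (x = y ∧ (x = 0 ∨ x = m + 1)) := by
    rw [eq_neg_iff_add_eq_zero, ← Nat.cast_add, ZMod.natCast_eq_zero_iff]
    constructor
    · rintro ⟨c, hc⟩
      rcases c with _ | _ | c
      · omega
      · omega
      · exfalso
        have : N * 2 ≤ x + y := hc ▸ Nat.mul_le_mul_left _ (by omega)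
        omega
    · rintro ⟨rfl, rfl | rfl⟩
      · simp
      · exact ⟨1, by omega⟩
  simp only [ev, h1, h2]
  by_cases h : x = y
  · simp only [h, true_and, if_true]
    split_ifs <;> norm_num
  · simp [h]

variable {ι : Type*} [Fintype ι] (A : ι → ZMod N → ℤ)

/-- The scalar products of the differences. -/
theorem rel_of_rotVal {m : ℕ} (hN : N = 2 * (m + 1))
    (horth : ∀ i k : ZMod N, i ≠ 0 → k ≠ 0 → ∑ x, rotVal (A x) i * rotVal (A x) k =
      (N : ℂ) * ((if i = k then 1 else 0) + if i = -k then 1 else 0)) :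
    Rel m fun x j => A x (j : ZMod N) := by
  classical
  intro j k l q hj hk hl hq
  set u : ZMod N → ℂ := fun i => 𝕖 (-(i * j)) - 𝕖 (-(i * k)) with hu
  set w : ZMod N → ℂ := fun i => 𝕖 (-(i * l)) - 𝕖 (-(i * q)) with hw
  have hd : ∀ x (s t : ZMod N), (N : ℂ) * ((A x s : ℂ) - (A x t : ℂ)) =
      ∑ i : ZMod N, (𝕖 (-(i * s)) - 𝕖 (-(i * t))) * rotVal (A x) i := fun x s t => by
    simp only [sub_mul, sum_sub_distrib, sum_rotVal_mul, mul_sub]
  have key : (N : ℂ) * (N : ℂ) * (∑ x, ((A x j : ℂ) - A x k) * ((A x l : ℂ) - A x q)) =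
      (N : ℂ) * ∑ i : ZMod N, u i * (w i + w (-i)) := by
    rw [mul_sum, sum_congr rfl (g := fun x => ∑ i, ∑ i', u i * w i' *
        (rotVal (A x) i * rotVal (A x) i')) fun x _ => by
      rw [mul_mul_mul_comm, hd, hd, sum_mul_sum]
      exact sum_congr rfl fun i _ => sum_congr rfl fun i' _ => by ring,
      sum_comm, mul_sum]
    refine sum_congr rfl fun i _ => ?_
    rw [sum_comm]
    simp only [← mul_sum]
    by_cases hi : i = 0
    · subst hi
      simp [hu]
    rw [sum_congr rfl (g := fun i' => u i * w i' * ((N : ℂ) *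
        ((if i = i' then 1 else 0) + if i = -i' then 1 else 0))) fun i' _ => by
      by_cases hi' : i' = 0
      · subst hi'
        simp [hw]
      · rw [horth i i' hi hi']]
    have hneg : ∀ i' : ZMod N, (i = -i') ↔ (-i = i') :=
      fun i' => ⟨fun h => by rw [h, neg_neg], fun h => by rw [← h, neg_neg]⟩
    simp only [mul_add, sum_add_distrib, mul_ite, mul_one, mul_zero, hneg, sum_ite_eq, mem_univ,
      if_true]
    ring
  have hN0 : (N : ℂ) ≠ 0 := Nat.cast_ne_zero.2 (NeZero.ne N)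
  have hprod : ∀ s t : ℕ, s ≤ m + 1 → t ≤ m + 1 →
      ∑ i : ZMod N, 𝕖 (-(i * s)) * (𝕖 (-(i * t)) + 𝕖 (-(-i * t))) = (N : ℂ) * (ev m s t : ℂ) := by
    intro s t hs ht
    rw [sum_congr rfl (g := fun i => 𝕖 (i * (-(s : ZMod N) - t)) + 𝕖 (i * (-(s : ZMod N) + t)))
      fun i _ => by
        rw [mul_add, ← AddChar.map_add_eq_mul, ← AddChar.map_add_eq_mul]
        congr 2 <;> ring, sum_add_distrib, sum_mul_char, sum_mul_char, ev_eq_cast hN hs ht]
    have h1 : (-(s : ZMod N) - t = 0) ↔ ((s : ZMod N) = -(t : ZMod N)) := by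
      rw [sub_eq_zero, neg_eq_iff_eq_neg]
    have h2 : (-(s : ZMod N) + t = 0) ↔ ((s : ZMod N) = t) := by
      rw [neg_add_eq_zero]
    simp only [h1, h2]
    push_cast
    split_ifs <;> ring
  have hsum : ∑ i : ZMod N, u i * (w i + w (-i)) =
      (N : ℂ) * ((ev m j l - ev m j q - ev m k l + ev m k q : ℤ) : ℂ) := by
    push_cast
    rw [mul_add, mul_sub, mul_sub, ← hprod j l hj hl, ← hprod j q hj hq, ← hprod k l hk hl,
      ← hprod k q hk hq, ← sum_sub_distrib, ← sum_sub_distrib, ← sum_add_distrib]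
    exact sum_congr rfl fun i _ => by simp only [hu, hw]; ring
  rw [hsum, mul_assoc] at key
  have := mul_left_cancel₀ hN0 (mul_left_cancel₀ hN0 key)
  exact_mod_cast this

omit [Fintype ι] in
/-- A sum over the rotations, symmetrically. -/
theorem sum_zmod_symm {m : ℕ} (hN : N = 2 * (m + 1)) (f : ZMod N → ℂ) :
    ∑ i : ZMod N, f i = f 0 + f ((m + 1 : ℕ) : ZMod N) +
      ∑ x ∈ Icc 1 m, (f (x : ZMod N) + f (-(x : ZMod N))) := by
  classical
  set S : Finset (ZMod N) := (Icc 1 m).image fun x : ℕ => (x : ZMod N) with hS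
  set T : Finset (ZMod N) := (Icc 1 m).image fun x : ℕ => -(x : ZMod N) with hT
  have hval : ∀ x : ℕ, x < N → ((x : ZMod N)).val = x := fun x hx => ZMod.val_natCast_of_lt hx
  have hnegval : ∀ x ∈ Icc 1 m, (-(x : ZMod N)).val = N - x := fun x hx => by
    rw [mem_Icc] at hx
    rw [show -(x : ZMod N) = ((N - x : ℕ) : ZMod N) by
      rw [Nat.cast_sub (by omega), ZMod.natCast_self, zero_sub], hval _ (by omega)]
  have huniv : (univ : Finset (ZMod N)) = insert 0 (insert ((m + 1 : ℕ) : ZMod N) (S ∪ T)) := by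
    ext i
    simp only [mem_univ, true_iff, mem_insert, mem_union, hS, hT, mem_image, mem_Icc]
    have hi := i.val_lt
    rcases eq_or_ne i.val 0 with h | h
    · exact Or.inl ((ZMod.val_eq_zero i).1 h)
    rcases lt_trichotomy i.val (m + 1) with h' | h' | h'
    · exact Or.inr (Or.inr (Or.inl ⟨i.val, by omega, ZMod.natCast_zmod_val i⟩))
    · exact Or.inr (Or.inl (by rw [← h', ZMod.natCast_zmod_val]))
    · refine Or.inr (Or.inr (Or.inr ⟨N - i.val, by omega, ?_⟩))
      rw [Nat.cast_sub hi.le, ZMod.natCast_self, zero_sub, neg_neg, ZMod.natCast_zmod_val]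
  rw [huniv, sum_insert ?_, sum_insert ?_, sum_union ?_, hS, hT, sum_image ?_, sum_image ?_,
    sum_add_distrib]
  · ring
  · intro x hx y hy h
    have := congrArg ZMod.val h
    simp only [hnegval x hx, hnegval y hy] at this
    have := mem_Icc.1 hx; have := mem_Icc.1 hy; omega
  · intro x hx y hy h
    have := congrArg ZMod.val h
    have := mem_Icc.1 hx; have := mem_Icc.1 hy
    simp only [hval x (by omega), hval y (by omega)] at *
    omega
  · rw [disjoint_left]
    intro i hi hi'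
    obtain ⟨x, hx, rfl⟩ := mem_image.1 hi
    obtain ⟨y, hy, h⟩ := mem_image.1 hi'
    have := congrArg ZMod.val h
    have := mem_Icc.1 hx
    simp only [hnegval y hy, hval x (by omega)] at *
    have := mem_Icc.1 hy; omega
  · simp only [mem_union, hS, hT, mem_image, not_or, not_exists, not_and]
    refine ⟨fun x hx h => ?_, fun x hx h => ?_⟩ <;>
      have := congrArg ZMod.val h <;> have := mem_Icc.1 hx <;>
        simp only [hval (m + 1) (by omega)] at *
    · rw [hval x (by omega)] at *; omega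
    · rw [hnegval x hx] at *; omega
  · simp only [mem_insert, mem_union, hS, hT, mem_image, not_or, not_exists, not_and]
    refine ⟨fun h => ?_, fun x hx h => ?_, fun x hx h => ?_⟩ <;>
      have h' := congrArg ZMod.val h <;> rw [ZMod.val_zero] at h'
    · rw [hval (m + 1) (by omega)] at h'; omega
    · rw [hval x (by have := mem_Icc.1 hx; omega)] at h'; have := mem_Icc.1 hx; omega
    · rw [hnegval x hx] at h'; have := mem_Icc.1 hx; omega

omit [Fintype ι] in
theorem stdAddChar_half {m : ℕ} (hN : N = 2 * (m + 1)) :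
    𝕖 ((m + 1 : ℕ) : ZMod N) = -1 := by
  refine (sq_eq_one_iff.1 ?_).resolve_left fun h => ?_
  · rw [pow_two, ← AddChar.map_add_eq_mul, ← Nat.cast_add, ← two_mul, ← hN, ZMod.natCast_self,
      AddChar.map_zero_eq_one]
  · rw [← (ZMod.stdAddChar (N := N)).map_zero_eq_one, ZMod.injective_stdAddChar.eq_iff,
      ZMod.natCast_eq_zero_iff] at h
    have := Nat.le_of_dvd (by omega) h
    omega

omit [Fintype ι] in
theorem stdAddChar_natCast_mul (i x : ℕ) :
    𝕖 ((i : ZMod N) * (x : ZMod N)) = 𝕖 (1 : ZMod N) ^ (i * x) := by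
  rw [← Nat.cast_mul, ← AddChar.map_nsmul_eq_pow, nsmul_one]

/-- The value at a rotation, symmetrically. -/
theorem rotVal_symm {a : ZMod N → ℤ} (hev : ∀ j, a (-j) = a j) {m : ℕ} (hN : N = 2 * (m + 1))
    (i : ℕ) :
    rotVal a (i : ZMod N) = (a 0 : ℂ) + (a ((m + 1 : ℕ) : ZMod N) : ℂ) * (-1) ^ i +
      ∑ x ∈ Icc 1 m, (a (x : ZMod N) : ℂ) *
        (𝕖 (1 : ZMod N) ^ (i * x) + 𝕖 (1 : ZMod N) ^ (i * (N - x))) := by
  have hhalf : 𝕖 ((i : ZMod N) * ((m + 1 : ℕ) : ZMod N)) = (-1) ^ i := by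
    rw [← nsmul_eq_mul, AddChar.map_nsmul_eq_pow, stdAddChar_half hN]
  rw [rotVal, sum_zmod_symm hN, mul_zero, AddChar.map_zero_eq_one, mul_one, hhalf]
  congr 1
  refine sum_congr rfl fun x hx => ?_
  have hx' := mem_Icc.1 hx
  rw [hev, ← mul_add, stdAddChar_natCast_mul]
  congr 2
  rw [← stdAddChar_natCast_mul, Nat.cast_sub (by omega), ZMod.natCast_self, zero_sub]

/-- The value at the central involution. -/
theorem rotVal_half {a : ZMod N → ℤ} (hev : ∀ j, a (-j) = a j) {m : ℕ} (hodd : Odd m)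
    (hN : N = 2 * (m + 1)) :
    rotVal a ((m + 1 : ℕ) : ZMod N) =
      ((valZ m (fun (_ : Unit) j => a (j : ZMod N)) () : ℤ) : ℂ) := by
  rw [rotVal_symm hev hN]
  have hw : 𝕖 (1 : ZMod N) ^ (m + 1) = -1 := by
    rw [← AddChar.map_nsmul_eq_pow, nsmul_one, stdAddChar_half hN]
  simp only [valZ, pow_mul, hw]
  push_cast
  rw [(hodd.add_one).neg_one_pow, mul_one, mul_sum]
  congr 1
  refine sum_congr rfl fun x hx => ?_
  have hx' := mem_Icc.1 hx
  rw [show ((-1 : ℂ)) ^ (N - x) = (-1) ^ x from ?_]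
  · ring
  · rw [neg_one_pow_eq_pow_mod_two, neg_one_pow_eq_pow_mod_two (n := x)]
    congr 1
    omega

omit [Fintype ι] in
/-- The sum of a primitive eighth root of unity and its inverse. -/
theorem sq_root_eight (hN : N = 8) :
    (𝕖 (1 : ZMod N) + 𝕖 (1 : ZMod N) ^ 7) ^ 2 = 2 ∧ 𝕖 (1 : ZMod N) + 𝕖 (1 : ZMod N) ^ 7 ≠ 0 := by
  have h4 : 𝕖 (1 : ZMod N) ^ 4 = -1 := by
    rw [← AddChar.map_nsmul_eq_pow, nsmul_one]
    exact stdAddChar_half (m := 3) (by omega)
  have h2 : (𝕖 (1 : ZMod N) + 𝕖 (1 : ZMod N) ^ 7) ^ 2 = 2 := by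
    linear_combination (𝕖 (1 : ZMod N) ^ 10 - 𝕖 (1 : ZMod N) ^ 6 + 2 * 𝕖 (1 : ZMod N) ^ 4 +
      𝕖 (1 : ZMod N) ^ 2 - 2) * h4
  exact ⟨h2, fun h => by rw [h] at h2; norm_num at h2⟩

/-- The values at the rotations for the order sixteen. -/
theorem rotVal_eight {a : ZMod N → ℤ} (hev : ∀ j, a (-j) = a j) (hN : N = 8) :
    rotVal a ((1 : ℕ) : ZMod N) = (((a 0 - a (4 : ℕ)) : ℤ) : ℂ) +
        (𝕖 (1 : ZMod N) + 𝕖 (1 : ZMod N) ^ 7) * ((a (1 : ℕ) - a (3 : ℕ) : ℤ) : ℂ) ∧
      rotVal a ((2 : ℕ) : ZMod N) = ((a 0 + a (4 : ℕ) - 2 * a (2 : ℕ) : ℤ) : ℂ) ∧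
      rotVal a ((3 : ℕ) : ZMod N) = (((a 0 - a (4 : ℕ)) : ℤ) : ℂ) -
        (𝕖 (1 : ZMod N) + 𝕖 (1 : ZMod N) ^ 7) * ((a (1 : ℕ) - a (3 : ℕ) : ℤ) : ℂ) := by
  have h4 : 𝕖 (1 : ZMod N) ^ 4 = -1 := by
    rw [← AddChar.map_nsmul_eq_pow, nsmul_one]
    exact stdAddChar_half (m := 3) (by omega)
  set w := 𝕖 (1 : ZMod N) with hw
  have h8 : ∀ k : ℕ, w ^ (k + 8) = w ^ k := fun k => by
    rw [pow_add, show w ^ 8 = (w ^ 4) ^ 2 by ring, h4]; ring
  have hsum : ∀ f : ℕ → ℂ, ∑ x ∈ Icc 1 3, f x = f 1 + f 2 + f 3 := fun f => by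
    rw [show Icc 1 3 = ({1, 2, 3} : Finset ℕ) by decide]
    simp [add_assoc]
  have hNx : ∀ x, N - x = 8 - x := fun x => by omega
  simp only [rotVal_symm hev (show N = 2 * (3 + 1) by omega), hsum, ← hw, hNx]
  norm_num [h8 1, h8 2, h8 3, h8 4, h8 5, h8 6, h8 7, h8 8, h8 10, h8 13]
  refine ⟨?_, ?_, ?_⟩
  · linear_combination ((a 2 : ℂ) * w ^ 2 + (a 3 : ℂ) * (w ^ 3 + w)) * h4
  · linear_combination ((a 1 : ℂ) * w ^ 2 + 2 * (a 2 : ℂ) +
      (a 3 : ℂ) * w ^ 2) * h4
  · linear_combination ((a 1 : ℂ) * (w ^ 3 + w) + (a 2 : ℂ) * w ^ 2) * h4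

end CfsgLib.DihedralBlock
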