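import Cfsg.Agent.Lib.DihedralBlock.Group
import Cfsg.Agent.Lib.BlockStar.Nonvanishing
import Cfsg.Agent.Lib.BlockSections.AbelianCount

/-!
# The pairs at the rotations of a dihedral defect group

Their defect groups, and the pairs are fused by inversion only.
-/

set_option autoImplicit false
set_option linter.style.haveILetI false
set_option linter.unusedSectionVars false

noncomputable section

namespace CfsgLib.DihedralBlock

open Cfsg CfsgLib.Blocks MonoidAlgebra CfsgLib.BrauerPairs
open CfsgLib.BrauerCharacters (centralizer_zpowers_eq)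
open CfsgLib.BlockSections (belowBlock)

variable {G : Type*} [Group G] [Fintype G] {M : Ideal AlgInt} [M.IsPrime] [Fact (2 : ℕ).Prime]
  [CharP (Res M) 2] [IsAlgClosed (Res M)]
  {B : Set (IrrCharacter G)} {D : Subgroup G} {e0 : MonoidAlgebra (Res M) G}
  {r : G} {N : ℕ}
  (hM : IsPModular 2 M) (hB : IsPBlock M B)
  (hmax : IsMaxPair 2 (⊤ : Subgroup G) (redElem M (blockCoeff B)) D e0) (h : IsDih D r N)
include hM hB hmax h

omit hM hB in
/-- A conjugate of a group generated by a rotation of order above two inside `D` is the same. -/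
theorem cj_eq_of_le {c v : G} (hv : v ∈ Subgroup.zpowers r) (h2 : v * v ≠ 1)
    (hle : cj c (Subgroup.zpowers v) ≤ D) : cj c (Subgroup.zpowers v) = Subgroup.zpowers v := by
  rw [BlockStar.cj_zpowers] at hle ⊢
  have hD : c * v * c⁻¹ ∈ D := hle (Subgroup.mem_zpowers _)
  have hr : c * v * c⁻¹ ∈ Subgroup.zpowers r := h.mem_of_sq_ne_one hD fun e => h2 (by
    have : c * (v * v) * c⁻¹ = 1 := by rw [← e]; group
    simpa using this)
  exact h.zpowers_eq hr hv (by rw [← MulAut.conj_apply]; exact (MulAut.conj c).orderOf_eq v)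

/-- The block idempotent below the pair depends only on the subgroup. -/
theorem subIdem_below_congr {v w : G} (hv : v ∈ D) (hw : w ∈ D)
    (he : Subgroup.zpowers v = Subgroup.zpowers w) :
    subIdem M _ (belowBlock (M := M) 2 D e0 v) = subIdem M _ (belowBlock (M := M) 2 D e0 w) := by
  have h1 := (BlockSections.belowBlock_spec hM hB hmax hv).2.1
  rw [he] at h1
  exact (existsUnique_pairLE hmax.1.1 h1.le).unique h1
    (BlockSections.belowBlock_spec hM hB hmax hw).2.1

/-- The defect group of the block at a rotation. -/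
theorem isDefectGroup_below {v : G} (hv : v ∈ Subgroup.zpowers r) (h1 : v ≠ 1) :
    IsDefectGroup 2 M (belowBlock (M := M) 2 D e0 v)
      ((D ⊓ Subgroup.centralizer ({v} : Set G)).subgroupOf (Subgroup.centralizer ({v} : Set G))) := by
  have hb := isBlockIdem_redElem_blockCoeff (M := M) hB
  obtain ⟨hbl, hle, -⟩ := BlockSections.belowBlock_spec hM hB hmax (h.rot_mem hv)
  have hid := isBlockIdem_subIdem (M := M) hbl
  rw [isDefectGroup_sub_iff hM hbl, Subgroup.map_subgroupOf_eq_of_le inf_le_right]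
  by_cases h2 : v * v = 1
  · obtain rfl : v = r ^ (N / 2) := (h.eq_z hv h2).resolve_left h1
    have hC : D ≤ Subgroup.centralizer (Subgroup.zpowers (r ^ (N / 2)) : Set G) := by
      rw [centralizer_zpowers_eq]
      exact fun x hx => Subgroup.mem_centralizer_singleton_iff.2 (h.z_comm hx)
    obtain ⟨g, hn, hge⟩ := hle.normalLE_of_le_normalizer hmax.1.1 hle.le le_rfl
      (hC.trans (Subgroup.centralizer_le_normalizer _))
    obtain rfl : g = e0 :=
      (existsUnique_pairLE hmax.1.1 le_rfl).unique hge (PairLE.refl _ _ _ _)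
    have hloc := BlockStar.isMaxPair_local_of_central hb hmax hC hn
    rw [cenIn_top, centralizer_zpowers_eq] at hloc
    rw [h.inf_centralizer_z]
    exact hloc.isDefectIn hid
  · obtain ⟨c, -, hcle, hd⟩ := hmax.exists_conj_defect hb ((hle.pairOf_iff hb).2 hmax.1)
    have hcQ := cj_eq_of_le hmax h hv h2 hcle.le
    rw [hcQ] at hcle hd
    rw [(existsUnique_pairLE hmax.1.1 hle.le).unique hcle hle, cenIn_top,
      centralizer_zpowers_eq] at hd
    exact hd

theorem pow_blockDefect_below {v : G} (hv : v ∈ Subgroup.zpowers r) (h1 : v ≠ 1) :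
    2 ^ blockDefect 2 (belowBlock (M := M) 2 D e0 v) =
      Nat.card ↥(D ⊓ Subgroup.centralizer ({v} : Set G)) := by
  rw [← Blocks.card_isDefectGroup hM (BlockSections.belowBlock_spec hM hB hmax (h.rot_mem hv)).1
    (isDefectGroup_below hM hB hmax h hv h1)]
  exact Nat.card_congr (Subgroup.subgroupOfEquivOfLe inf_le_right).toEquiv

/-- Elements fixing the pair at a rotation send it to itself or its inverse. -/
theorem conj_eq_or_eq_inv {v g : G} (hv : v ∈ Subgroup.zpowers r) (h2 : v * v ≠ 1)
    (hg : g * v * g⁻¹ ∈ Subgroup.zpowers v)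
    (hfix : conjA g (subIdem M _ (belowBlock (M := M) 2 D e0 v)) =
      subIdem M _ (belowBlock (M := M) 2 D e0 v)) :
    g * v * g⁻¹ = v ∨ g * v * g⁻¹ = v⁻¹ := by
  have hb := isBlockIdem_redElem_blockCoeff (M := M) hB
  obtain ⟨hbl, hle, -⟩ := BlockSections.belowBlock_spec hM hB hmax (h.rot_mem hv)
  set f := subIdem M _ (belowBlock (M := M) 2 D e0 v)
  set Q := Subgroup.zpowers v with hQ
  obtain ⟨c, -, hcle, hd⟩ := hmax.exists_conj_defect_stab hb ((hle.pairOf_iff hb).2 hmax.1)
  have hcQ := cj_eq_of_le hmax h hv h2 hcle.le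
  rw [hcQ] at hcle hd
  rw [(existsUnique_pairLE hmax.1.1 hle.le).unique hcle hle,
    inf_eq_left.2 fun x hx => h.normalizes hx hv] at hd
  have hp : IsPair 2 (⊤ : Subgroup G) Q f := hle.isPair_left hmax.1.1
  have hCT : cenIn (⊤ : Subgroup G) Q ≤ pairStab (⊤ : Subgroup G) Q f := cenIn_le_pairStab hp
  have hidx := hd.relIndex_ne_zero hp.2.2 (fun x hx => (mem_pairStab.1 hx).2.2) hCT
    pairStab_le_normalizer_cenIn
  rw [Ne, CharP.cast_eq_zero_iff (Res M) 2] at hidx
  have hpow := h.exists_orderOf (h.rot_mem hv)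
  have hT := le_of_regular_and_index (p := 2) le_sup_right (sup_le hd.1 hCT)
    pairStab_le_normalizer_cenIn hidx fun x hx hodd => by
    obtain ⟨a, ha⟩ := hpow
    have hxv : Commute x v := commute_of_odd_cyclic
      (Nat.not_even_iff_odd.1 fun he => hodd (even_iff_two_dvd.1 he)) ha
      (mem_powers_iff_mem_zpowers.2
        ((Subgroup.mem_normalizer_iff.1 (mem_pairStab.1 hx).2.1 v).1 (Subgroup.mem_zpowers v)))
    rw [cenIn_top, hQ, centralizer_zpowers_eq]
    exact Subgroup.mem_centralizer_singleton_iff.2 hxv.eq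
  have hgT : g ∈ pairStab (⊤ : Subgroup G) Q f := by
    refine mem_pairStab_of_cj (Subgroup.mem_top g) ?_ hfix
    rw [hQ, BlockStar.cj_zpowers]
    refine Subgroup.eq_of_le_of_card_ge (Subgroup.zpowers_le.2 hg) (le_of_eq ?_)
    rw [Nat.card_zpowers, Nat.card_zpowers, ← MulAut.conj_apply, MulEquiv.orderOf_eq]
  let S : Subgroup G :=
    { carrier := {x | x * v * x⁻¹ = v ∨ x * v * x⁻¹ = v⁻¹}
      one_mem' := Or.inl (by group)
      mul_mem' := fun {x y} hx hy => by
        have e : x * y * v * (x * y)⁻¹ = x * (y * v * y⁻¹) * x⁻¹ := by group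
        simp only [Set.mem_setOf_eq] at hx hy ⊢
        rw [e]
        rcases hy with hy | hy <;> rw [hy]
        · exact hx
        · rw [show x * v⁻¹ * x⁻¹ = (x * v * x⁻¹)⁻¹ by group]
          rcases hx with hx | hx <;> rw [hx]
          · exact Or.inr rfl
          · exact Or.inl (inv_inv v)
      inv_mem' := fun {x} hx => by
        simp only [Set.mem_setOf_eq, inv_inv] at hx ⊢
        rcases hx with hx | hx
        · left; nth_rewrite 1 [← hx]; group
        · right; nth_rewrite 1 [show v = (x * v * x⁻¹)⁻¹ by rw [hx, inv_inv]]; group }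
  have hS : D ⊔ cenIn (⊤ : Subgroup G) Q ≤ S := by
    refine sup_le (fun x hx => ?_) fun x hx => ?_
    · by_cases hxr : x ∈ Subgroup.zpowers r
      · left
        obtain ⟨k, rfl⟩ := Subgroup.mem_zpowers_iff.1 hxr
        obtain ⟨l, rfl⟩ := Subgroup.mem_zpowers_iff.1 hv
        rw [← zpow_neg, ← zpow_add, ← zpow_add, add_neg_cancel_comm]
      · exact Or.inr ((h.refl x hx hxr).2 v hv)
    · rw [cenIn_top, hQ, centralizer_zpowers_eq] at hx
      exact Or.inl (mul_inv_eq_iff_eq_mul.2 (Subgroup.mem_centralizer_singleton_iff.1 hx))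
  exact hS (hT hgT)

end CfsgLib.DihedralBlock
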