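import Mathlib.GroupTheory.SpecificGroups.Dihedral
import Mathlib.GroupTheory.PGroup
import Mathlib.Algebra.Group.Subgroup.ZPowers.Basic
import Mathlib.GroupTheory.Index

/-!
# A dihedral 2-subgroup: rotations, the central involution, odd automorphisms
-/

set_option autoImplicit false

namespace CfsgLib.DihedralBlock

variable {G : Type*} [Group G]

/-- An element of odd order moving a cyclic 2-group to itself centralises it. -/
theorem commute_of_odd_cyclic {x u : G} (hx : Odd (orderOf x)) {a : ℕ} (hu : orderOf u = 2 ^ a)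
    (hmem : x * u * x⁻¹ ∈ Submonoid.powers u) : Commute x u := by
  obtain ⟨k, hk⟩ := (Submonoid.mem_powers_iff _ _).1 hmem
  have hj : ∀ j : ℕ, x ^ j * u * (x ^ j)⁻¹ = u ^ k ^ j := by
    intro j
    induction j with
    | zero => simp
    | succ j ih =>
      calc x ^ (j + 1) * u * (x ^ (j + 1))⁻¹ = x * (x ^ j * u * (x ^ j)⁻¹) * x⁻¹ := by
            rw [pow_succ']; group
        _ = (x * u * x⁻¹) ^ k ^ j := by rw [ih, conj_pow]
        _ = _ := by rw [← hk, ← pow_mul, pow_succ']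
  have h := hj (orderOf x)
  rw [pow_orderOf_eq_one, one_mul, inv_one, mul_one, eq_comm] at h
  nth_rewrite 2 [← pow_one u] at h
  rw [pow_eq_pow_iff_modEq, hu, ← ZMod.natCast_eq_natCast_iff, Nat.cast_pow, Nat.cast_one] at h
  have hk1 : (k : ZMod (2 ^ a)) = 1 := by
    obtain ⟨U, hU⟩ := IsUnit.of_pow_eq_one h hx.pos.ne'
    rw [← hU] at h ⊢
    have hUo : U ^ orderOf x = 1 := Units.ext (by simpa using h)
    have h1 : orderOf U ∣ orderOf x := orderOf_dvd_of_pow_eq_one hUo
    have h2 : orderOf U ∣ 2 ^ (a - 1) := by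
      rcases Nat.eq_zero_or_pos a with rfl | ha
      · haveI : Subsingleton (ZMod (2 ^ 0)) := by rw [pow_zero]; infer_instance
        rw [Subsingleton.elim U 1, orderOf_one]
        exact one_dvd _
      · have := orderOf_dvd_natCard U
        rwa [Nat.card_eq_fintype_card, ZMod.card_units_eq_totient,
          Nat.totient_prime_pow Nat.prime_two ha, show (2 - 1) = 1 from rfl, mul_one] at this
    have h3 : Nat.Coprime (orderOf x) (2 ^ (a - 1)) :=
      ((Nat.coprime_two_right).2 hx).pow_right _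
    have h4 : orderOf U = 1 := Nat.eq_one_of_dvd_coprimes h3 h1 h2
    rw [orderOf_eq_one_iff.1 h4]; rfl
  rw [← Nat.cast_one, ZMod.natCast_eq_natCast_iff, ← hu, ← pow_eq_pow_iff_modEq, pow_one] at hk1
  exact mul_inv_eq_iff_eq_mul.1 (hk.symm.trans hk1)

/-- `D` is dihedral of order `2 * N` with `N` a power of two at least four, `r` a rotation. -/
structure IsDih (D : Subgroup G) (r : G) (N : ℕ) : Prop where
  orderOf_r : orderOf r = N
  exists_pow : ∃ k, N = 2 ^ (k + 2)
  r_mem : r ∈ D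
  card_eq : Nat.card D = 2 * N
  refl : ∀ x ∈ D, x ∉ Subgroup.zpowers r →
    x * x = 1 ∧ ∀ u ∈ Subgroup.zpowers r, x * u * x⁻¹ = u⁻¹
  exists_refl : ∃ s ∈ D, s ∉ Subgroup.zpowers r

theorem exists_isDih {D : Subgroup G} {n : ℕ} (hn : 3 ≤ n)
    (σ : D ≃* DihedralGroup (2 ^ (n - 1))) : ∃ r : G, IsDih D r (2 ^ (n - 1)) := by
  set N := 2 ^ (n - 1) with hN
  refine ⟨(σ.symm (DihedralGroup.r 1) : G), ?_⟩
  set r0 := σ.symm (DihedralGroup.r 1) with hr0
  have hrot : ∀ x : D, (x : G) ∈ Subgroup.zpowers (r0 : G) ↔ ∃ i, σ x = DihedralGroup.r i := by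
    intro x
    constructor
    · intro hx
      obtain ⟨k, hk⟩ := Subgroup.mem_zpowers_iff.1 hx
      have hx' : x = r0 ^ k := Subtype.ext (by simp [hk])
      exact ⟨(k : ZMod N), by rw [hx', map_zpow, hr0, σ.apply_symm_apply, DihedralGroup.r_one_zpow]⟩
    · rintro ⟨i, hi⟩
      obtain ⟨k, rfl⟩ := ZMod.intCast_surjective i
      refine Subgroup.mem_zpowers_iff.2 ⟨k, ?_⟩
      rw [← Subgroup.coe_zpow, show r0 ^ k = x from σ.injective ?_]
      rw [map_zpow, hr0, σ.apply_symm_apply, DihedralGroup.r_one_zpow, hi]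
  have hsr : ∀ x : D, (x : G) ∉ Subgroup.zpowers (r0 : G) → ∃ i, σ x = DihedralGroup.sr i := by
    intro x hx
    rcases h : σ x with i | i
    · exact absurd ((hrot x).2 ⟨i, h⟩) hx
    · exact ⟨i, rfl⟩
  refine ⟨?_, ⟨n - 3, ?_⟩, r0.2, ?_, fun x hx hxr => ?_, ?_⟩
  · rw [Subgroup.orderOf_coe, hr0, MulEquiv.orderOf_eq, DihedralGroup.orderOf_r_one]
  · rw [hN]; congr 1; omega
  · rw [Nat.card_congr σ.toEquiv, DihedralGroup.nat_card]
  · obtain ⟨i, hi⟩ := hsr ⟨x, hx⟩ hxr
    refine ⟨congrArg Subtype.val (σ.injective (a₁ := ⟨x, hx⟩ * ⟨x, hx⟩) (a₂ := 1) (by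
      rw [map_mul, hi, DihedralGroup.sr_mul_self, map_one])), fun u hu => ?_⟩
    have huD : u ∈ D := (Subgroup.zpowers_le.2 r0.2) hu
    obtain ⟨j, hj⟩ := (hrot ⟨u, huD⟩).1 hu
    refine congrArg Subtype.val (σ.injective (a₁ := ⟨x, hx⟩ * ⟨u, huD⟩ * (⟨x, hx⟩ : D)⁻¹)
      (a₂ := (⟨u, huD⟩ : D)⁻¹) ?_)
    rw [map_mul, map_mul, map_inv, map_inv, hi, hj, DihedralGroup.inv_sr, DihedralGroup.inv_r,
      DihedralGroup.sr_mul_r, DihedralGroup.sr_mul_sr]
    congr 1
    ring
  · refine ⟨(σ.symm (DihedralGroup.sr 0) : G), (σ.symm _).2, fun h => ?_⟩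
    obtain ⟨i, hi⟩ := (hrot _).1 h
    rw [σ.apply_symm_apply] at hi
    exact DihedralGroup.noConfusion rfl (heq_of_eq hi)

namespace IsDih

variable {D : Subgroup G} {r : G} {N : ℕ} (h : IsDih D r N)
include h

theorem four_le : 4 ≤ N := by
  obtain ⟨k, rfl⟩ := h.exists_pow
  calc 4 = 2 ^ 2 := rfl
    _ ≤ 2 ^ (k + 2) := Nat.pow_le_pow_right (by norm_num) (by omega)

theorem two_mul_half : 2 * (N / 2) = N := by
  obtain ⟨k, rfl⟩ := h.exists_pow
  exact Nat.mul_div_cancel' (dvd_pow_self 2 (by omega))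

theorem odd_half_sub_one : Odd (N / 2 - 1) := by
  obtain ⟨k, rfl⟩ := h.exists_pow
  rw [show (2 : ℕ) ^ (k + 2) = 2 * (2 * 2 ^ k) by ring, Nat.mul_div_cancel_left _ (by norm_num)]
  exact ⟨2 ^ k - 1, by have := Nat.one_le_two_pow (n := k); omega⟩

theorem rot_mem {u : G} (hu : u ∈ Subgroup.zpowers r) : u ∈ D :=
  Subgroup.zpowers_le.2 h.r_mem hu

theorem isPGroup : IsPGroup 2 D := by
  obtain ⟨k, hk⟩ := h.exists_pow
  exact IsPGroup.of_card (n := k + 3) (by rw [h.card_eq, hk]; ring)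

theorem exists_orderOf {u : G} (hu : u ∈ D) : ∃ k, orderOf u = 2 ^ k := by
  obtain ⟨k, hk⟩ := IsPGroup.iff_orderOf.1 h.isPGroup ⟨u, hu⟩
  exact ⟨k, by rwa [Subgroup.orderOf_mk] at hk⟩

theorem z_mem : r ^ (N / 2) ∈ Subgroup.zpowers r := Subgroup.npow_mem_zpowers r _

theorem z_sq : r ^ (N / 2) * r ^ (N / 2) = 1 := by
  rw [← pow_add, ← two_mul, h.two_mul_half, ← h.orderOf_r, pow_orderOf_eq_one]

theorem z_ne_one : r ^ (N / 2) ≠ 1 := fun e => by
  have := Nat.le_of_dvd (by have := h.four_le; omega) (h.orderOf_r ▸ orderOf_dvd_of_pow_eq_one e)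
  have := h.four_le; omega

theorem exists_pow_eq [Finite G] {u : G} (hu : u ∈ Subgroup.zpowers r) : ∃ i < N, r ^ i = u := by
  obtain ⟨i, hi⟩ := (mem_powers_iff_mem_zpowers (x := r)).2 hu
  exact ⟨i % N, Nat.mod_lt _ (by have := h.four_le; omega), by
    rw [← h.orderOf_r, pow_mod_orderOf]; exact hi⟩

/-- The involution of the rotations. -/
theorem eq_z [Finite G] {u : G} (hu : u ∈ Subgroup.zpowers r) (h2 : u * u = 1) :
    u = 1 ∨ u = r ^ (N / 2) := by
  obtain ⟨i, hi, rfl⟩ := h.exists_pow_eq hu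
  rw [← pow_add, ← orderOf_dvd_iff_pow_eq_one, h.orderOf_r] at h2
  obtain ⟨c, hc⟩ := h2
  rcases c with _ | _ | c
  · left; rw [show i = 0 by omega, pow_zero]
  · right; congr 1; omega
  · exfalso
    have : N * 2 ≤ i + i := hc ▸ Nat.mul_le_mul_left _ (by omega)
    omega

theorem z_comm {x : G} (hx : x ∈ D) : x * r ^ (N / 2) = r ^ (N / 2) * x := by
  by_cases hxr : x ∈ Subgroup.zpowers r
  · obtain ⟨k, rfl⟩ := Subgroup.mem_zpowers_iff.1 hxr
    exact ((Commute.refl r).zpow_left k).pow_right _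
  · have := (h.refl x hx hxr).2 _ h.z_mem
    rw [inv_eq_of_mul_eq_one_right h.z_sq] at this
    exact mul_inv_eq_iff_eq_mul.1 this

/-- The product of two reflections is a rotation. -/
theorem mul_refl_mem {x y : G} (hx : x ∈ D) (hy : y ∈ D) (hxr : x ∉ Subgroup.zpowers r)
    (hyr : y ∉ Subgroup.zpowers r) : x * y ∈ Subgroup.zpowers r := by
  by_contra hc
  have h1 := (h.refl _ (mul_mem hx hy) hc).2 r (Subgroup.mem_zpowers r)
  have h2 := (h.refl x hx hxr).2 r⁻¹ (inv_mem (Subgroup.mem_zpowers r))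
  have h3 := (h.refl y hy hyr).2 r (Subgroup.mem_zpowers r)
  have h4 : x * y * r * (x * y)⁻¹ = r := by
    calc x * y * r * (x * y)⁻¹ = x * (y * r * y⁻¹) * x⁻¹ := by group
      _ = r := by rw [h3, h2, inv_inv]
  rw [h4] at h1
  have : orderOf r ∣ 2 := orderOf_dvd_of_pow_eq_one (by
    rw [pow_two]; nth_rewrite 2 [h1]; exact mul_inv_cancel r)
  have := Nat.le_of_dvd (by norm_num) (h.orderOf_r ▸ this)
  have := h.four_le
  omega

theorem zpowers_eq [Finite G] {u v : G} (hu : u ∈ Subgroup.zpowers r)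
    (hv : v ∈ Subgroup.zpowers r) (hord : orderOf u = orderOf v) :
    Subgroup.zpowers u = Subgroup.zpowers v := by
  obtain ⟨k, hk⟩ := h.exists_pow
  have key : ∀ w ∈ Subgroup.zpowers r,
      Subgroup.zpowers w = Subgroup.zpowers (r ^ (N / orderOf w)) := by
    intro w hw
    have hdvd : orderOf w ∣ N := by
      obtain ⟨i, -, rfl⟩ := h.exists_pow_eq hw
      rw [← h.orderOf_r]
      exact orderOf_pow_dvd i
    have hle : Subgroup.zpowers w ≤ Subgroup.zpowers (r ^ (N / orderOf w)) := by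
      rw [Subgroup.zpowers_le]
      obtain ⟨i, -, rfl⟩ := h.exists_pow_eq hw
      set d := orderOf (r ^ i) with hd
      have h1 : N ∣ i * d := by
        have h2 : (r ^ i) ^ d = 1 := pow_orderOf_eq_one _
        rw [← pow_mul] at h2
        exact h.orderOf_r ▸ orderOf_dvd_of_pow_eq_one h2
      have hd0 : 0 < d := orderOf_pos _
      obtain ⟨c, hc⟩ : N / d ∣ i := by
        rw [← Nat.mul_dvd_mul_iff_right hd0, Nat.div_mul_cancel hdvd]
        exact h1
      exact Subgroup.mem_zpowers_iff.2 ⟨c, by rw [zpow_natCast, ← pow_mul, ← hc]⟩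
    refine Subgroup.eq_of_le_of_card_ge hle ?_
    rw [Nat.card_zpowers, Nat.card_zpowers]
    refine Nat.le_of_dvd (orderOf_pos _) (orderOf_dvd_of_pow_eq_one ?_)
    rw [← pow_mul, Nat.div_mul_cancel hdvd, ← h.orderOf_r, pow_orderOf_eq_one]
  rw [key u hu, key v hv, hord]

theorem mem_zpowers_self_conj [Finite G] {x u : G} (hu : u ∈ Subgroup.zpowers r)
    (hxu : x * u * x⁻¹ ∈ Subgroup.zpowers r) : x * u * x⁻¹ ∈ Subgroup.zpowers u := by
  have he := h.zpowers_eq hxu hu (by rw [← MulAut.conj_apply]; exact (MulAut.conj x).orderOf_eq u)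
  rw [← he]
  exact Subgroup.mem_zpowers _

/-- An element of odd order normalising a subgroup and fixing the involution centralises it. -/
theorem mem_centralizer_of_odd [Finite G] {Q : Subgroup G} (hQ : Q ≤ D) {x : G}
    (hodd : Odd (orderOf x)) (hxQ : x ∈ Subgroup.normalizer (Q : Set G))
    (hxz : Commute x (r ^ (N / 2))) : x ∈ Subgroup.centralizer (Q : Set G) := by
  have hconj : ∀ u ∈ Q, x * u * x⁻¹ ∈ Q := fun u hu => (Subgroup.mem_normalizer_iff.1 hxQ u).1 hu
  have hinvol : ∀ u ∈ Subgroup.zpowers r, u * u = 1 → Commute x u := fun u hu h2 => by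
    rcases h.eq_z hu h2 with rfl | rfl
    · exact Commute.one_right x
    · exact hxz
  have hrot : ∀ u ∈ Q, u ∈ Subgroup.zpowers r → Commute x u := by
    intro u hu hur
    obtain ⟨a, ha⟩ := h.exists_orderOf (hQ hu)
    by_cases hy : x * u * x⁻¹ ∈ Subgroup.zpowers r
    · exact commute_of_odd_cyclic hodd ha
        (mem_powers_iff_mem_zpowers.2 (h.mem_zpowers_self_conj hur hy))
    · refine hinvol u hur ?_
      have h1 := (h.refl _ (hQ (hconj u hu)) hy).1
      calc u * u = x⁻¹ * (x * u * x⁻¹ * (x * u * x⁻¹)) * x := by group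
        _ = 1 := by rw [h1]; group
  intro u hu
  suffices hc : Commute x u from hc.eq.symm
  by_cases hur : u ∈ Subgroup.zpowers r
  · exact hrot u hu hur
  set y := x * u * x⁻¹ with hy
  have hu2 := (h.refl u (hQ hu) hur).1
  have hyr : y ∉ Subgroup.zpowers r := by
    intro hyr
    have h2 : y * y = 1 := by
      calc y * y = x * (u * u) * x⁻¹ := by rw [hy]; group
        _ = 1 := by rw [hu2]; group
    have hc := hinvol y hyr h2
    apply hur
    have : u = y := by
      calc u = x⁻¹ * y * x := by rw [hy]; group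
        _ = y := by rw [mul_assoc, ← hc.eq, inv_mul_cancel_left]
    rwa [this]
  set q := u * y with hq
  have hqr := h.mul_refl_mem (hQ hu) (hQ (hconj u hu)) hur hyr
  have hxq : Commute x q := hrot q (Q.mul_mem hu (hconj u hu)) hqr
  have huq : x * u * x⁻¹ = u * q := by rw [hq, ← mul_assoc, hu2, one_mul]
  have hj : ∀ j : ℕ, x ^ j * u * (x ^ j)⁻¹ = u * q ^ j := by
    intro j
    induction j with
    | zero => simp
    | succ j ih =>
      calc x ^ (j + 1) * u * (x ^ (j + 1))⁻¹ = x * (x ^ j * u * (x ^ j)⁻¹) * x⁻¹ := by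
            rw [pow_succ']; group
        _ = x * u * x⁻¹ * (x * q ^ j * x⁻¹) := by rw [ih]; group
        _ = u * q ^ (j + 1) := by
            rw [huq, (hxq.pow_right j).eq, mul_inv_cancel_right, mul_assoc, ← pow_succ']
  have h1 := hj (orderOf x)
  rw [pow_orderOf_eq_one, one_mul, inv_one, mul_one, left_eq_mul] at h1
  obtain ⟨a, ha⟩ := h.exists_orderOf (h.rot_mem hqr)
  have hq1 : orderOf q = 1 := Nat.eq_one_of_dvd_coprimes
    (((Nat.coprime_two_right).2 hodd).pow_right a) (orderOf_dvd_of_pow_eq_one h1) (ha ▸ dvd_rfl)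
  rw [orderOf_eq_one_iff.1 hq1, mul_one] at huq
  exact mul_inv_eq_iff_eq_mul.1 huq

/-- The involution is a power of every other rotation. -/
theorem z_mem_zpowers [Finite G] {u : G} (hu : u ∈ Subgroup.zpowers r) (h1 : u ≠ 1) :
    r ^ (N / 2) ∈ Subgroup.zpowers u := by
  obtain ⟨a, ha⟩ := h.exists_orderOf (h.rot_mem hu)
  rcases a with _ | a
  · exact absurd (orderOf_eq_one_iff.1 (ha.trans (pow_zero 2))) h1
  have hw : u ^ 2 ^ a ≠ 1 := fun e => by
    have := Nat.le_of_dvd (by positivity) (ha ▸ orderOf_dvd_of_pow_eq_one e)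
    exact absurd this (not_le.2 (Nat.pow_lt_pow_right (by norm_num) (Nat.lt_succ_self a)))
  have hw2 : u ^ 2 ^ a * u ^ 2 ^ a = 1 := by
    rw [← pow_add, ← two_mul, ← pow_succ', ← ha, pow_orderOf_eq_one]
  rcases h.eq_z (pow_mem hu _) hw2 with e | e
  · exact absurd e hw
  · rw [← e]; exact Subgroup.npow_mem_zpowers u _

theorem centralizer_le_z [Finite G] {u : G} (hu : u ∈ Subgroup.zpowers r) (h1 : u ≠ 1) :
    Subgroup.centralizer ({u} : Set G) ≤ Subgroup.centralizer ({r ^ (N / 2)} : Set G) := by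
  intro x hx
  obtain ⟨k, hk⟩ := Subgroup.mem_zpowers_iff.1 (h.z_mem_zpowers hu h1)
  rw [Subgroup.mem_centralizer_singleton_iff] at hx ⊢
  rw [← hk]
  exact (Commute.zpow_right hx k).eq

theorem normalizes [Finite G] {x u : G} (hx : x ∈ D) (hu : u ∈ Subgroup.zpowers r) :
    x ∈ Subgroup.normalizer (Subgroup.zpowers u : Set G) := by
  apply Subgroup.mem_normalizer_fintype
  intro w hw
  have hwr : w ∈ Subgroup.zpowers r := (Subgroup.zpowers_le.2 hu) hw
  by_cases hxr : x ∈ Subgroup.zpowers r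
  · obtain ⟨k, rfl⟩ := Subgroup.mem_zpowers_iff.1 hxr
    obtain ⟨l, rfl⟩ := Subgroup.mem_zpowers_iff.1 hwr
    rwa [← zpow_neg, ← zpow_add, ← zpow_add, add_neg_cancel_comm]
  · rw [(h.refl x hx hxr).2 w hwr]
    exact inv_mem hw

/-- Subgroups generated by an element of order more than two consist of rotations. -/
theorem mem_of_sq_ne_one {u : G} (hu : u ∈ D) (h2 : u * u ≠ 1) : u ∈ Subgroup.zpowers r :=
  by_contra fun hc => h2 (h.refl u hu hc).1

theorem inf_centralizer_z : D ⊓ Subgroup.centralizer ({r ^ (N / 2)} : Set G) = D :=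
  inf_eq_left.2 fun x hx => Subgroup.mem_centralizer_singleton_iff.2 (h.z_comm hx)

theorem inf_centralizer {u : G} (hu : u ∈ Subgroup.zpowers r) (h2 : u * u ≠ 1) :
    D ⊓ Subgroup.centralizer ({u} : Set G) = Subgroup.zpowers r := by
  refine le_antisymm (fun x hx => ?_) (fun x hx => ⟨h.rot_mem hx, ?_⟩)
  · by_contra hxr
    have h1 := (h.refl x hx.1 hxr).2 u hu
    rw [Subgroup.mem_centralizer_singleton_iff.1 hx.2, mul_inv_cancel_right] at h1
    apply h2
    nth_rewrite 2 [h1]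
    exact mul_inv_cancel u
  · obtain ⟨k, rfl⟩ := Subgroup.mem_zpowers_iff.1 hx
    obtain ⟨l, rfl⟩ := Subgroup.mem_zpowers_iff.1 hu
    exact Subgroup.mem_centralizer_singleton_iff.2 (Commute.zpow_zpow (Commute.refl r) k l).eq

end IsDih

/-- The rotation with index `i`. -/
def rot {N : ℕ} (r : G) (i : ZMod N) : G := r ^ i.val

section Rot

variable {D : Subgroup G} {r : G} {N : ℕ} [NeZero N] (h : IsDih D r N)

theorem rot_mem_zpowers (r : G) (i : ZMod N) : rot r i ∈ Subgroup.zpowers r :=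
  Subgroup.npow_mem_zpowers r _

theorem rot_zero (r : G) : rot r (0 : ZMod N) = 1 := by rw [rot, ZMod.val_zero, pow_zero]

include h

theorem rot_natCast (x : ℕ) : rot r (x : ZMod N) = r ^ x := by
  rw [rot, ZMod.val_natCast, ← h.orderOf_r, pow_mod_orderOf]

theorem rot_add (i j : ZMod N) : rot r (i + j) = rot r i * rot r j := by
  conv_lhs => rw [← ZMod.natCast_zmod_val i, ← ZMod.natCast_zmod_val j, ← Nat.cast_add,
    rot_natCast h, pow_add]
  rfl

theorem rot_neg (i : ZMod N) : rot r (-i) = (rot r i)⁻¹ :=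
  eq_inv_of_mul_eq_one_left (by rw [← rot_add h, neg_add_cancel, rot_zero])

theorem rot_half : rot r ((N / 2 : ℕ) : ZMod N) = r ^ (N / 2) := rot_natCast h _

theorem rot_injective : Function.Injective (rot r : ZMod N → G) := by
  intro i j hij
  rw [rot, rot, pow_eq_pow_iff_modEq, h.orderOf_r] at hij
  exact ZMod.val_injective N (hij.eq_of_lt_of_lt i.val_lt j.val_lt)

theorem rot_ne_one {i : ZMod N} (hi : i ≠ 0) : rot r i ≠ 1 := fun e =>
  hi (rot_injective h (e.trans (rot_zero r).symm))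

theorem exists_rot [Finite G] {u : G} (hu : u ∈ Subgroup.zpowers r) : ∃ i : ZMod N, rot r i = u := by
  obtain ⟨k, -, rfl⟩ := h.exists_pow_eq hu
  exact ⟨(k : ZMod N), rot_natCast h k⟩

theorem rot_sq_ne_one {i : ZMod N} (hi : i ≠ -i) : rot r i * rot r i ≠ 1 := fun e =>
  hi (rot_injective h (by rw [rot_neg h]; exact eq_inv_of_mul_eq_one_left e))

theorem eq_half_of_eq_neg [Finite G] {i : ZMod N} (hi0 : i ≠ 0) (hi : i = -i) :
    i = ((N / 2 : ℕ) : ZMod N) := by
  refine rot_injective h ?_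
  rw [rot_half h]
  refine (h.eq_z (rot_mem_zpowers r i) ?_).resolve_left (rot_ne_one h hi0)
  nth_rewrite 1 [hi]
  rw [rot_neg h, inv_mul_cancel]

end Rot

end CfsgLib.DihedralBlock
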