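import Cfsg.Agent.Lib.DihedralBlock.NilpotentValues
import Cfsg.Agent.Lib.DihedralBlock.Fourier
import Cfsg.Agent.Lib.DihedralBlock.Group
import Cfsg.Agent.Lib.DihedralBlock.Columns
import Cfsg.Agent.Lib.BrauerPairs.ValTransport
import Cfsg.Agent.Lib.BlockStar.Nonvanishing

/-!
# The block parts at the rotations of a dihedral defect group

The block of the centraliser of the involution of the rotations is nilpotent, so the block parts at
the rotations are integral combinations of roots of unity times one fixed function.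
-/

set_option autoImplicit false
set_option linter.style.haveILetI false
set_option linter.unusedSectionVars false

noncomputable section

namespace CfsgLib.DihedralBlock

open Cfsg CfsgLib.Blocks MonoidAlgebra CfsgLib.BrauerPairs CfsgLib.BlockStar
open CfsgLib.BrauerCharacters (cenElem commute_cenElem blockFinset mem_blockFinset centralizer_zpowers_eq)
open CfsgLib.BlockSections (belowBlock)
open scoped ComplexConjugate

/-- The roots of unity of order dividing `N` are the values of the standard character. -/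
theorem exists_stdAddChar_eq {N : ℕ} [NeZero N] {z : ℂ} (hz : z ^ N = 1) :
    ∃ j : ZMod N, ZMod.stdAddChar j = z := by
  obtain ⟨k, -, hk⟩ := (Complex.isPrimitiveRoot_exp N (NeZero.ne N)).eq_pow_of_pow_eq_one hz
  refine ⟨((k : ℤ) : ZMod N), ?_⟩
  rw [ZMod.stdAddChar_coe, ← hk, ← Complex.exp_nat_mul]
  push_cast
  ring_nf

/-- A character on the powers of an element is a Fourier transform of multiplicities. -/
theorem exists_rotVal_eq {H : Type*} [Group H] [Finite H] {N : ℕ} [NeZero N]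
    (ζ : IrrCharacter H) {g : H} (hg : g ^ N = 1) :
    ∃ a : ZMod N → ℤ, ∀ i : ZMod N, (ζ : H → ℂ) (g ^ i.val) = rotVal a i := by
  classical
  obtain ⟨n, ρ, -, hρ⟩ := ζ.2
  obtain ⟨ι, hι, -, μ, -, hμ, -, hchar⟩ := CharTheory.exists_eigenbasis ρ g
  have hμN : ∀ k, μ k ^ N = 1 := fun k => by
    obtain ⟨c, hc⟩ := orderOf_dvd_of_pow_eq_one hg
    rw [hc, pow_mul, hμ k, one_pow]
  choose j hj using fun k => exists_stdAddChar_eq (hμN k)
  refine ⟨fun x => ((Finset.univ.filter fun k => j k = x).card : ℤ), fun i => ?_⟩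
  rw [show (ζ : H → ℂ) = ρ.character from hρ.symm, hchar, rotVal,
    ← Finset.sum_fiberwise Finset.univ j (fun k => μ k ^ i.val)]
  refine Finset.sum_congr rfl fun x _ => ?_
  rw [Finset.sum_congr rfl (g := fun _ => ZMod.stdAddChar (i * x)), Finset.sum_const, nsmul_eq_mul]
  · push_cast
    rfl
  · intro k hk
    rw [← hj k, (Finset.mem_filter.1 hk).2, ← AddChar.map_nsmul_eq_pow]
    congr 1
    rw [nsmul_eq_mul, ZMod.natCast_zmod_val]

variable {G : Type*} [Group G] [Fintype G] {M : Ideal AlgInt} [M.IsPrime]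
  {B : Set (IrrCharacter G)} {D : Subgroup G} {e0 : MonoidAlgebra (Res M) G}
  {r : G} {N : ℕ}

/-- A block idempotent of a centraliser commutes with the elements of the section. -/
theorem commute_subIdem {v g : G} {b : Set (IrrCharacter (Subgroup.centralizer ({v} : Set G)))}
    (hb : IsPBlock M b) (hg : g ∈ Subgroup.centralizer ({v} : Set G)) :
    Commute (single g (1 : Res M)) (subIdem M _ b) :=
  mem_fixedBy_iff_commute.1 (mem_ctr.1 (isBlockIdem_subIdem (M := M) hb).mem).2 g hg

/-- The coefficients and the common factor at the rotations. -/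
theorem exists_local_data [Fact (2 : ℕ).Prime] [CharP (Res M) 2] [IsAlgClosed (Res M)] [NeZero N]
    (hM : IsPModular 2 M) (hB : IsPBlock M B)
    (hmax : IsMaxPair 2 (⊤ : Subgroup G) (redElem M (blockCoeff B)) D e0) (h : IsDih D r N) :
    ∃ (a : IrrCharacter G → ZMod N → ℤ) (π : G → ℂ),
      (∀ χ j, a χ (-j) = a χ j) ∧
      (∀ i : ZMod N, i ≠ 0 → ∀ (χ : IrrCharacter G), ∀ g ∈ secSet 2 (rot r i),
        val χ g (subIdem M _ (belowBlock (M := M) 2 D e0 (rot r i))) = rotVal (a χ) i * π g) ∧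
      ∀ i : ZMod N, i ≠ 0 →
        (Nat.card ↥(D ⊓ Subgroup.centralizer ({rot r i} : Set G)) : ℂ) *
            ∑ g ∈ secSet 2 (rot r i), π g * conj (π g) =
          (Nat.card (Subgroup.centralizer ({rot r i} : Set G)) : ℂ) := by
  classical
  have hb := isBlockIdem_redElem_blockCoeff (M := M) hB
  set z := r ^ (N / 2) with hz
  have hzD : z ∈ D := h.rot_mem h.z_mem
  obtain ⟨hblz, hlez, -⟩ := BlockSections.belowBlock_spec hM hB hmax hzD
  set H := Subgroup.centralizer ({z} : Set G) with hH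
  set bH := belowBlock (M := M) 2 D e0 z with hbH
  have hDH : D ≤ H := fun x hx => Subgroup.mem_centralizer_singleton_iff.2 (h.z_comm hx)
  have hφ := H.subtype_injective
  haveI : Fintype H := Fintype.ofFinite _
  haveI : Fintype (IrrCharacter H) := Fintype.ofFinite _
  -- the maximal pair of the block of `H`
  have hzC : D ≤ Subgroup.centralizer (Subgroup.zpowers z : Set G) := by
    rw [centralizer_zpowers_eq]; exact hDH
  obtain ⟨g0, hn', hge⟩ := hlez.normalLE_of_le_normalizer hmax.1.1 hlez.le le_rfl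
    (hzC.trans (Subgroup.centralizer_le_normalizer _))
  obtain rfl : g0 = e0 :=
    (existsUnique_pairLE hmax.1.1 le_rfl).unique hge (PairLE.refl _ _ _ _)
  have hloc := isMaxPair_local_of_central hb hmax hzC hn'
  rw [cenIn_top, centralizer_zpowers_eq] at hloc
  set D' := D.subgroupOf H with hD'
  have hP' : D'.map H.subtype = D := Subgroup.map_subgroupOf_eq_of_le hDH
  have hcen : (cenIn (⊤ : Subgroup H) D').map H.subtype = cenIn H D := by
    rw [map_cenIn hφ, map_top_subtype, hP']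
  obtain ⟨e', -, he'⟩ := exists_of_isBlockIdem_map hφ (hcen.symm ▸ hloc.1.1.2.2)
  have hbid : mapG H.subtype (redElem M (blockCoeff bH)) = subIdem M H bH :=
    (redElem_subgroupBlockCoeff H _).symm
  have hmaxH : IsMaxPair 2 (⊤ : Subgroup H) (redElem M (blockCoeff bH)) D' e' := by
    refine PairOf.isMaxPair_of_card ?_ fun R g hR => ?_
    · rw [← pairOf_mapG_iff hφ, map_top_subtype, hP', he', hbid]
      exact hloc.1
    · have hR' := (pairOf_mapG_iff hφ).2 hR
      rw [map_top_subtype, hbid] at hR'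
      have h1 := hloc.card_le (isBlockIdem_subIdem hblz) hR'
      rwa [Subgroup.card_map_of_injective hφ, ← hP', Subgroup.card_map_of_injective hφ] at h1
  have hbHi := isBlockIdem_redElem_blockCoeff (M := M) hblz
  -- nilpotency
  have hnil : IsNilp 2 (⊤ : Subgroup H) (redElem M (blockCoeff bH)) := by
    intro Q f hQ x hx hodd
    obtain ⟨g, -, hg⟩ := hQ.exists_conj_le hbHi hmaxH
    set c : H := g * x * g⁻¹ with hc
    set Q'' : Subgroup G := (cj g Q).map H.subtype with hQ''
    have hQD : Q'' ≤ D := hP' ▸ Subgroup.map_mono hg.le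
    have hco : Odd (orderOf (c : G)) := by
      rw [Subgroup.orderOf_coe, hc, ← MulAut.conj_apply, MulEquiv.orderOf_eq]
      exact Nat.not_even_iff_odd.1 fun he => hodd (even_iff_two_dvd.1 he)
    have hcQ : (c : G) ∈ Subgroup.normalizer (Q'' : Set G) := by
      apply Subgroup.mem_normalizer_fintype
      rintro _ ⟨w, hw, rfl⟩
      obtain ⟨q, hq, rfl⟩ := hw
      refine ⟨g * (x * q * x⁻¹) * g⁻¹, ⟨x * q * x⁻¹,
        (Subgroup.mem_normalizer_iff.1 (mem_pairStab.1 hx).2.1 q).1 hq, rfl⟩, ?_⟩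
      simp [hc, mul_assoc]
    have hcz : Commute (c : G) z :=
      Subgroup.mem_centralizer_singleton_iff.1 (c.2 : (c : G) ∈ H)
    have key := h.mem_centralizer_of_odd hQD hco hcQ hcz
    intro q hq
    have h1 := Subgroup.mem_centralizer_iff.1 key _ ⟨_, ⟨q, hq, rfl⟩, rfl⟩
    have h2 : g * q * g⁻¹ * c = c * (g * q * g⁻¹) := Subtype.ext h1
    rw [hc] at h2
    refine mul_left_cancel (a := g) ?_
    simpa [← mul_assoc] using h2
  obtain ⟨χ0, hχ0, h0⟩ := BrauerCharacters.exists_height_eq_zero (p := 2) (B := bH)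
    (Blocks.isPBlock_nonempty hblz)
  haveI : ∀ y : H, Fintype (Subgroup.centralizer ({y} : Set H)) := fun y => Fintype.ofFinite _
  haveI : Fintype D' := Fintype.ofFinite _
  -- the local blocks
  set cv : H → MonoidAlgebra (Res M) H :=
    fun v => subIdem M _ (belowBlock (M := M) 2 D' e' v) with hcv
  set π : G → ℂ := fun g => if hg : g ∈ H then
    val χ0 (⟨g, hg⟩ : H) (cv (ppart 2 (⟨g, hg⟩ : H))) else 0 with hπ
  have hrH : r ∈ H := hDH h.r_mem
  set r' : D' := ⟨⟨r, hrH⟩, Subgroup.mem_subgroupOf.2 h.r_mem⟩ with hr'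
  have hr'N : r' ^ N = 1 := by
    apply Subtype.ext; apply Subtype.ext
    simp [hr', ← h.orderOf_r, pow_orderOf_eq_one]
  obtain ⟨s, hs, hsr⟩ := h.exists_refl
  have hcoef : ∀ ζ : IrrCharacter D', ∃ a : ZMod N → ℤ, (∀ j, a (-j) = a j) ∧
      ∀ i : ZMod N, (ζ : D' → ℂ) (r' ^ i.val) = rotVal a i := by
    intro ζ
    obtain ⟨a, ha⟩ := exists_rotVal_eq ζ hr'N
    have hinv : ∀ i, rotVal a (-i) = rotVal a i := fun i => by
      rw [← ha, ← ha]
      set s' : D' := ⟨⟨s, hDH hs⟩, Subgroup.mem_subgroupOf.2 hs⟩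
      rw [← CharTheory.IsIrrCharacter.isClassFunction ζ.2 (r' ^ i.val) s']
      refine congrArg _ (Subtype.ext (Subtype.ext ?_))
      have h1 := (h.refl s hs hsr).2 (rot r i) (rot_mem_zpowers r i)
      rw [← rot_neg h] at h1
      simpa [rot, hr', s'] using h1.symm
    refine ⟨a, fun j => ?_, ha⟩
    have h1 := sum_rotVal_mul a j
    rw [← Equiv.sum_comp (Equiv.neg (ZMod N))] at h1
    simp only [Equiv.neg_apply, hinv, neg_mul, neg_neg] at h1
    have h2 := sum_rotVal_mul a (-j)
    simp only [mul_neg, neg_neg] at h2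
    rw [h2] at h1
    exact_mod_cast mul_left_cancel₀ (Nat.cast_ne_zero.2 (NeZero.ne N) : (N : ℂ) ≠ 0) h1
  choose aζ haζ1 haζ2 using hcoef
  have hζ := fun ξ (hξ : ξ ∈ blockFinset bH) =>
    exists_val_eq_mul hM hblz hmaxH hnil hχ0 h0 (mem_blockFinset.1 hξ)
  choose ζ hζ using hζ
  set A : IrrCharacter G → ZMod N → ℤ := fun χ j =>
    ∑ ξ ∈ (blockFinset bH).attach, subMult H χ ξ.1 * aζ (ζ ξ.1 ξ.2) j with hA
  refine ⟨A, π, fun χ j => Finset.sum_congr rfl fun ξ _ => by rw [haζ1], ?_⟩
  -- the rotations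
  suffices key : ∀ i : ZMod N, i ≠ 0 →
      (∀ (χ : IrrCharacter G), ∀ g ∈ secSet 2 (rot r i),
        val χ g (subIdem M _ (belowBlock (M := M) 2 D g0 (rot r i))) = rotVal (A χ) i * π g) ∧
      (Nat.card ↥(D ⊓ Subgroup.centralizer ({rot r i} : Set G)) : ℂ) *
          ∑ g ∈ secSet 2 (rot r i), π g * conj (π g) =
        (Nat.card (Subgroup.centralizer ({rot r i} : Set G)) : ℂ) from
    ⟨fun i hi => (key i hi).1, fun i hi => (key i hi).2⟩
  intro i hi
  set v := rot r i with hv
  have hvr : v ∈ Subgroup.zpowers r := rot_mem_zpowers r i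
  have hvD : v ∈ D := h.rot_mem hvr
  have hCle : Subgroup.centralizer ({v} : Set G) ≤ H := h.centralizer_le_z hvr (rot_ne_one h hi)
  set v' : H := ⟨v, hDH hvD⟩ with hv'
  have hv'D : v' ∈ D' := Subgroup.mem_subgroupOf.2 hvD
  obtain ⟨hbl, hle, -⟩ := BlockSections.belowBlock_spec hM hB hmax hvD
  obtain ⟨hbl', hle', hind'⟩ := BlockSections.belowBlock_spec hM hblz hmaxH hv'D
  have hvv : Subgroup.zpowers v = (Subgroup.zpowers v').map H.subtype :=
    (MonoidHom.map_zpowers H.subtype v').symm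
  have hCmap : (Subgroup.centralizer ({v'} : Set H)).map H.subtype =
      Subgroup.centralizer ({v} : Set G) := by
    ext g
    constructor
    · rintro ⟨c, hc, rfl⟩
      exact Subgroup.mem_centralizer_singleton_iff.2
        (congrArg Subtype.val (Subgroup.mem_centralizer_singleton_iff.1 hc))
    · exact fun hg => ⟨⟨g, hCle hg⟩, Subgroup.mem_centralizer_singleton_iff.2
        (Subtype.ext (Subgroup.mem_centralizer_singleton_iff.1 hg)), rfl⟩
  -- the block idempotents agree
  have hid : subIdem M _ (belowBlock (M := M) 2 D g0 v) = mapG H.subtype (cv v') := by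
    have hnorm : D' ≤ Subgroup.normalizer (Subgroup.zpowers v' : Set H) := fun x hx => by
      apply Subgroup.mem_normalizer_fintype
      intro w hw
      have h1 := (Subgroup.mem_normalizer_iff.1 (h.normalizes (Subgroup.mem_subgroupOf.1 hx) hvr)
        (w : G)).1 (by rw [hvv]; exact ⟨w, hw, rfl⟩)
      rw [hvv] at h1
      obtain ⟨w', hw', he⟩ := h1
      obtain rfl : w' = x * w * x⁻¹ := Subtype.ext he
      exact hw'
    obtain ⟨e'', hn2, hge2⟩ := hle'.normalLE_of_le_normalizer hmaxH.1.1 hle'.le le_rfl hnorm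
    obtain rfl : e'' = e' :=
      (existsUnique_pairLE hmaxH.1.1 le_rfl).unique hge2 (PairLE.refl _ _ _ _)
    obtain ⟨-, -, -, -, hfix, hbr⟩ := hn2
    have hn3 : NormalLE 2 (⊤ : Subgroup G) (Subgroup.zpowers v) (mapG H.subtype (cv v')) D g0 := by
      refine ⟨⟨h.isPGroup.to_le (Subgroup.zpowers_le.2 hvD), le_top, ?_⟩, hmax.1.1,
        Subgroup.zpowers_le.2 hvD, fun x hx => h.normalizes hx hvr, fun x hx => ?_, ?_⟩
      · rw [cenIn_top, centralizer_zpowers_eq, ← hCmap, isBlockIdem_mapG_iff hφ]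
        exact isBlockIdem_subIdem hbl'
      · have h1 := congrArg (mapG H.subtype) (hfix ⟨x, hDH hx⟩ (Subgroup.mem_subgroupOf.2 hx))
        rwa [mapG_conjA hφ] at h1
      · have h1 := congrArg (mapG H.subtype) hbr
        rwa [map_mul, ← mapG_brau hφ, hP', he'] at h1
    exact (existsUnique_pairLE hmax.1.1 (Subgroup.zpowers_le.2 hvD)).unique hle hn3.pairLE
  -- the section lies in `H`
  have hsec : ∀ g ∈ secSet 2 v, ∃ hg : g ∈ H,
      ppart 2 (⟨g, hg⟩ : H) = v' ∧ (⟨g, hg⟩ : H) ∈ secSet 2 v' ∧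
      (⟨g, hg⟩ : H) ∈ Subgroup.centralizer ({v'} : Set H) := by
    intro g hg
    have hgC : g ∈ Subgroup.centralizer ({v} : Set G) :=
      Subgroup.mem_centralizer_singleton_iff.2 (commute_of_isPPart (mem_secSet.1 hg)).symm.eq
    refine ⟨hCle hgC, ?_⟩
    have h1 := isPPart_coe_subgroup (ppart_spec (p := 2) (⟨g, hCle hgC⟩ : H))
    have h2 : ppart 2 (⟨g, hCle hgC⟩ : H) = v' :=
      Subtype.ext ((ppart_eq h1).symm.trans (ppart_eq (mem_secSet.1 hg)))
    exact ⟨h2, mem_secSet.2 (h2 ▸ ppart_spec _), Subgroup.mem_centralizer_singleton_iff.2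
      (Subtype.ext (Subgroup.mem_centralizer_singleton_iff.1 hgC))⟩
  have hπv : ∀ g ∈ secSet 2 v, ∀ hg : g ∈ H, π g = val χ0 (⟨g, hg⟩ : H) (cv v') := by
    intro g hg hgH
    obtain ⟨_, hp, _⟩ := hsec g hg
    simp only [hπ, dif_pos hgH, hp]
  refine ⟨fun χ g hg => ?_, ?_⟩
  · obtain ⟨hgH, hp, hgs, hgC⟩ := hsec g hg
    rw [hid, show g = ((⟨g, hgH⟩ : H) : G) from rfl,
      val_subtype H χ (isBlockIdem_subIdem (M := M) hbl').mul_self (commute_subIdem hbl' hgC),
      ← Finset.sum_subset (Finset.subset_univ (blockFinset bH)) fun ξ _ hξ => ?_]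
    · rw [hπv g hg hgH, rotVal]
      simp only [hA]
      push_cast
      simp only [Finset.sum_mul]
      rw [Finset.sum_comm, ← Finset.sum_attach (blockFinset bH)]
      refine Finset.sum_congr rfl fun ξ _ => ?_
      have h3 := hζ ξ.1 ξ.2 ⟨v', hv'D⟩ (⟨g, hgH⟩ : H) hp
      have h4 : ((ζ ξ.1 ξ.2 : IrrCharacter D') : D' → ℂ) ⟨v', hv'D⟩ =
          rotVal (aζ (ζ ξ.1 ξ.2)) i :=
        (congrArg _ (Subtype.ext (Subtype.ext (by simp [hv', hr', hv, rot])))).trans (haζ2 _ i)
      rw [h4, rotVal] at h3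
      rw [show val ξ.1 (⟨g, hgH⟩ : H) (cv v') = _ from h3, Finset.sum_mul, Finset.mul_sum]
      exact Finset.sum_congr rfl fun j _ => by simp only [hcv]; ring
    · refine mul_eq_zero_of_right _ ?_
      obtain ⟨w, hw, hcw, hk, hreg⟩ := mem_secSet.1 hgs
      have hwC : w ∈ Subgroup.centralizer ({v'} : Set H) :=
        Subgroup.mem_centralizer_singleton_iff.2 hcw.symm.eq
      have hgs' : ((cenElem v' * ⟨w, hwC⟩ : Subgroup.centralizer ({v'} : Set H)) : H) =
          (⟨g, hgH⟩ : H) := hw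
      rw [← hgs', val_subIdem ξ _ hbl']
      exact BrauerCharacters.secPart_eq_zero_of_isInducedBlock v'
        (BlockSections.isPElem_of_mem hM hblz hmaxH hv'D) hM hind'
        (fun hm => hξ (mem_blockFinset.2 hm)) (by rwa [Subgroup.orderOf_mk])
  · have h1 := secPairing_eq_subPair hM hblz hmaxH hv'D χ0 χ0
    have h2 := scaled_subPair_eq_one hM hblz hmaxH hnil hχ0 h0 ⟨v', hv'D⟩
    have hsum : ∑ g ∈ secSet 2 v, π g * conj (π g) = secPairing 2 v' (cv v') χ0 χ0 := by
      refine Finset.sum_bij (fun g hg => (⟨g, (hsec g hg).fst⟩ : H)) (fun g hg => (hsec g hg).2.2.1)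
        (fun g _ g' _ e => congrArg Subtype.val e) (fun w hw => ⟨(w : G),
          mem_secSet.2 (isPPart_coe_subgroup (mem_secSet.1 hw)), rfl⟩) fun g hg => ?_
      rw [hπv g hg (hsec g hg).fst]
    have hc : Nat.card ↥(D' ⊓ Subgroup.centralizer ({v'} : Set H)) =
        Nat.card ↥(D ⊓ Subgroup.centralizer ({v} : Set G)) := by
      rw [← Subgroup.card_map_of_injective hφ, Subgroup.map_inf _ _ _ hφ, hP', hCmap]
    have hc' : Nat.card (Subgroup.centralizer ({v'} : Set H)) =
        Nat.card (Subgroup.centralizer ({v} : Set G)) := by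
      rw [← hCmap, Subgroup.card_map_of_injective hφ]
    rw [hsum]
    simp only [hcv]
    rw [h1, ← hc, ← hc', mul_left_comm, h2, mul_one]

end CfsgLib.DihedralBlock
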