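import Cfsg.Agent.Lib.DihedralBlock.Relations

/-!
# The blocks of rank one at the rotations

Their characters vanish outside the sections of the rotations, and the block parts there are
multiples by units of a character of height zero.
-/

set_option autoImplicit false
set_option linter.style.haveILetI false
set_option linter.unusedSectionVars false

noncomputable section

namespace CfsgLib.DihedralBlock

open Cfsg CfsgLib.Blocks MonoidAlgebra CfsgLib.BrauerPairs CfsgLib.BlockStar
open CfsgLib.BrauerCharacters (cenElem commute_cenElem blockFinset mem_blockFinset secPart contrib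
  regEntry regInner)
open CfsgLib.BlockSections (belowBlock secX secW secW' secField)
open scoped ComplexConjugate

variable {G : Type*} [Group G] [Fintype G] {M : Ideal AlgInt} [M.IsPrime]
  [Fact (2 : ℕ).Prime] [CharP (Res M) 2] [IsAlgClosed (Res M)]
  {B : Set (IrrCharacter G)} {D : Subgroup G} {e0 : MonoidAlgebra (Res M) G}
  {r : G} {N : ℕ} [NeZero N] {a : IrrCharacter G → ZMod N → ℤ} {π : G → ℂ}
  (hM : IsPModular 2 M) (hB : IsPBlock M B)
  (hmax : IsMaxPair 2 (⊤ : Subgroup G) (redElem M (blockCoeff B)) D e0) (h : IsDih D r N)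

theorem isIntegral_rotVal (f : ZMod N → ℤ) (i : ZMod N) : IsIntegral ℤ (rotVal f i) :=
  IsIntegral.sum _ fun j _ => (isIntegral_algebraMap (R := ℤ) (x := f j)).mul
    (isIntegral_of_pow_eq_one (NeZero.ne N) (by
      rw [← AddChar.map_nsmul_eq_pow, nsmul_eq_mul, ZMod.natCast_self, zero_mul,
        AddChar.map_zero_eq_one]))

include hM hB hmax h

/-- The block at a generating rotation vanishes outside the rotations. -/
theorem subFun_eq_zero_of_notMem {v : G} (hv : v ∈ Subgroup.zpowers r) (h2 : v * v ≠ 1)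
    (hgen : r ∈ Subgroup.zpowers v) [Fintype (Subgroup.centralizer ({v} : Set G))] (χ : IrrCharacter G)
    {c x : Subgroup.centralizer ({v} : Set G)} (hx : IsPPart 2 c x)
    (hxr : (x : G) ∉ Subgroup.zpowers r) :
    subFun _ (belowBlock (M := M) 2 D e0 v) χ c = 0 := by
  obtain ⟨hbl, -, -⟩ := BlockSections.belowBlock_spec hM hB hmax (h.rot_mem hv)
  have hd := isDefectGroup_below hM hB hmax h hv (fun e => h2 (by rw [e, one_mul]))
  rw [h.inf_centralizer hv h2] at hd
  refine Finset.sum_eq_zero fun ξ hξ => mul_eq_zero_of_right _ ?_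
  refine irr_eq_zero_of_isPPart_notMem hM ξ hx fun E hE hxE => hxr ?_
  rw [← isPBlock_eq_of_mem hbl (isPBlock_blockOf (M := M) ξ) (mem_blockFinset.1 hξ)
    (mem_blockOf_self (M := M) ξ)] at hE
  obtain ⟨g, hg⟩ := isDefectGroup_conj_exists hM hbl hd hE
  rw [← hg] at hxE
  obtain ⟨w, hw, hwx⟩ := hxE
  have hcomm : (g : G) * (w : G) * (g : G)⁻¹ = (w : G) := by
    obtain ⟨k, hk⟩ := Subgroup.mem_zpowers_iff.1 (Subgroup.mem_subgroupOf.1 hw)
    obtain ⟨l, hl⟩ := Subgroup.mem_zpowers_iff.1 hgen
    have hgv : Commute (g : G) v := Subgroup.mem_centralizer_singleton_iff.1 g.2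
    rw [← hk, ← hl]
    exact mul_inv_eq_iff_eq_mul.2 ((hgv.zpow_right l).zpow_right k).eq
  rw [← congrArg Subtype.val hwx]
  show ((g * w * g⁻¹ : Subgroup.centralizer ({v} : Set G)) : G) ∈ _
  rw [Subgroup.coe_mul, Subgroup.coe_mul, Subgroup.coe_inv, hcomm]
  exact Subgroup.mem_subgroupOf.1 hw

/-- The block parts at a rotation are unit multiples of a character of height zero. -/
theorem exists_unit_factor [∀ y : G, Fintype (Subgroup.centralizer ({y} : Set G))]
    [Fintype (IrrCharacter G)] (R : IsRotData (M := M) D e0 r a π) {χ1 : IrrCharacter G}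
    (hχ1 : χ1 ∈ B) (h0 : blockHeight 2 B (χ1 : G → ℂ) = 0) {i : ZMod N} (hi : i ≠ 0) :
    ∃ (ρ : IrrCharacter (Subgroup.centralizer ({rot r i} : Set G))) (u : ℤ) (W : ℂ),
      ρ ∈ belowBlock (M := M) 2 D e0 (rot r i) ∧
      blockHeight 2 (belowBlock (M := M) 2 D e0 (rot r i))
        (ρ : Subgroup.centralizer ({rot r i} : Set G) → ℂ) = 0 ∧
      Odd u ∧ MemLocalRing M W ∧ ¬ MemLocalIdeal M W ∧
      ∀ s : Subgroup.centralizer ({rot r i} : Set G), ¬ 2 ∣ orderOf s →
        (u : ℂ) * rotVal (a χ1) i * π (rot r i * (s : G)) =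
          W * (ρ : Subgroup.centralizer ({rot r i} : Set G) → ℂ) s := by
  classical
  obtain ⟨hbl, -, hind⟩ := BlockSections.belowBlock_spec hM hB hmax (rot_mem_group h i)
  have hrk := (sum_sq_rotVal hM hB hmax h R hi hχ1 h0).2
  have hy := exists_orderOf_rot h i
  set v := rot r i with hv
  set b := belowBlock (M := M) 2 D e0 v with hb
  obtain ⟨ρ, hρ, hρ0⟩ := BrauerCharacters.exists_height_eq_zero (p := 2)
    (Blocks.isPBlock_nonempty hbl)
  obtain ⟨L, hL⟩ := exists_subFun_eq_mul (Subgroup.centralizer ({v} : Set G)) hrk hρ χ1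
    (y := cenElem v) (commute_cenElem v)
  set u := regEntry 2 b ρ ρ with hu
  set W := (secW v b 2 χ1 ρ : ℂ) with hW
  have hodd : Odd u := by
    rw [← Int.not_even_iff_odd]
    intro he
    have hn := BrauerCharacters.not_pow_succ_height_dvd (p := 2)
      (BrauerCharacters.weakOrth hM hbl) hM hbl hρ hρ hρ0
    rw [hρ0, zero_add, pow_one] at hn
    exact hn (even_iff_two_dvd.1 he)
  have hpart : ∀ s : Subgroup.centralizer ({v} : Set G), ¬ 2 ∣ orderOf s →
      secPart v b χ1 s = L * (ρ : Subgroup.centralizer ({v} : Set G) → ℂ) s := fun s hs => by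
    rw [secPart_eq_subFun, hL s hs]
  have hreg : (u : ℂ) = (2 : ℂ) ^ blockDefect 2 b *
      ((Nat.card (Subgroup.centralizer ({v} : Set G)) : ℂ)⁻¹ *
        ∑ s : Subgroup.centralizer ({v} : Set G), if 2 ∣ orderOf s then 0 else
          (ρ : Subgroup.centralizer ({v} : Set G) → ℂ) s *
            conj ((ρ : Subgroup.centralizer ({v} : Set G) → ℂ) s)) := by
    rw [hu, BrauerCharacters.coe_regEntry hρ, regInner, classInner]
    congr 1
    congr 1
    refine Finset.sum_congr rfl fun s _ => ?_
    rw [BrauerCharacters.pRegularPart_apply]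
    split_ifs with hs
    · rw [zero_mul]
    · rfl
  have hWL : W = (u : ℂ) * L := by
    rw [hW, BlockSections.coe_secW v b hM hbl hy, hreg]
    push_cast
    simp only [mul_assoc, Finset.sum_mul]
    congr 2
    refine Finset.sum_congr rfl fun s _ => ?_
    split_ifs with hs
    · rw [zero_mul]
    · rw [hpart s hs]; ring
  have hX : (secX v b 2 χ1 χ1 : ℂ) = L * conj L * (u : ℂ) := by
    rw [BlockSections.coe_secX, hreg, contrib]
    push_cast
    simp only [Finset.mul_sum]
    refine Finset.sum_congr rfl fun s _ => ?_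
    split_ifs with hs
    · ring
    · rw [hpart s hs, map_mul]; ring
  have hWint : ∀ η, IsIntegral ℤ (secW v b 2 χ1 η : ℂ) := fun η => by
    simp only [secW, AddSubmonoidClass.coe_finsetSum, MulMemClass.coe_mul]
    refine IsIntegral.sum _ fun ξ _ => ?_
    rw [show ((((BrauerCharacters.resMult v χ1 ξ * regEntry 2 b ξ η : ℤ)) : secField v) : ℂ) =
      ((BrauerCharacters.resMult v χ1 ξ * regEntry 2 b ξ η : ℤ) : ℂ) from
        map_intCast (secField v).val _]
    exact (isIntegral_algebraMap (R := ℤ)).mul (BlockSections.isIntegral_cv v ξ)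
  have hWc : MemLocalRing M (conj W) := memLocalRing_of_isIntegral
    ((hWint ρ).map (starRingEnd ℂ).toIntAlgHom)
  refine ⟨ρ, u, W, hρ, hρ0, hodd, memLocalRing_of_isIntegral (hWint ρ), fun hI => ?_,
    fun s hs => ?_⟩
  · have h1 := memLocalIdeal_mul_left hWc hI
    rw [show conj W * W = (u : ℂ) * (secX v b 2 χ1 χ1 : ℂ) by
      rw [hX, hWL, map_mul, map_intCast]; ring] at h1
    rcases (memLocalIdeal_mul_iff (memLocalRing_intCast u) (memLocalRing_of_isIntegral
      (BlockSections.isIntegral_secX v b χ1 χ1))).1 h1 with h2 | h2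
    · exact Int.not_even_iff_odd.2 hodd (even_iff_two_dvd.2 ((memLocalIdeal_intCast_iff hM u).1 h2))
    · exact BlockSections.not_memLocalIdeal_secX v b hM hy hind hχ1 h0 hχ1 h0 h2
  · obtain ⟨k, hk⟩ := hy
    have hg : v * (s : G) ∈ secSet 2 v := mem_secSet.2 (isPPart_mul
      (congrArg Subtype.val (commute_cenElem v s).eq) ⟨k, hk⟩ (by rwa [Subgroup.orderOf_coe]))
    have h1 : val χ1 (v * (s : G)) (belowIdem D e0 v) =
        L * (ρ : Subgroup.centralizer ({v} : Set G) → ℂ) s := by
      rw [show v * (s : G) = ((cenElem v * s : Subgroup.centralizer ({v} : Set G)) : G) from rfl,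
        belowIdem, val_subIdem χ1 _ hbl]
      exact hL s hs
    rw [R.val_eq i hi χ1 _ hg] at h1
    rw [mul_assoc, h1, hWL]
    ring

end CfsgLib.DihedralBlock
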