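import Cfsg.Agent.Lib.DihedralBlock.Exclusion
import Cfsg.Agent.Lib.BrauerCharacters.Consequences

/-!
# Blocks with dihedral defect groups
-/

set_option autoImplicit false
set_option linter.style.haveILetI false
set_option linter.unusedSectionVars false

noncomputable section

namespace CfsgLib.DihedralBlock

open Cfsg CfsgLib.Blocks CfsgLib.BrauerPairs
open CfsgLib.BrauerCharacters (blockFinset mem_blockFinset)

/-- The invariants of a block with dihedral defect group. -/
theorem block_invariants {G : Type*} [Group G] [Finite G] (M : Ideal AlgInt) (hM : IsPModular 2 M)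
    (B : Set (IrrCharacter G)) (hB : IsPBlock M B) (D : Subgroup G) (hD : IsDefectGroup 2 M B D)
    (n : ℕ) (hn : 3 ≤ n) (hdih : Nonempty (D ≃* DihedralGroup (2 ^ (n - 1)))) :
    Nat.card B = 2 ^ (n - 2) + 3 ∧ 1 ≤ blockRank 2 B ∧ blockRank 2 B ≤ 3 ∧
      Nat.card {χ : IrrCharacter G // χ ∈ B ∧ blockHeight 2 B (χ : G → ℂ) = 0} = 4 ∧
      ∀ χ ∈ B, blockHeight 2 B (χ : G → ℂ) ≤ 1 := by
  classical
  haveI : Fact (2 : ℕ).Prime := ⟨Nat.prime_two⟩
  haveI := Fintype.ofFinite G
  haveI : M.IsMaximal := hM.2.1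
  haveI := charP_res hM
  haveI := isAlgClosed_res (M := M)
  haveI := Fintype.ofFinite (IrrCharacter G)
  haveI : ∀ y : G, Fintype (Subgroup.centralizer ({y} : Set G)) := fun y => Fintype.ofFinite _
  have hb := isBlockIdem_redElem_blockCoeff (M := M) hB
  obtain ⟨e0, hmax⟩ := exists_isMaxPair_of_isDefectIn hb ((isDefectGroup_iff hM hB).1 hD)
  obtain ⟨σ⟩ := hdih
  obtain ⟨r, h⟩ := exists_isDih hn σ
  haveI : NeZero (2 ^ (n - 1)) := ⟨pow_ne_zero _ two_ne_zero⟩
  set N := 2 ^ (n - 1) with hN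
  obtain ⟨a, π, R⟩ := exists_isRotData hM hB hmax h
  have hN2 : N = 2 * 2 ^ (n - 2) := by
    rw [hN, ← pow_succ']; congr 1; omega
  set m := 2 ^ (n - 2) - 1 with hm
  have hpow : 1 ≤ 2 ^ (n - 2) := Nat.one_le_two_pow
  have hNm : N = 2 * (m + 1) := by omega
  have hodd : Odd m := by
    have := h.odd_half_sub_one
    rwa [show N / 2 - 1 = m by omega] at this
  obtain ⟨χ1, hχ1, h01⟩ := BrauerCharacters.exists_height_eq_zero (p := 2) (B := B)
    (Blocks.isPBlock_nonempty hB)
  set A : blockFinset B → ℕ → ℤ := fun x j => a x.1 (j : ZMod N) with hA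
  have hrel : Rel m A := rel_coeff hM hB hmax h R hχ1 h01 hNm
  have hq : ∀ x : blockFinset B, ∃ q : ℤ, Odd q ∧
      valZ m A x * valZ m (fun (_ : Unit) j => a χ1 (j : ZMod N)) () =
        2 ^ blockHeight 2 B (x.1 : G → ℂ) * q := fun x =>
    exists_odd_valZ hM hB hmax h R hodd hNm (mem_blockFinset.1 x.2) hχ1 h01
  have h1odd : Odd (valZ m (fun (_ : Unit) j => a χ1 (j : ZMod N)) ()) := by
    obtain ⟨q, hqo, hqe⟩ := exists_odd_valZ hM hB hmax h R hodd hNm hχ1 hχ1 h01
    rw [h01, pow_zero, one_mul] at hqe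
    exact (Int.odd_mul.1 (hqe ▸ hqo)).1
  set x1 := valZ m (fun (_ : Unit) j => a χ1 (j : ZMod N)) () with hx1
  have hz : ∀ x, valZ m A x ≠ 0 := fun x e => by
    obtain ⟨q, hqo, hqe⟩ := hq x
    rw [e, zero_mul, eq_comm, mul_eq_zero] at hqe
    rcases hqe with hqe | hqe
    · exact pow_ne_zero _ (by norm_num) hqe
    · rw [hqe] at hqo; exact absurd hqo (by decide)
  rcases classify hodd hrel hz with ⟨hcard, hfour, hsmall⟩ | ⟨hm3, hex⟩
  swap
  · exact absurd hex (not_exceptional hM hB hmax h R (by omega))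
  have hB' : Nat.card B = m + 4 := by
    rw [← hcard, Fintype.card_coe, BrauerCharacters.card_blockFinset]
  have hheight : ∀ x : blockFinset B,
      ((valZ m A x).natAbs = 1 ↔ blockHeight 2 B (x.1 : G → ℂ) = 0) ∧
        blockHeight 2 B (x.1 : G → ℂ) ≤ 1 := by
    intro x
    obtain ⟨q, hqo, hqe⟩ := hq x
    have e := congrArg Int.natAbs hqe
    rw [Int.natAbs_mul, Int.natAbs_mul, Int.natAbs_pow, show (2 : ℤ).natAbs = 2 from rfl] at e
    have o1 : ¬ 2 ∣ x1.natAbs := fun hd => Int.not_even_iff_odd.2 h1odd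
      (even_iff_two_dvd.2 (Int.natAbs_dvd_natAbs.1 (by simpa using hd)))
    have o2 : ¬ 2 ∣ q.natAbs := fun hd => Int.not_even_iff_odd.2 hqo
      (even_iff_two_dvd.2 (Int.natAbs_dvd_natAbs.1 (by simpa using hd)))
    generalize blockHeight 2 B (x.1 : G → ℂ) = k at e ⊢
    have h0 : (valZ m A x).natAbs ≠ 0 := Int.natAbs_ne_zero.2 (hz x)
    have hk : (valZ m A x).natAbs.factorization 2 = k := by
      have := congrArg (fun t : ℕ => t.factorization 2) e
      simp only [Nat.factorization_mul h0 (fun e' : x1.natAbs = 0 => o1 (by rw [e']; exact dvd_zero 2)),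
        Nat.factorization_mul (pow_ne_zero k two_ne_zero) (fun e' : q.natAbs = 0 => o2 (by rw [e']; exact dvd_zero 2)),
        Finsupp.add_apply, Nat.factorization_eq_zero_of_not_dvd o1,
        Nat.factorization_eq_zero_of_not_dvd o2, Nat.Prime.factorization_pow Nat.prime_two,
        Finsupp.single_eq_same, add_zero] at this
      exact this
    rcases hsmall x with e' | e' <;> rw [e'] at hk ⊢
    · rw [Nat.factorization_one, Finsupp.zero_apply] at hk
      omega
    · rw [Nat.Prime.factorization_self Nat.prime_two] at hk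
      omega
  have hrank := blockRank_add_half_le hM hB hmax h R hχ1 h01
  refine ⟨by omega, BrauerCharacters.blockRank_pos ⟨χ1, hχ1⟩, by omega, ?_, fun χ hχ =>
    (hheight ⟨χ, mem_blockFinset.2 hχ⟩).2⟩
  rw [← hfour, Nat.card_eq_fintype_card, ← Fintype.card_coe]
  exact Fintype.card_congr
    { toFun := fun χ => ⟨⟨χ.1, mem_blockFinset.2 χ.2.1⟩,
        Finset.mem_filter.2 ⟨Finset.mem_univ _, (hheight _).1.2 χ.2.2⟩⟩
      invFun := fun x => ⟨x.1.1, mem_blockFinset.1 x.1.2,
        (hheight x.1).1.1 (Finset.mem_filter.1 x.2).2⟩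
      left_inv := fun χ => rfl
      right_inv := fun x => rfl }

end CfsgLib.DihedralBlock
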