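import Cfsg.Agent.Lib.BlockStar.Nilpotent

/-!
# The block parts of the characters of a nilpotent block

They are the products of the values of an irreducible character of the defect group with the block
parts of a fixed character of height zero.
-/

set_option autoImplicit false
set_option linter.style.haveILetI false
set_option linter.unusedSectionVars false

noncomputable section

namespace CfsgLib.DihedralBlock

open Cfsg CfsgLib.Blocks MonoidAlgebra CfsgLib.BrauerPairs CfsgLib.BlockStar
open CfsgLib.BrauerCharacters (cenElem commute_cenElem)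
open CfsgLib.BlockSections (belowBlock)

variable {G : Type*} [Group G] [Fintype G] {M : Ideal AlgInt} [M.IsPrime] {p : ℕ} [Fact p.Prime]
  {B : Set (IrrCharacter G)} {P : Subgroup G} {e0 : MonoidAlgebra (Res M) G}
  [CharP (Res M) p] [IsAlgClosed (Res M)]

/-- The block parts at the pairs below the maximal one. -/
theorem exists_val_eq_mul (hM : IsPModular p M) (hB : IsPBlock M B)
    (hmax : IsMaxPair p (⊤ : Subgroup G) (redElem M (blockCoeff B)) P e0)
    (hnil : IsNilp p (⊤ : Subgroup G) (redElem M (blockCoeff B))) {χ : IrrCharacter G}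
    (hχ : χ ∈ B) (h0 : blockHeight p B (χ : G → ℂ) = 0) {ξ : IrrCharacter G} (hξ : ξ ∈ B) :
    ∃ ζ : IrrCharacter P, ∀ (v : P) (g : G), ppart p g = (v : G) →
      val ξ g (subIdem M _ (belowBlock (M := M) p P e0 (v : G))) =
        (ζ : P → ℂ) v * val χ g (subIdem M _ (belowBlock (M := M) p P e0 (v : G))) := by
  classical
  haveI : ∀ y : G, Fintype (Subgroup.centralizer ({y} : Set G)) := fun y => Fintype.ofFinite _
  haveI := Fintype.ofFinite P
  haveI := Fintype.ofFinite (IrrCharacter P)
  obtain ⟨Φ, hΦ⟩ := exists_equiv_of_nilp hM hB hmax hnil hχ h0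
  set f : IrrCharacter P → G → ℂ := fun ζ => starF p χ P e0 (extP P (ζ : P → ℂ)) with hf
  have horth : ∀ ζ η, classInner (f ζ) (f η) = if ζ = η then 1 else 0 := fun ζ η =>
    classInner_starF_extP hM hB hmax hnil hχ h0 ζ η
  have hstab : ∀ ζ : IrrCharacter P, StableFun p P e0 (extP P (ζ : P → ℂ)) := fun ζ =>
    stableFun_of_nilp hM hB hmax hnil (extP_conj (CharTheory.IsIrrCharacter.isClassFunction ζ.2))
  have hreg : ∀ ζ : IrrCharacter P, ∀ g : G, ¬ p ∣ orderOf g →
      f ζ g = (ζ : P → ℂ) 1 * (χ : G → ℂ) g := fun ζ g hg => by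
    simp only [hf]
    rw [starF_regular hM hB hmax hχ (hstab ζ) hg,
      show extP P (ζ : P → ℂ) 1 = (ζ : P → ℂ) 1 from extP_coe (ζ : P → ℂ) 1]
  have hirr : ∀ ζ : IrrCharacter P, IsIrrCharacter G (f ζ) := by
    intro ζ
    have hgen : IsGeneralizedCharacter G (f ζ) :=
      isGeneralizedCharacter_starF hM hB hmax χ (hstab ζ) (by
        simp only [extP_coe]
        exact CharTheory.IsIrrCharacter.isGeneralizedCharacter ζ.2)
    refine (CharTheory.exists_sign_irr_of_norm_one hgen
      ((horth ζ ζ).trans (if_pos rfl))).resolve_right fun h => ?_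
    have h1 := (BrauerCharacters.charDegree_spec (⟨-f ζ, h⟩ : IrrCharacter G)).1
    have h5 := hΦ (Φ.symm ζ) 1 (by rw [orderOf_one]; exact (Fact.out : p.Prime).not_dvd_one)
    rw [Equiv.apply_symm_apply, ← hreg ζ 1
      (by rw [orderOf_one]; exact (Fact.out : p.Prime).not_dvd_one)] at h5
    obtain ⟨h3, h4, -⟩ := BrauerCharacters.charDegree_spec ((Φ.symm ζ : B) : IrrCharacter G)
    simp only [Pi.neg_apply] at h1
    rw [← h5, h3] at h1
    have h7 : ((charDegree (((Φ.symm ζ : B) : IrrCharacter G) : G → ℂ) +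
        charDegree (-f ζ) : ℕ) : ℂ) = 0 := by
      push_cast; rw [← h1]; ring
    have := Nat.cast_eq_zero.1 h7
    omega
  have hmem : ∀ ζ, (⟨f ζ, hirr ζ⟩ : IrrCharacter G) ∈ B := fun ζ =>
    mem_of_forall_regular_eq hM hB (Φ.symm ζ).2 fun g hg => by
      rw [hΦ (Φ.symm ζ) g hg, Equiv.apply_symm_apply]
      exact hreg ζ g hg
  let Ψ : IrrCharacter P → B := fun ζ => ⟨⟨f ζ, hirr ζ⟩, hmem ζ⟩
  have hinj : Function.Injective Ψ := fun ζ η h => by
    have h1 := horth ζ η
    rw [show f ζ = f η from congrArg (fun x : B => ((x : IrrCharacter G) : G → ℂ)) h,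
      (horth η η).trans (if_pos rfl)] at h1
    by_contra hne
    rw [if_neg hne] at h1
    exact one_ne_zero h1
  obtain ⟨ζ, hζ⟩ := (Finite.injective_iff_surjective_of_equiv Φ.symm).1 hinj ⟨ξ, hξ⟩
  have hξf : (ξ : G → ℂ) = f ζ := congrArg (fun x : B => ((x : IrrCharacter G) : G → ℂ)) hζ.symm
  refine ⟨ζ, fun v g hv => ?_⟩
  obtain ⟨hbl, hle, -⟩ := BlockSections.belowBlock_spec hM hB hmax v.2
  set y : G := (v : G) with hy
  set c0 := subIdem M (Subgroup.centralizer ({y} : Set G)) (belowBlock (M := M) p P e0 y)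
  have hcmem : c0 ∈ blocksAt M y :=
    mem_blockIdems.2 (by rw [cenIn_zpowers]; exact isBlockIdem_subIdem hbl)
  have hex : ∀ c ∈ blocksAt M y, ∃ b : Set (IrrCharacter (Subgroup.centralizer ({y} : Set G))),
      IsPBlock M b ∧ subIdem M _ b = c := fun c hc => by
    have := mem_blockIdems.1 hc
    rw [cenIn_zpowers] at this
    exact exists_isPBlock_subIdem this
  choose! b hb1 hb2 using hex
  have hb3 : ∀ c ∈ blocksAt M y, ∀ (φ : IrrCharacter G) (s : Subgroup.centralizer ({y} : Set G)),
      val φ ((cenElem y * s : Subgroup.centralizer ({y} : Set G)) : G) c =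
        subFun _ (b c) φ (cenElem y * s) := fun c hc φ s => by
    conv_lhs => rw [← hb2 c hc]
    exact val_subIdem φ _ (hb1 c hc) _
  obtain ⟨s, hs, hcs, hk, hreg'⟩ := ppart_spec (p := p) g
  rw [hv] at hs hcs hk
  have hpp : ∀ t : Subgroup.centralizer ({y} : Set G), ¬ p ∣ orderOf t →
      ppart p ((cenElem y * t : Subgroup.centralizer ({y} : Set G)) : G) = y := fun t ht =>
    ppart_eq (isPPart_mul (x := y) (y := (t : G))
      (congrArg Subtype.val (commute_cenElem y t).eq) hk (by rwa [Subgroup.orderOf_coe]))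
  have hsC : s ∈ Subgroup.centralizer ({y} : Set G) :=
    Subgroup.mem_centralizer_singleton_iff.2 hcs.symm.eq
  have hgs : ((cenElem y * ⟨s, hsC⟩ : Subgroup.centralizer ({y} : Set G)) : G) = g := hs
  have key := eq_of_sum_subFun_eq hM (commute_cenElem y) (blocksAt M y) b hb1
    (fun c hc c' hc' h => by rw [← hb2 c hc, ← hb2 c' hc', h]) (fun _ => 1)
    (fun c => LamF p P e0 (extP P (ζ : P → ℂ)) y c) ξ χ (fun t ht => ?_) hcmem (s := ⟨s, hsC⟩)
    (by rwa [← Subgroup.orderOf_coe])
  · rw [one_mul, ← hb3 c0 hcmem, ← hb3 c0 hcmem, hgs] at key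
    rw [key, LamF_eq (x := 1) (hstab ζ) (by rw [one_mul, inv_one, mul_one, conjA_one]; exact hle),
      one_mul, inv_one, mul_one, hy, extP_coe]
  · have h1 := apply_eq_sum_val (M := M) (p := p) ξ
      ((cenElem y * t : Subgroup.centralizer ({y} : Set G)) : G)
    rw [hξf, hpp t ht] at h1
    have h2 : f ζ ((cenElem y * t : Subgroup.centralizer ({y} : Set G)) : G) =
        ∑ d ∈ blocksAt M y, LamF p P e0 (extP P (ζ : P → ℂ)) y d *
          val χ ((cenElem y * t : Subgroup.centralizer ({y} : Set G)) : G) d := by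
      simp only [hf]
      unfold starF
      rw [hpp t ht]
    calc ∑ d ∈ blocksAt M y, 1 * subFun _ (b d) ξ (cenElem y * t)
        = ∑ d ∈ blocksAt M y, val ξ ((cenElem y * t : Subgroup.centralizer ({y} : Set G)) : G) d :=
          Finset.sum_congr rfl fun d hd => by rw [one_mul, hb3 d hd]
      _ = f ζ _ := h1.symm
      _ = _ := h2
      _ = _ := Finset.sum_congr rfl fun d hd => by rw [hb3 d hd]

end CfsgLib.DihedralBlock
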