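import Cfsg.Agent.Lib.DihedralBlock.LocalData
import Cfsg.Agent.Lib.DihedralBlock.Fusion
import Cfsg.Agent.Lib.BlockSections.Count
import Cfsg.Agent.Lib.CharTheory.Degree

/-!
# The relations between the coefficient systems

Orthogonality of the block parts at the rotations, against the regular columns, and the
divisibility at the central involution.
-/

set_option autoImplicit false
set_option linter.style.haveILetI false
set_option linter.unusedSectionVars false

noncomputable section

namespace CfsgLib.DihedralBlock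

open Cfsg CfsgLib.Blocks MonoidAlgebra CfsgLib.BrauerPairs CfsgLib.BlockStar
open CfsgLib.BrauerCharacters (cenElem commute_cenElem blockFinset mem_blockFinset secPart contrib)
open CfsgLib.BlockSections (belowBlock secX secQuot secField)
open scoped ComplexConjugate

variable {G : Type*} [Group G] [Fintype G] {M : Ideal AlgInt} [M.IsPrime]

/-- The block idempotent at an element below the pair. -/
abbrev belowIdem (D : Subgroup G) (e0 : MonoidAlgebra (Res M) G) (v : G) [Fact (2 : ℕ).Prime] :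
    MonoidAlgebra (Res M) G :=
  subIdem M (Subgroup.centralizer ({v} : Set G)) (belowBlock (M := M) 2 D e0 v)

/-- The output of the local analysis. -/
structure IsRotData [Fact (2 : ℕ).Prime] (D : Subgroup G) (e0 : MonoidAlgebra (Res M) G) (r : G)
    {N : ℕ} [NeZero N] (a : IrrCharacter G → ZMod N → ℤ) (π : G → ℂ) : Prop where
  even : ∀ χ j, a χ (-j) = a χ j
  val_eq : ∀ i : ZMod N, i ≠ 0 → ∀ (χ : IrrCharacter G), ∀ g ∈ secSet 2 (rot r i),
    val χ g (belowIdem D e0 (rot r i)) = rotVal (a χ) i * π g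
  norm_eq : ∀ i : ZMod N, i ≠ 0 →
    (Nat.card ↥(D ⊓ Subgroup.centralizer ({rot r i} : Set G)) : ℂ) *
        ∑ g ∈ secSet 2 (rot r i), π g * conj (π g) =
      (Nat.card (Subgroup.centralizer ({rot r i} : Set G)) : ℂ)

variable [Fact (2 : ℕ).Prime] [CharP (Res M) 2] [IsAlgClosed (Res M)]
  {B : Set (IrrCharacter G)} {D : Subgroup G} {e0 : MonoidAlgebra (Res M) G}
  {r : G} {N : ℕ} [NeZero N]

theorem exists_isRotData (hM : IsPModular 2 M) (hB : IsPBlock M B)
    (hmax : IsMaxPair 2 (⊤ : Subgroup G) (redElem M (blockCoeff B)) D e0) (h : IsDih D r N) :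
    ∃ (a : IrrCharacter G → ZMod N → ℤ) (π : G → ℂ), IsRotData (M := M) D e0 r a π := by
  obtain ⟨a, π, h1, h2, h3⟩ := exists_local_data hM hB hmax h
  exact ⟨a, π, h1, h2, h3⟩

variable {a : IrrCharacter G → ZMod N → ℤ} {π : G → ℂ}
  (hM : IsPModular 2 M) (hB : IsPBlock M B)
  (hmax : IsMaxPair 2 (⊤ : Subgroup G) (redElem M (blockCoeff B)) D e0) (h : IsDih D r N)
  (R : IsRotData (M := M) D e0 r a π)
include h

omit [CharP (Res M) 2] [IsAlgClosed (Res M)] [M.IsPrime] in
/-- The orders of the centralisers in the defect group. -/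
theorem card_inf_rot {i : ZMod N} (hi : i ≠ 0) :
    Nat.card ↥(D ⊓ Subgroup.centralizer ({rot r i} : Set G)) = if i = -i then 2 * N else N := by
  split_ifs with h2
  · rw [eq_half_of_eq_neg h hi h2, rot_half h, h.inf_centralizer_z, h.card_eq]
  · rw [h.inf_centralizer (rot_mem_zpowers r i) (rot_sq_ne_one h h2), Nat.card_zpowers, h.orderOf_r]

omit [CharP (Res M) 2] [IsAlgClosed (Res M)] [M.IsPrime] in
theorem rot_mem_group (i : ZMod N) : rot r i ∈ D := h.rot_mem (rot_mem_zpowers r i)

omit [CharP (Res M) 2] [IsAlgClosed (Res M)] [M.IsPrime] in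
theorem exists_orderOf_rot (i : ZMod N) : ∃ k, orderOf (rot r i) = 2 ^ k :=
  h.exists_orderOf (rot_mem_group h i)

include R

/-- A point of the section where the common factor does not vanish. -/
theorem exists_pi_ne_zero {i : ZMod N} (hi : i ≠ 0) :
    ∃ g ∈ secSet 2 (rot r i), π g ≠ 0 := by
  by_contra hc
  push Not at hc
  have h1 := R.norm_eq i hi
  rw [Finset.sum_eq_zero fun g hg => by rw [hc g hg, zero_mul], mul_zero] at h1
  exact Nat.cast_ne_zero.2 Nat.card_pos.ne' h1.symm

include hM hB hmax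

/-- The block parts as parts of restrictions. -/
theorem exists_secPart_eq {i : ZMod N} (hi : i ≠ 0)
    [Fintype (Subgroup.centralizer ({rot r i} : Set G))] :
    ∃ (s : Subgroup.centralizer ({rot r i} : Set G)) (k : ℂ), ¬ 2 ∣ orderOf s ∧ k ≠ 0 ∧
      ∀ χ : IrrCharacter G,
        secPart (rot r i) (belowBlock (M := M) 2 D e0 (rot r i)) χ s = rotVal (a χ) i * k := by
  obtain ⟨g, hg, hne⟩ := exists_pi_ne_zero h R hi
  obtain ⟨w, hw, hcw, hk, hreg⟩ := mem_secSet.1 hg
  have hwC : w ∈ Subgroup.centralizer ({rot r i} : Set G) :=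
    Subgroup.mem_centralizer_singleton_iff.2 hcw.symm.eq
  refine ⟨⟨w, hwC⟩, π g, by rwa [Subgroup.orderOf_mk], hne, fun χ => ?_⟩
  have hgs : ((cenElem (rot r i) * ⟨w, hwC⟩ : Subgroup.centralizer ({rot r i} : Set G)) : G) = g := hw
  rw [secPart_eq_subFun, ← val_subIdem χ _
    (BlockSections.belowBlock_spec hM hB hmax (rot_mem_group h i)).1, hgs]
  exact R.val_eq i hi χ g hg

variable [∀ y : G, Fintype (Subgroup.centralizer ({y} : Set G))]

/-- The contributions. -/
theorem card_mul_contrib {i : ZMod N} (hi : i ≠ 0) (χ ψ : IrrCharacter G) :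
    (Nat.card ↥(D ⊓ Subgroup.centralizer ({rot r i} : Set G)) : ℂ) *
        contrib (rot r i) (belowBlock (M := M) 2 D e0 (rot r i)) 2 χ ψ =
      rotVal (a χ) i * rotVal (a ψ) i := by
  have hC : (Nat.card (Subgroup.centralizer ({rot r i} : Set G)) : ℂ) ≠ 0 :=
    Nat.cast_ne_zero.2 Nat.card_pos.ne'
  have h1 := secPairing_eq_subPair hM hB hmax (rot_mem_group h i) χ ψ
  rw [show subPair (Subgroup.centralizer ({rot r i} : Set G)) 2 (cenElem (rot r i))
      (belowBlock (M := M) 2 D e0 (rot r i)) (belowBlock (M := M) 2 D e0 (rot r i)) χ ψ =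
      contrib (rot r i) (belowBlock (M := M) 2 D e0 (rot r i)) 2 χ ψ from rfl, secPairing,
    Finset.sum_congr rfl (g := fun g => rotVal (a χ) i * rotVal (a ψ) i * (π g * conj (π g)))
      fun g hg => by
        rw [show val χ g (subIdem M _ (belowBlock (M := M) 2 D e0 (rot r i))) = _ from
            R.val_eq i hi χ g hg,
          show val ψ g (subIdem M _ (belowBlock (M := M) 2 D e0 (rot r i))) = _ from
            R.val_eq i hi ψ g hg, map_mul, conj_rotVal (R.even ψ)]
        ring, ← Finset.mul_sum] at h1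
  have h2 := R.norm_eq i hi
  refine mul_left_cancel₀ hC ?_
  rw [mul_left_comm, ← h1]
  linear_combination rotVal (a χ) i * rotVal (a ψ) i * h2

/-- The scaled contributions. -/
theorem coe_secX_rot {i : ZMod N} (hi : i ≠ 0) (χ ψ : IrrCharacter G) :
    (secX (rot r i) (belowBlock (M := M) 2 D e0 (rot r i)) 2 χ ψ : ℂ) =
      rotVal (a χ) i * rotVal (a ψ) i := by
  rw [BlockSections.coe_secX, ← card_mul_contrib hM hB hmax h R hi, ←
    pow_blockDefect_below hM hB hmax h (rot_mem_zpowers r i) (rot_ne_one h hi)]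
  push_cast
  rfl

/-- The coefficients vanish outside the block. -/
theorem rotVal_eq_zero_of_notMem {i : ZMod N} (hi : i ≠ 0) {χ : IrrCharacter G} (hχ : χ ∉ B) :
    rotVal (a χ) i = 0 := by
  have hind := (BlockSections.belowBlock_spec hM hB hmax (rot_mem_group h i)).2.2
  have h1 := card_mul_contrib hM hB hmax h R hi χ χ
  rw [BlockSections.contrib_eq_zero_of_notMem (hM := hM) (hy := exists_orderOf_rot h i) (hind := hind)
    (hχ := hχ), mul_zero] at h1
  exact mul_self_eq_zero.1 h1.symm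

variable [Fintype (IrrCharacter G)]

/-- Sums over the block. -/
theorem sum_block_eq {i : ZMod N} (hi : i ≠ 0) (f : IrrCharacter G → ℂ) :
    ∑ χ ∈ blockFinset B, f χ * rotVal (a χ) i = ∑ χ : IrrCharacter G, f χ * rotVal (a χ) i :=
  Finset.sum_subset (Finset.subset_univ _) fun χ _ hχ => by
    rw [rotVal_eq_zero_of_notMem hM hB hmax h R hi fun hm => hχ (mem_blockFinset.2 hm), mul_zero]

/-- The coefficients are orthogonal to the regular columns. -/
theorem sum_apply_mul_rotVal_eq_zero {i : ZMod N} (hi : i ≠ 0) {g : G} (hg : ¬ 2 ∣ orderOf g) :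
    ∑ χ ∈ blockFinset B, (χ : G → ℂ) g * rotVal (a χ) i = 0 := by
  rw [sum_block_eq hM hB hmax h R hi]
  obtain ⟨s, k, hs, hk, hval⟩ := exists_secPart_eq hM hB hmax h R hi
  have h1 := sum_apply_mul_secPart_eq_zero hM (exists_orderOf_rot h i)
    (BlockSections.belowBlock_spec hM hB hmax (rot_mem_group h i)).1 hs (g := g) (x := 1)
    ⟨g, one_mul g, Commute.one_left g, ⟨0, by simp⟩, hg⟩
    fun hc => rot_ne_one h hi (inv_eq_one.1 (isConj_one_right.1 hc))
  simp only [hval, ← mul_assoc, ← Finset.sum_mul] at h1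
  exact (mul_eq_zero.1 h1).resolve_right hk

/-- The norms of the columns and the ranks at the rotations. -/
theorem sum_sq_rotVal {i : ZMod N} (hi : i ≠ 0) {χ1 : IrrCharacter G} (hχ1 : χ1 ∈ B)
    (h0 : blockHeight 2 B (χ1 : G → ℂ) = 0) :
    ∑ χ ∈ blockFinset B, rotVal (a χ) i * rotVal (a χ) i =
        (Nat.card ↥(D ⊓ Subgroup.centralizer ({rot r i} : Set G)) : ℂ) ∧
      blockRank 2 (belowBlock (M := M) 2 D e0 (rot r i)) = 1 := by
  obtain ⟨hbl, hle, hind⟩ := BlockSections.belowBlock_spec hM hB hmax (rot_mem_group h i)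
  set v := rot r i
  set b := belowBlock (M := M) 2 D e0 v with hb
  have hne : rotVal (a χ1) i ≠ 0 := fun e => by
    obtain ⟨c, g, hc, hg, hv⟩ :=
      exists_val_ne_zero_of_height_zero hM hB hmax hχ1 h0 (rot_mem_group h i)
    rw [(existsUnique_pairLE hmax.1.1 hc.le).unique hc hle] at hv
    exact hv (by rw [R.val_eq i hi χ1 g (mem_secSet.2 (hg ▸ ppart_spec g)), e, zero_mul])
  have hsum : ∑ χ : IrrCharacter G, rotVal (a χ) i * rotVal (a χ) i =
      ((2 ^ blockDefect 2 b : ℕ) : ℂ) := by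
    have h1 := congrArg Subtype.val
      (BlockSections.sum_secX_mul (b := b) (hM := hM) (hy := exists_orderOf_rot h i) (hb := hbl)
        (χ := χ1) (φ := χ1))
    simp only [AddSubmonoidClass.coe_finsetSum, MulMemClass.coe_mul, SubmonoidClass.coe_pow] at h1
    rw [show ((2 : ℕ) : secField v).val = ((2 : ℕ) : ℂ) from map_natCast (secField v).val 2] at h1
    simp only [hb, v, coe_secX_rot hM hB hmax h R hi] at h1
    refine mul_left_cancel₀ (mul_ne_zero hne hne) ?_
    rw [Finset.mul_sum]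
    push_cast at h1 ⊢
    rw [mul_comm _ ((2 : ℂ) ^ _), ← h1]
    exact Finset.sum_congr rfl fun χ _ => by ring
  have hc := pow_blockDefect_below hM hB hmax h (rot_mem_zpowers r i) (rot_ne_one h hi)
  refine ⟨by rw [sum_block_eq hM hB hmax h R hi, hsum, hb, hc], ?_⟩
  have h2 := BlockSections.sum_contrib_self (y := v) (hM := hM) (p := 2) (hb := hbl) (hy := exists_orderOf_rot h i)
  have h3 : ((2 ^ blockDefect 2 b : ℕ) : ℂ) * (blockRank 2 b : ℂ) =
      ((2 ^ blockDefect 2 b : ℕ) : ℂ) * 1 := by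
    rw [mul_one, ← h2, Finset.mul_sum]
    refine Eq.trans (Finset.sum_congr rfl fun χ _ => ?_) hsum
    rw [hb, hc]
    exact card_mul_contrib hM hB hmax h R hi χ χ
  exact_mod_cast mul_left_cancel₀ (Nat.cast_ne_zero.2 (pow_ne_zero _ two_ne_zero)) h3

/-- Different rotations have orthogonal columns. -/
theorem sum_mul_rotVal_eq_zero {i k : ZMod N} (hi : i ≠ 0) (hk : k ≠ 0) (hik : i ≠ k)
    (hik' : i ≠ -k) : ∑ χ ∈ blockFinset B, rotVal (a χ) i * rotVal (a χ) k = 0 := by
  rw [sum_block_eq hM hB hmax h R hk fun χ => rotVal (a χ) i]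
  obtain ⟨s, ki, hs, hki, hvi⟩ := exists_secPart_eq hM hB hmax h R hi
  obtain ⟨t, kk, ht, hkk, hvk⟩ := exists_secPart_eq hM hB hmax h R hk
  have hbi := (BlockSections.belowBlock_spec hM hB hmax (rot_mem_group h i)).1
  have hbk := (BlockSections.belowBlock_spec hM hB hmax (rot_mem_group h k)).1
  suffices key : ∃ K : ℂ, K ≠ 0 ∧
      ∑ χ : IrrCharacter G, rotVal (a χ) i * rotVal (a χ) k * K = 0 by
    obtain ⟨K, hK, h1⟩ := key
    rw [← Finset.sum_mul] at h1
    exact (mul_eq_zero.1 h1).resolve_right hK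
  by_cases hconj : IsConj (rot r i) (rot r k)⁻¹
  swap
  · refine ⟨ki * kk, mul_ne_zero hki hkk, ?_⟩
    rw [← sum_subFun_mul_secPart_eq_zero hM _ hbi (a := cenElem (rot r i) * s)
      (x := cenElem (rot r i))
      ⟨s, rfl, commute_cenElem (rot r i) s, by
        obtain ⟨l, hl⟩ := exists_orderOf_rot h i
        exact ⟨l, by rw [← hl]; exact (Subgroup.orderOf_coe _).symm⟩, hs⟩
      (exists_orderOf_rot h k) hbk ht hconj]
    refine Finset.sum_congr rfl fun χ _ => ?_
    rw [← secPart_eq_subFun, hvi χ, hvk χ]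
    ring
  -- conjugate to the inverse: the pairs differ
  obtain ⟨c, hc⟩ := isConj_iff.1 hconj
  rw [← rot_neg h] at hc
  obtain ⟨u, ku, hu, hku, hvu⟩ := exists_secPart_eq hM hB hmax h R (neg_ne_zero.2 hk)
  have hbu := (BlockSections.belowBlock_spec hM hB hmax (rot_mem_group h (-k))).1
  have hcen : cj c (Subgroup.centralizer ({(rot r i)} : Set G)) = Subgroup.centralizer ({(rot r (-k))} : Set G) := by
    rw [← BrauerCharacters.centralizer_zpowers_eq (rot r i), ← cj_centralizer, BlockStar.cj_zpowers, hc,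
      BrauerCharacters.centralizer_zpowers_eq]
  obtain ⟨b', hb', hb'id⟩ := exists_isPBlock_subIdem (M := M)
    (hcen ▸ (isBlockIdem_subIdem (M := M) hbi).conj_cj c)
  have hne : b' ≠ belowBlock (M := M) 2 D e0 (rot r (-k)) := by
    intro e
    rw [e] at hb'id
    have hvw : Subgroup.zpowers (rot r i) = Subgroup.zpowers (rot r (-k)) :=
      h.zpowers_eq (rot_mem_zpowers r i) (rot_mem_zpowers r (-k)) (by
        rw [← hc, ← MulAut.conj_apply]; exact ((MulAut.conj c).orderOf_eq (rot r i)).symm)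
    rw [subIdem_below_congr hM hB hmax h (rot_mem_group h (-k)) (rot_mem_group h i) hvw.symm]
      at hb'id
    have hv2 : (rot r i) * (rot r i) ≠ 1 := by
      intro h2
      have e1 : (rot r i) = r ^ (N / 2) :=
        (h.eq_z (rot_mem_zpowers r i) h2).resolve_left (rot_ne_one h hi)
      have e2 : (rot r (-k)) = r ^ (N / 2) := (h.eq_z (rot_mem_zpowers r (-k)) (by
        rw [← hc, show c * (rot r i) * c⁻¹ * (c * (rot r i) * c⁻¹) = c * ((rot r i) * (rot r i)) * c⁻¹ by group, h2]
        group)).resolve_left (rot_ne_one h (neg_ne_zero.2 hk))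
      exact hik' (rot_injective h (e1.trans e2.symm))
    rcases conj_eq_or_eq_inv hM hB hmax h (rot_mem_zpowers r i) hv2
      (by rw [hc, hvw]; exact Subgroup.mem_zpowers (rot r (-k))) hb'id.symm with e1 | e1
    · exact hik' (rot_injective h (e1.symm.trans hc))
    · rw [hc, ← rot_neg h] at e1
      exact hik (neg_injective (rot_injective h e1)).symm
  obtain ⟨g, hg, hgne⟩ := exists_pi_ne_zero h R hi
  have hg' : c * g * c⁻¹ ∈ secSet 2 (rot r (-k)) := hc ▸ mem_secSet.2 (Blocks.IsPPart.conj (mem_secSet.1 hg) c)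
  obtain ⟨x, hx, hcx, -, hxreg⟩ := mem_secSet.1 hg'
  have hxC : x ∈ Subgroup.centralizer ({(rot r (-k))} : Set G) :=
    Subgroup.mem_centralizer_singleton_iff.2 hcx.symm.eq
  have h1 := sum_secPart_mul_conj_eq_zero_of_ne hM (exists_orderOf_rot h (-k)) hb' hbu hne
    (s := ⟨x, hxC⟩) (t := u) (by rwa [Subgroup.orderOf_mk]) hu
  refine ⟨π g * conj ku, mul_ne_zero hgne ((map_ne_zero _).2 hku), ?_⟩
  rw [← h1]
  refine Finset.sum_congr rfl fun χ _ => ?_
  have hgs : ((cenElem (rot r (-k)) * ⟨x, hxC⟩ : Subgroup.centralizer ({(rot r (-k))} : Set G)) : G) = c * g * c⁻¹ := hx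
  have hgC : g ∈ Subgroup.centralizer ({(rot r i)} : Set G) :=
    Subgroup.mem_centralizer_singleton_iff.2 (commute_of_isPPart (mem_secSet.1 hg)).symm.eq
  have h2 : secPart (rot r (-k)) b' χ ⟨x, hxC⟩ = rotVal (a χ) i * π g := by
    rw [secPart_eq_subFun, ← val_subIdem χ _ hb', hgs, hb'id,
      val_conj χ c (isBlockIdem_subIdem (M := M) hbi).mul_self (commute_subIdem hbi hgC)]
    exact R.val_eq i hi χ g hg
  rw [h2, hvu χ, map_mul, conj_rotVal (R.even χ), rotVal_neg (R.even χ)]
  ring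

/-- The relations of the coefficient systems. -/
theorem rel_coeff {χ1 : IrrCharacter G} (hχ1 : χ1 ∈ B) (h0 : blockHeight 2 B (χ1 : G → ℂ) = 0)
    {m : ℕ} (hN : N = 2 * (m + 1)) :
    Rel m fun (x : blockFinset B) j => a x.1 (j : ZMod N) := by
  refine rel_of_rotVal (fun x : blockFinset B => a x.1) hN fun i k hi hk => ?_
  rw [Finset.sum_coe_sort (blockFinset B) (fun χ => rotVal (a χ) i * rotVal (a χ) k)]
  by_cases h1 : i = k
  · subst h1
    rw [(sum_sq_rotVal hM hB hmax h R hi hχ1 h0).1, card_inf_rot h hi, if_pos rfl]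
    split_ifs <;> push_cast <;> ring
  · by_cases h2 : i = -k
    · subst h2
      simp only [rotVal_neg (R.even _)]
      rw [(sum_sq_rotVal hM hB hmax h R hk hχ1 h0).1, card_inf_rot h hk,
        if_neg fun e => h1 e.symm, if_neg h1]
      simp
    · rw [if_neg h1, if_neg h2, sum_mul_rotVal_eq_zero hM hB hmax h R hi hk h1 h2]
      ring

/-- The rank of the block. -/
theorem blockRank_add_half_le {χ1 : IrrCharacter G} (hχ1 : χ1 ∈ B)
    (h0 : blockHeight 2 B (χ1 : G → ℂ) = 0) : blockRank 2 B + N / 2 ≤ Nat.card B := by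
  have hN := h.two_mul_half
  have h4 := h.four_le
  set w : Fin (N / 2) → ZMod N := fun j => ((j.1 + 1 : ℕ) : ZMod N) with hw
  have hw0 : ∀ j, w j ≠ 0 := fun j e => by
    rw [hw, ZMod.natCast_eq_zero_iff] at e
    have := Nat.le_of_dvd (by omega) e
    omega
  have hwinj : ∀ i j, i ≠ j → w i ≠ w j ∧ w i ≠ -w j := by
    intro i j hij
    have := i.isLt; have := j.isLt
    refine ⟨fun e => hij (Fin.ext ?_), fun e => ?_⟩
    · have e' := congrArg ZMod.val e
      simp only [hw, ZMod.val_natCast] at e'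
      rw [Nat.mod_eq_of_lt (by omega), Nat.mod_eq_of_lt (by omega)] at e'
      omega
    · rw [eq_neg_iff_add_eq_zero] at e
      simp only [hw, ← Nat.cast_add, ZMod.natCast_eq_zero_iff] at e
      have hne : (i.1 + 1) + (j.1 + 1) < N := by
        have : i.1 ≠ j.1 := fun e' => hij (Fin.ext e')
        omega
      have := Nat.le_of_dvd (by omega) e
      omega
  have h1 := blockRank_add_le (p := 2) (B := B) (fun j χ => rotVal (a χ) (w j))
    (fun j g hg => sum_apply_mul_rotVal_eq_zero hM hB hmax h R (hw0 j) hg)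
    (fun i j hij => sum_mul_rotVal_eq_zero hM hB hmax h R (hw0 i) (hw0 j) (hwinj i j hij).1
      (hwinj i j hij).2)
    (fun j => by
      rw [(sum_sq_rotVal hM hB hmax h R (hw0 j) hχ1 h0).1]
      exact Nat.cast_ne_zero.2 Nat.card_pos.ne')
  rwa [Fintype.card_fin] at h1

/-- The divisibility at the central involution. -/
theorem exists_odd_valZ {m : ℕ} (hodd : Odd m) (hN : N = 2 * (m + 1)) {χ : IrrCharacter G}
    (hχ : χ ∈ B) {χ1 : IrrCharacter G} (hχ1 : χ1 ∈ B) (h0 : blockHeight 2 B (χ1 : G → ℂ) = 0) :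
    ∃ q : ℤ, Odd q ∧
      valZ m (fun (_ : Unit) j => a χ (j : ZMod N)) () *
          valZ m (fun (_ : Unit) j => a χ1 (j : ZMod N)) () =
        2 ^ blockHeight 2 B (χ : G → ℂ) * q := by
  set i : ZMod N := ((N / 2 : ℕ) : ZMod N) with hi
  have hm : N / 2 = m + 1 := by omega
  have hi0 : i ≠ 0 := fun e => by
    rw [hi, ZMod.natCast_eq_zero_iff] at e
    have := Nat.le_of_dvd (by omega) e
    have := h.four_le
    omega
  have hneg : i = -i := by
    rw [eq_neg_iff_add_eq_zero, hi, ← Nat.cast_add, ← two_mul, h.two_mul_half, ZMod.natCast_self]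
  obtain ⟨hbl, -, hind⟩ := BlockSections.belowBlock_spec hM hB hmax (rot_mem_group h i)
  have hD : IsDefectGroup 2 M B D := (isDefectGroup_iff hM hB).2
    (hmax.isDefectIn (isBlockIdem_redElem_blockCoeff hB))
  have hd : blockDefect 2 (belowBlock (M := M) 2 D e0 (rot r i)) = blockDefect 2 B := by
    apply Nat.pow_right_injective le_rfl
    show 2 ^ _ = 2 ^ _
    rw [pow_blockDefect_below hM hB hmax h (rot_mem_zpowers r i) (rot_ne_one h hi0),
      card_inf_rot h hi0, if_pos hneg, ← h.card_eq, Blocks.card_isDefectGroup hM hB hD]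
  have hint := BlockSections.isIntegral_secQuot (rot r i) _ hM (exists_orderOf_rot h i) hind hd hχ χ1
  have hnot := BlockSections.not_memLocalIdeal_secQuot (rot r i) _ hM (exists_orderOf_rot h i) hind
    hd hχ hχ1 h0
  have hmul := BlockSections.coe_secQuot_mul (B := B) (p := 2) (rot r i)
    (belowBlock (M := M) 2 D e0 (rot r i)) χ χ1
  rw [coe_secX_rot hM hB hmax h R hi0] at hmul
  have hhalf : ∀ φ : IrrCharacter G, rotVal (a φ) i =
      ((valZ m (fun (_ : Unit) j => a φ (j : ZMod N)) () : ℤ) : ℂ) := fun φ => by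
    rw [hi, hm]; exact rotVal_half (R.even φ) hodd hN
  simp only [hhalf] at hmul
  set x := valZ m (fun (_ : Unit) j => a χ (j : ZMod N)) ()
  set x1 := valZ m (fun (_ : Unit) j => a χ1 (j : ZMod N)) ()
  set H := blockHeight 2 B (χ : G → ℂ)
  set Qv := (secQuot (rot r i) (belowBlock (M := M) 2 D e0 (rot r i)) 2 B χ χ1 : ℂ)
  have hQ : Qv = ((((x * x1 : ℤ) : ℚ) / (2 : ℚ) ^ H : ℚ) : ℂ) := by
    push_cast at hmul ⊢
    rw [eq_div_iff (pow_ne_zero _ two_ne_zero), mul_comm, hmul]
  rw [hQ] at hint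
  obtain ⟨q, hq⟩ := CharTheory.exists_int_of_isIntegral_ratCast hint
  refine ⟨q, ?_, ?_⟩
  · rw [← Int.not_even_iff_odd]
    intro he
    apply hnot
    have h2 : Qv = (q : ℂ) := by
      rw [hQ, ← hq]
      norm_cast
    show MemLocalIdeal M Qv
    rw [h2]
    exact (memLocalIdeal_intCast_iff hM q).2 (even_iff_two_dvd.1 he)
  · rw [eq_div_iff (pow_ne_zero _ two_ne_zero)] at hq
    rw [mul_comm _ q]
    exact_mod_cast hq.symm

end CfsgLib.DihedralBlock
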