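import Cfsg.Agent.Lib.Involutions.DihedralConfig

/-!
# Integer vectors of norm two with mutual products one

Unless there are exactly three of them they share a constituent.
-/

set_option autoImplicit false

namespace CfsgLib.DihedralBlock

open Finset CfsgLib.Involutions

variable {ι : Type*} [Fintype ι] [DecidableEq ι]

/-- The other constituent of a vector of norm two. -/
theorem exists_other {f : ι → ℤ} (h : ∑ x, f x * f x = 2) {a : ι} (ha : f a ≠ 0) :
    ∃ c : ι, ∃ u : ℤ, c ≠ a ∧ (u = 1 ∨ u = -1) ∧ f = Pi.single a (f a) + Pi.single c u := by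
  obtain ⟨x, y, s, t, hxy, hs, ht, hf⟩ := exists_two_single h
  by_cases hxa : x = a
  · subst hxa
    refine ⟨y, t, hxy.symm, ht, ?_⟩
    conv_lhs => rw [hf]
    simp [hf, hxy]
  · have hya : y = a := by
      by_contra hya
      exact ha (by simp [hf, Ne.symm hxa, Ne.symm hya])
    subst hya
    refine ⟨x, s, hxy, hs, ?_⟩
    conv_lhs => rw [hf, add_comm]
    simp [hf, hxy.symm]

/-- Two such vectors share exactly one constituent, with the same sign. -/
theorem cases_pair {f g : ι → ℤ} (hg : ∑ x, g x * g x = 2) {a b : ι} {s t : ℤ}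
    (hs : s = 1 ∨ s = -1) (ht : t = 1 ∨ t = -1)
    (hf : f = Pi.single a s + Pi.single b t) (h : ∑ x, g x * f x = 1) :
    (g a = s ∧ g b = 0) ∨ (g a = 0 ∧ g b = t) := by
  rw [hf, sum_mul_two_single] at h
  have hone : ∀ x, g x = 0 ∨ g x = 1 ∨ g x = -1 := fun x => by
    by_cases e : g x = 0
    · exact Or.inl e
    · exact Or.inr ((support_of_sq_le_three (k := 2) (by norm_num) (by exact_mod_cast hg)).2 x e)
  have h2 := hone a
  have h3 := hone b
  rcases hs with rfl | rfl <;> rcases ht with rfl | rfl <;> omega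

/-- A family of vectors of norm two with mutual products one, not three in number, is a star. -/
theorem exists_star {κ : Type*} [Fintype κ] (v : κ → ι → ℤ)
    (hnorm : ∀ i, ∑ x, v i x * v i x = 2) (hprod : ∀ i j, i ≠ j → ∑ x, v i x * v j x = 1)
    (h2 : 2 ≤ Fintype.card κ) (h3 : Fintype.card κ ≠ 3) :
    ∃ a : ι, ∃ s : ℤ, ∃ c : κ → ι, ∃ u : κ → ℤ, (s = 1 ∨ s = -1) ∧ (∀ i, u i = 1 ∨ u i = -1) ∧
      Function.Injective c ∧ (∀ i, c i ≠ a) ∧
      ∀ i, v i = Pi.single a s + Pi.single (c i) (u i) := by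
  classical
  obtain ⟨i0, i1, h01⟩ := Fintype.exists_pair_of_one_lt_card h2
  -- a common constituent of two of them
  obtain ⟨a, b, s, t, hab, hs, ht, hv0, h1a, h1b⟩ : ∃ a b : ι, ∃ s t : ℤ, a ≠ b ∧
      (s = 1 ∨ s = -1) ∧ (t = 1 ∨ t = -1) ∧ v i0 = Pi.single a s + Pi.single b t ∧
      v i1 a = s ∧ v i1 b = 0 := by
    obtain ⟨a, b, s, t, hab, hs, ht, hv0⟩ := exists_two_single (hnorm i0)
    rcases cases_pair (hnorm i1) hs ht hv0 (hprod i1 i0 h01.symm) with ⟨ha, hb⟩ | ⟨ha, hb⟩
    · exact ⟨a, b, s, t, hab, hs, ht, hv0, ha, hb⟩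
    · exact ⟨b, a, t, s, hab.symm, ht, hs, hv0.trans (add_comm _ _), hb, ha⟩
  have hs0 : s ≠ 0 := by rcases hs with e | e <;> omega
  obtain ⟨p, w, hpa, hw, hv1⟩ := exists_other (hnorm i1) (a := a) (by omega)
  rw [h1a] at hv1
  have hpb : p ≠ b := fun e => by
    subst e
    have := congrFun hv1 p
    rw [h1b] at this
    rcases hw with rfl | rfl <;> simp [hpa] at this
  have hall : ∀ k, v k a = s := by
    by_contra hcon
    push Not at hcon
    obtain ⟨k, hk⟩ := hcon
    have hk0 : k ≠ i0 := fun e => hk (by subst e; simp [hv0, hab])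
    have hk1 : k ≠ i1 := fun e => hk (e ▸ h1a)
    obtain ⟨hka, hkb⟩ := (cases_pair (hnorm k) hs ht hv0 (hprod k i0 hk0)).resolve_left
      fun h => hk h.1
    obtain ⟨-, hkp⟩ := (cases_pair (hnorm k) hs hw hv1 (hprod k i1 hk1)).resolve_left
      fun h => hk h.1
    obtain ⟨q, r, hqb, hr, hvk⟩ := exists_other (hnorm k) (a := b) (by rcases ht with e | e <;> omega)
    rw [hkb] at hvk
    have hqp : q = p := by
      by_contra hne
      have := congrFun hvk p
      rw [hkp] at this
      rcases hw with rfl | rfl <;> simp [hpb, Ne.symm hne] at this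
    subst hqp
    have hrw : r = w := by
      have := congrFun hvk q
      rw [hkp] at this
      simpa [hpb] using this.symm
    subst hrw
    apply h3
    rw [← Finset.card_univ, Finset.card_eq_three]
    refine ⟨i0, i1, k, h01, hk0.symm, hk1.symm, Finset.ext fun l => ⟨fun _ => ?_, fun _ => mem_univ l⟩⟩
    by_contra hl
    simp only [mem_insert, mem_singleton, not_or] at hl
    have hlk := cases_pair (hnorm l) ht hr hvk (hprod l k hl.2.2)
    rcases cases_pair (hnorm l) hs ht hv0 (hprod l i0 hl.1) with ⟨hla, hlb⟩ | ⟨hla, hlb⟩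
    · rcases cases_pair (hnorm l) hs hr hv1 (hprod l i1 hl.2.1) with ⟨-, hlq⟩ | ⟨hla', -⟩
      · rcases hlk with ⟨e, -⟩ | ⟨-, e⟩
        · rcases ht with e' | e' <;> omega
        · rcases hr with e' | e' <;> omega
      · omega
    · rcases cases_pair (hnorm l) hs hr hv1 (hprod l i1 hl.2.1) with ⟨hla', -⟩ | ⟨-, hlq⟩
      · omega
      · rcases hlk with ⟨-, e⟩ | ⟨e, -⟩
        · rcases hr with e' | e' <;> omega
        · rcases ht with e' | e' <;> omega
  have hex : ∀ i, ∃ c : ι, ∃ u : ℤ, c ≠ a ∧ (u = 1 ∨ u = -1) ∧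
      v i = Pi.single a s + Pi.single c u := fun i => by
    have h := exists_other (hnorm i) (a := a) (by rw [hall i]; exact hs0)
    rwa [hall i] at h
  choose c u hca hu hv using hex
  refine ⟨a, s, c, u, hs, hu, fun i j hij => ?_, hca, hv⟩
  by_contra hne
  have h := hprod i j hne
  rw [hv j, sum_mul_two_single, hv i, hij] at h
  simp only [Pi.add_apply, Pi.single_eq_same, Pi.single_eq_of_ne (hca j),
    Pi.single_eq_of_ne (hca j).symm, zero_add, add_zero] at h
  rcases hs with rfl | rfl <;> rcases hu i with e | e <;> rcases hu j with e' | e' <;>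
    rw [e, e'] at h <;> omega

end CfsgLib.DihedralBlock
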